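import Cfsg.Agent.Lib.Chevalley.SL2
import Cfsg.Agent.Lib.Twisted.GraphFixed

/-!
A subgroup of `SL₂(q²)` or `SL₂(q³)` holding `SL₂(q)` and one more upper transvection holds all of them.
-/

set_option autoImplicit false

namespace CfsgLib.SubfieldTwisted

open CfsgLib.Chevalley (slX slW slY slY_eq slX_coe slY_coe slW_coe)
open Matrix (SpecialLinearGroup)

variable {K : Type*} [Field K]

theorem slX_mul (a b : K) : slX a * slX b = slX (a + b) := by
  apply Subtype.ext
  simp [Matrix.SpecialLinearGroup.coe_mul, add_comm a b]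

theorem slX_zero : slX (0 : K) = 1 := by
  apply Subtype.ext
  simp [Matrix.one_fin_two]

/-- the upper transvections of a subgroup -/
def upper (X : Subgroup (SpecialLinearGroup (Fin 2) K)) : AddSubgroup K where
  carrier := {t | slX t ∈ X}
  zero_mem' := by simp [slX_zero]
  add_mem' := fun {a b} ha hb => by rw [Set.mem_ofPred_eq, ← slX_mul]; exact mul_mem ha hb
  neg_mem' := fun {a} ha => by
    rw [Set.mem_ofPred_eq, show slX (-a) = (slX a)⁻¹ from
      eq_inv_of_mul_eq_one_left (by rw [slX_mul, neg_add_cancel, slX_zero])]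
    exact inv_mem ha

/-- A triangular element scales the upper transvections. -/
theorem upper_scale {X : Subgroup (SpecialLinearGroup (Fin 2) K)} {g : SpecialLinearGroup (Fin 2) K} (hg : g ∈ X)
    (h10 : g.1 1 0 = 0) {s : K} (hs : s ∈ upper X) : g.1 0 0 * g.1 0 0 * s ∈ upper X := by
  show slX _ ∈ X
  have e : slX (g.1 0 0 * g.1 0 0 * s) * g = g * slX s := by
    have hdet := g.2
    rw [Matrix.det_fin_two, h10, mul_zero, sub_zero] at hdet
    apply Subtype.ext
    simp only [Matrix.SpecialLinearGroup.coe_mul, slX_coe]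
    ext i j
    fin_cases i <;> fin_cases j <;> simp [Matrix.mul_apply, Fin.sum_univ_two, h10]
    linear_combination g.1 0 0 * s * hdet
  rw [eq_mul_inv_of_mul_eq e]
  exact mul_mem (mul_mem hg hs) (inv_mem hg)

section finite

variable [Fintype K] {q n : ℕ} {σ : K →+* K} (hσ : ∀ x, σ x = x ^ q) (hq : 2 ≤ q)
include hσ hq

theorem card_fixed (hK : Fintype.card K = q ^ n) : Nat.card {x : K // σ x = x} = q := by
  simp only [hσ]
  exact CfsgLib.Twisted.card_pow_eq_self hq hK

theorem pair_onto (hK : Fintype.card K = q ^ 2) {c : K} (hc : σ c ≠ c) (x : K) :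
    ∃ a b, σ a = a ∧ σ b = b ∧ a + b * c = x := by
  let f : {x : K // σ x = x} × {x : K // σ x = x} → K := fun p => p.1.1 + p.2.1 * c
  have hinj : Function.Injective f := by
    rintro ⟨⟨a, ha⟩, ⟨b, hb⟩⟩ ⟨⟨a', ha'⟩, ⟨b', hb'⟩⟩ e
    simp only [f] at e
    by_cases hbb : b = b'
    · subst hbb
      simp only [add_left_inj] at e
      subst e
      rfl
    · exfalso
      refine hc ?_
      have hne : b - b' ≠ 0 := sub_ne_zero.2 hbb
      rw [show c = (a' - a) / (b - b') by field_simp; linear_combination e, map_div₀, map_sub, map_sub, ha, ha',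
        hb, hb']
  obtain ⟨⟨⟨a, ha⟩, ⟨b, hb⟩⟩, e⟩ := ((Nat.bijective_iff_injective_and_card f).2 ⟨hinj, by
    rw [Nat.card_prod, card_fixed hσ hq hK, Nat.card_eq_fintype_card, hK, sq]⟩).2 x
  exact ⟨a, b, ha, hb, e⟩

theorem triple_onto (hK : Fintype.card K = q ^ 3) {c d : K} (hc : σ c ≠ c)
    (hd : ∀ a b, σ a = a → σ b = b → d ≠ a + b * c) (x : K) :
    ∃ a b e, σ a = a ∧ σ b = b ∧ σ e = e ∧ a + b * c + e * d = x := by
  let f : {x : K // σ x = x} × {x : K // σ x = x} × {x : K // σ x = x} → K :=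
    fun p => p.1.1 + p.2.1.1 * c + p.2.2.1 * d
  have hinj : Function.Injective f := by
    rintro ⟨⟨a, ha⟩, ⟨b, hb⟩, ⟨e, he⟩⟩ ⟨⟨a', ha'⟩, ⟨b', hb'⟩, ⟨e', he'⟩⟩ hf
    simp only [f] at hf
    by_cases hee : e = e'
    · subst hee
      simp only [add_left_inj] at hf
      by_cases hbb : b = b'
      · subst hbb
        simp only [add_left_inj] at hf
        subst hf
        rfl
      · exfalso
        refine hc ?_
        have hne : b - b' ≠ 0 := sub_ne_zero.2 hbb
        rw [show c = (a' - a) / (b - b') by field_simp; linear_combination hf, map_div₀, map_sub, map_sub, ha, ha',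
          hb, hb']
    · exfalso
      have hne : e - e' ≠ 0 := sub_ne_zero.2 hee
      refine hd ((a' - a) / (e - e')) ((b' - b) / (e - e')) ?_ ?_ ?_
      · rw [map_div₀, map_sub, map_sub, ha, ha', he, he']
      · rw [map_div₀, map_sub, map_sub, hb, hb', he, he']
      · field_simp
        linear_combination hf
  obtain ⟨⟨⟨a, ha⟩, ⟨b, hb⟩, ⟨e, he⟩⟩, hf⟩ := ((Nat.bijective_iff_injective_and_card f).2 ⟨hinj, by
    rw [Nat.card_prod, Nat.card_prod, card_fixed hσ hq hK, Nat.card_eq_fintype_card, hK, pow_succ', sq]⟩).2 x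
  exact ⟨a, b, e, ha, hb, he, hf⟩

/-- In the cubic extension the square of an outside element is outside its span. -/
theorem sq_not_pair (hK : Fintype.card K = q ^ 3) {c : K} (hc : σ c ≠ c) {a b : K} (ha : σ a = a) (hb : σ b = b) :
    c * c ≠ a + b * c := by
  intro e
  have h3 : σ (σ (σ c)) = c := by
    rw [hσ, hσ, hσ, ← pow_mul, ← pow_mul, show q * (q * q) = q ^ 3 by ring, ← hK, FiniteField.pow_card]
  have e1 := congrArg σ e
  rw [map_mul, map_add, map_mul, ha, hb] at e1
  have h2 : σ c = b - c := by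
    have : (σ c - c) * (σ c + c - b) = 0 := by linear_combination e1 - e
    rcases mul_eq_zero.1 this with h' | h'
    · exact absurd (sub_eq_zero.1 h') hc
    · linear_combination h'
  have h2' : σ (σ c) = c := by rw [h2, map_sub, hb, h2]; ring
  rw [h2'] at h3
  exact hc h3

variable {p : ℕ} [Fact p.Prime] [CharP K p] (hqp : ∃ a, 1 ≤ a ∧ q = p ^ a)
  {X : Subgroup (SpecialLinearGroup (Fin 2) K)} (hW : slW ∈ X) (hX : ∀ f, σ f = f → slX f ∈ X)
include hqp hW hX

omit hq hqp in
theorem slY_mem {f : K} (hf : f ∈ upper X) : slY f ∈ X := by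
  rw [slY_eq]
  exact mul_mem (mul_mem hW (show -f ∈ upper X from neg_mem hf)) (mul_mem (mul_mem hW hW) hW)

omit hq in
theorem upper_smul {s l : K} (hs : s ∈ upper X) (hl : σ l = l) : l * s ∈ upper X := by
  have hsq : ∀ m : K, σ m = m → m * m * s ∈ upper X := by
    intro m hm
    by_cases hm0 : m = 0
    · rw [hm0, zero_mul, zero_mul]; exact zero_mem _
    have hmi : σ (-m⁻¹) = -m⁻¹ := by rw [map_neg, map_inv₀, hm]
    have hg : slX m * slY (-m⁻¹) * slX m * (slW * slW * slW) ∈ X :=
      mul_mem (mul_mem (mul_mem (hX m hm) (slY_mem hσ hW hX (hX _ hmi))) (hX m hm)) (mul_mem (mul_mem hW hW) hW)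
    have e : (slX m * slY (-m⁻¹) * slX m * (slW * slW * slW)).1 = !![m, 0; 0, m⁻¹] := by
      simp only [Matrix.SpecialLinearGroup.coe_mul, slX_coe, slY_coe, slW_coe]
      ext i j
      fin_cases i <;> fin_cases j <;> simp [Matrix.mul_apply, Fin.sum_univ_two, hm0]
    have := upper_scale hg (by rw [e]; rfl) hs
    rwa [e] at this
  obtain ⟨a, ha1, hqa⟩ := hqp
  by_cases h2 : (2 : K) = 0
  · -- a square root in the ground field
    have hch : p = 2 := by
      have hd : p ∣ 2 := (CharP.cast_eq_zero_iff K p 2).1 (by exact_mod_cast h2)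
      exact (Nat.prime_dvd_prime_iff_eq Fact.out Nat.prime_two).1 hd
    have hqe : 2 * (q / 2) = q := by
      refine Nat.mul_div_cancel' ?_
      rw [hqa, hch]
      exact dvd_pow_self 2 (by omega)
    have := hsq (l ^ (q / 2)) (by rw [map_pow, hl])
    rwa [← pow_add, ← two_mul, hqe, ← hσ, hl] at this
  · have e : l * s = (l + 1) / 2 * ((l + 1) / 2) * s - (l - 1) / 2 * ((l - 1) / 2) * s := by field_simp; ring
    rw [e]
    refine sub_mem (hsq _ ?_) (hsq _ ?_) <;> simp [map_div₀, map_add, map_sub, hl, map_ofNat]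

/-- The quadratic case. -/
theorem slX_mem_two (hK : Fintype.card K = q ^ 2) {c : K} (hc : σ c ≠ c) (hcX : slX c ∈ X) (t : K) :
    slX t ∈ X := by
  obtain ⟨a, b, ha, hb, rfl⟩ := pair_onto hσ hq hK hc t
  exact (upper X).add_mem (hX a ha) (upper_smul hσ hqp hW hX hcX hb)

/-- The cubic case. -/
theorem slX_mem_three (hK : Fintype.card K = q ^ 3) {c : K} (hc : σ c ≠ c) (hcX : slX c ∈ X) (t : K) :
    slX t ∈ X := by
  have h1 : (1 : K) ∈ upper X := hX 1 (map_one σ)
  have hc' : c ∈ upper X := hcX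
  suffices hall : ∀ t, t ∈ upper X from hall t
  by_contra hne
  simp only [not_forall] at hne
  obtain ⟨x, hx⟩ := hne
  have hsm : ∀ {s l : K}, s ∈ upper X → σ l = l → l * s ∈ upper X := fun hs hl => upper_smul hσ hqp hW hX hs hl
  have hspan : ∀ s ∈ upper X, ∃ a b, σ a = a ∧ σ b = b ∧ s = a + b * c := by
    intro s hs
    by_contra hns
    simp only [not_exists, not_and] at hns
    obtain ⟨a, b, e, ha, hb, he, rfl⟩ := triple_onto hσ hq hK hc hns x
    exact hx (add_mem (add_mem (hX a ha) (hsm hc' hb)) (hsm hs he))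
  have hcc : ∀ a b, σ a = a → σ b = b → c * c ≠ a + b * c := fun a b ha hb => sq_not_pair hσ hq hK hc ha hb
  have hc0 : c ≠ 0 := fun e => hc (by rw [e, map_zero])
  have hc10 : c + 1 ≠ 0 := fun e => hc (by rw [show c = -1 by linear_combination e, map_neg, map_one])
  obtain ⟨a₀, a₁, a₂, ha₀, ha₁, ha₂, ea⟩ := triple_onto hσ hq hK hc hcc (c + 1)⁻¹
  obtain ⟨b₀, b₁, b₂, hb₀, hb₁, hb₂, eb⟩ := triple_onto hσ hq hK hc hcc c⁻¹
  have hb₂0 : b₂ ≠ 0 := fun h0 => by
    have e1 : b₀ * c + b₁ * (c * c) = 1 := by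
      have := congrArg (· * c) eb
      simp only [h0, inv_mul_cancel₀ hc0] at this
      linear_combination this
    by_cases hb₁0 : b₁ = 0
    · refine hc ?_
      rw [hb₁0] at e1
      rw [show c = b₀⁻¹ from eq_inv_of_mul_eq_one_right (by linear_combination e1), map_inv₀, hb₀]
    · refine hcc b₁⁻¹ (-b₀ / b₁) (by rw [map_inv₀, hb₁]) (by rw [map_div₀, map_neg, hb₀, hb₁]) ?_
      field_simp
      linear_combination e1
  have ha₂0 : a₂ ≠ 0 := fun h0 => by
    have e1 : (a₀ + a₁) * c + a₁ * (c * c) = 1 - a₀ := by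
      have := congrArg (· * (c + 1)) ea
      simp only [h0, inv_mul_cancel₀ hc10] at this
      linear_combination this
    by_cases ha₁0 : a₁ = 0
    · rw [ha₁0] at e1
      by_cases ha₀0 : a₀ = 0
      · simp [ha₀0] at e1
      · refine hc ?_
        rw [show c = (1 - a₀) / a₀ by field_simp; linear_combination e1, map_div₀, map_sub, map_one, ha₀]
    · refine hcc ((1 - a₀) / a₁) (-(a₀ + a₁) / a₁) (by rw [map_div₀, map_sub, map_one, ha₀, ha₁])
        (by rw [map_div₀, map_neg, map_add, ha₀, ha₁]) ?_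
      field_simp
      linear_combination e1
  set l := a₂ / b₂ with hl
  have hlσ : σ l = l := by rw [hl, map_div₀, ha₂, hb₂]
  have hl0 : l ≠ 0 := div_ne_zero ha₂0 hb₂0
  set u := c / l with hu
  set v := -(c + 1) with hv
  have hu0 : u ≠ 0 := div_ne_zero hc0 hl0
  have hv0 : v ≠ 0 := neg_ne_zero.2 hc10
  have hvX : v ∈ upper X := neg_mem (add_mem hc' h1)
  have huX : u ∈ upper X := by
    rw [hu, div_eq_inv_mul]
    exact hsm hc' (by rw [map_inv₀, hlσ])
  set b := -v⁻¹ - u⁻¹ with hbdef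
  have hbX : b ∈ upper X := by
    have e : b = (a₀ - l * b₀) + (a₁ - l * b₁) * c := by
      have hu' : u⁻¹ = l * c⁻¹ := by rw [hu, inv_div, div_eq_mul_inv]
      rw [hbdef, hv, inv_neg, neg_neg, hu', ← ea, ← eb, hl]
      field_simp
      ring
    rw [e]
    exact add_mem (hX _ (by rw [map_sub, map_mul, ha₀, hlσ, hb₀]))
      (hsm hc' (by rw [map_sub, map_mul, ha₁, hlσ, hb₁]))
  set g := slY u * slX b * slY v with hg
  have hgX : g ∈ X := mul_mem (mul_mem (slY_mem hσ hW hX huX) hbX) (slY_mem hσ hW hX hvX)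
  have h10 : g.1 1 0 = 0 := by
    simp only [hg, Matrix.SpecialLinearGroup.coe_mul, slX_coe, slY_coe]
    simp [Matrix.mul_apply, Fin.sum_univ_two, hbdef]
    field_simp
    ring
  have h00 : g.1 0 0 = -v / u := by
    simp only [hg, Matrix.SpecialLinearGroup.coe_mul, slX_coe, slY_coe]
    simp [Matrix.mul_apply, Fin.sum_univ_two, hbdef]
    field_simp
    ring
  set e := -v / u with he
  have he' : σ e ≠ e := by
    intro h'
    refine hc ?_
    have e1 : e = l + l * c⁻¹ := by rw [he, hv, hu]; field_simp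
    have e2 : σ (c⁻¹) = c⁻¹ := by
      rw [e1, map_add, map_mul, hlσ] at h'
      exact mul_left_cancel₀ hl0 (add_left_cancel h')
    rw [map_inv₀] at e2
    exact inv_injective e2
  set m := e * e with hm
  have hmσ : σ m ≠ m := fun h' => by
    rw [hm, map_mul] at h'
    rcases mul_self_eq_mul_self_iff.1 h' with h'' | h''
    · exact he' h''
    · have h3 : σ (σ (σ e)) = e := by
        rw [hσ, hσ, hσ, ← pow_mul, ← pow_mul, show q * (q * q) = q ^ 3 by ring, ← hK, FiniteField.pow_card]
      rw [h'', map_neg, h'', neg_neg, h''] at h3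
      exact he' (h''.trans h3)
  have hmul : ∀ s ∈ upper X, m * s ∈ upper X := fun s hs => by
    have := upper_scale hgX h10 hs
    rwa [h00] at this
  have hm1 : m ∈ upper X := by simpa using hmul 1 h1
  have hm2 : m * m ∈ upper X := hmul m hm1
  obtain ⟨a, b', f, ha, hb', hf, rfl⟩ := triple_onto hσ hq hK hmσ
    (fun a b ha hb => sq_not_pair hσ hq hK hmσ ha hb) x
  exact hx (add_mem (add_mem (hX a ha) (hsm hm1 hb')) (hsm hm2 hf))

end finite

end CfsgLib.SubfieldTwisted
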