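import Cfsg.Agent.Lib.SubfieldTwisted.Moves
import Cfsg.Agent.Lib.SubfieldTwisted.FieldGen

/-!
From one short root element outside the ground field to a whole root group.
-/

set_option autoImplicit false

namespace CfsgLib.SubfieldTwisted

open Cfsg.Lie
open CfsgLib.Chevalley hiding xG_mem_group rootsU_le_group
open CfsgLib.Twisted (Orb orbRoots checkOrd wordG graphTwist moveRoot moveG RootCert decomp_unique checkOrd_cons
  mem_orbRoots_cons)
open CfsgLib.ReflectionsSpinor.ChevField (push push_prodU)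
open Matrix (SpecialLinearGroup)

variable {D : ChevalleyDatum} {A : Aux} {F : Type*} [Field F]

open Classical in
/-- the map onto two opposite root groups, twisted by `τ` -/
noncomputable def slHom (h : Full D A) (r : Fin D.nroots) (τ : F →+* F) :
    SpecialLinearGroup (Fin 2) F →* GL D.Idx F :=
  (slRel_root (F := F) h r).hom.comp (Matrix.SpecialLinearGroup.map τ)

theorem map_slX (τ : F →+* F) (t : F) : Matrix.SpecialLinearGroup.map τ (slX t) = slX (τ t) := by
  apply Subtype.ext
  show (slX t).1.map τ = _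
  ext i j
  fin_cases i <;> fin_cases j <;> simp

theorem map_slY (τ : F →+* F) (t : F) : Matrix.SpecialLinearGroup.map τ (slY t) = slY (τ t) := by
  apply Subtype.ext
  show (slY t).1.map τ = _
  ext i j
  fin_cases i <;> fin_cases j <;> simp

theorem slHom_slX (h : Full D A) (r : Fin D.nroots) (τ : F →+* F) (t : F) :
    slHom h r τ (slX t) = xG h.cert r (τ t) := by
  classical
  rw [slHom, MonoidHom.comp_apply, map_slX]
  show slFun _ _ (slX (τ t)) = _
  simp [slFun, (slRel_root (F := F) h r).h_one]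

theorem slHom_slY (h : Full D A) (r : Fin D.nroots) (τ : F →+* F) (t : F) :
    slHom h r τ (slY t) = xG h.cert (D.neg r) (τ t) := by
  classical
  have R := slRel_root (F := F) h r
  rw [slHom, MonoidHom.comp_apply, map_slY, slY_eq,
    show ((slW : SpecialLinearGroup (Fin 2) F) * slW * slW) = (slW : SpecialLinearGroup (Fin 2) F)⁻¹ from eq_inv_of_mul_eq_one_left (by
      apply Subtype.ext
      simp only [Matrix.SpecialLinearGroup.coe_mul, slW_coe, Matrix.SpecialLinearGroup.coe_one]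
      ext i j
      fin_cases i <;> fin_cases j <;> simp [Matrix.mul_apply, Fin.sum_univ_two]),
    map_mul, map_mul, map_inv]
  show slFun (fun t : F => xG h.cert r t) (fun t : F => xG h.cert (D.neg r) t) slW *
    slFun (fun t : F => xG h.cert r t) (fun t : F => xG h.cert (D.neg r) t) (slX (-τ t)) *
    (slFun (fun t : F => xG h.cert r t) (fun t : F => xG h.cert (D.neg r) t) slW)⁻¹ = _
  have hx : slFun (fun t : F => xG h.cert r t) (fun t : F => xG h.cert (D.neg r) t) (slX (-τ t)) =
      xG h.cert r (-τ t) := by simp [slFun, R.h_one]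
  have hw : slFun (fun t : F => xG h.cert r t) (fun t : F => xG h.cert (D.neg r) t) slW =
      slN (fun t : F => xG h.cert r t) (fun t : F => xG h.cert (D.neg r) t) 1 := by
    simp [slFun, R.x_zero]
  rw [hx, hw]
  exact (R.conjx 1 _ one_ne_zero).trans (by simp)

theorem slHom_mem (h : Full D A) (r : Fin D.nroots) (τ : F →+* F) (g : SpecialLinearGroup (Fin 2) F) :
    slHom h r τ g ∈ rootsU D F {s | s ∈ [(r : ℕ), D.neg r]} := by
  classical
  rw [slHom, MonoidHom.comp_apply]
  show slFun (fun t : F => xG h.cert r t) (fun t : F => xG h.cert (D.neg r) t)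
    (Matrix.SpecialLinearGroup.map τ g) ∈ _
  have hx : ∀ u : F, xG h.cert r u ∈ rootsU D F {s | s ∈ [(r : ℕ), D.neg r]} := fun u =>
    xG_mem_rootsU h.cert (by simp) u
  have hy : ∀ u : F, xG h.cert (D.neg r) u ∈ rootsU D F {s | s ∈ [(r : ℕ), D.neg r]} := fun u =>
    xG_mem_rootsU h.cert (by simp) u
  have hn : ∀ u : F, slN (fun t : F => xG h.cert r t) (fun t : F => xG h.cert (D.neg r) t) u ∈
      rootsU D F {s | s ∈ [(r : ℕ), D.neg r]} := fun u => mul_mem (mul_mem (hx _) (hy _)) (hx _)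
  unfold slFun
  split_ifs
  · exact mul_mem (mul_mem (hn _) (hn _)) (hx _)
  · exact mul_mem (mul_mem (hx _) (hn _)) (hx _)

/-- two root sets commute -/
def sepB (D : ChevalleyDatum) (S T : List ℕ) : Bool := S.all fun r => T.all fun s => noTermsB D r s

theorem commute_of_sep (h : Full D A) {S T : List ℕ} (hc : sepB D S T = true) {g k : GL D.Idx F}
    (hg : g ∈ rootsU D F {s | s ∈ S}) (hk : k ∈ rootsU D F {s | s ∈ T}) : Commute g k := by
  induction hg using rootsU_induction h.cert with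
  | h1 => exact Commute.one_left _
  | hx r hr t => exact commute_rootsU h.toStd (List.all_eq_true.1 hc r hr) t hk
  | hmul a b _ _ ha hb => exact ha.mul_left hb

/-- the product of two commuting maps -/
def pairHom {S G : Type*} [Group S] [Group G] (f g : S →* G) (hc : ∀ a b, Commute (f a) (g b)) : S →* G :=
  MonoidHom.mk' (fun a => f a * g a) fun a b => by
    show f (a * b) * g (a * b) = f a * g a * (f b * g b)
    rw [map_mul, map_mul]
    exact (hc b a).mul_mul_mul_comm _ _

@[simp] theorem pairHom_apply {S G : Type*} [Group S] [Group G] (f g : S →* G)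
    (hc : ∀ a b, Commute (f a) (g b)) (a : S) : pairHom f g hc a = f a * g a := rfl

section closure

variable [Fintype F] {p q : ℕ} [Fact p.Prime] [CharP F p] {σ : F →+* F} (hσ : ∀ x, σ x = x ^ q)
  (hqp : ∃ a, 1 ≤ a ∧ q = p ^ a) {H : Subgroup (GL D.Idx F)} (Φ : SpecialLinearGroup (Fin 2) F →* GL D.Idx F)
  (hX : ∀ f, σ f = f → Φ (slX f) ∈ H) (hY : ∀ f, σ f = f → Φ (slY f) ∈ H) {c : F} (hc : σ c ≠ c)
  (hcH : Φ (slX c) ∈ H)
include hσ hqp hX hY hc hcH

/-- A whole pair of opposite root groups. -/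
theorem root_pair_le (hK : Fintype.card F = q ^ 2 ∨ Fintype.card F = q ^ 3) (t : F) :
    Φ (slX t) ∈ H ∧ Φ (slY t) ∈ H := by
  have hq : 2 ≤ q := by
    obtain ⟨a, ha, rfl⟩ := hqp
    exact le_trans (Fact.out : p.Prime).two_le (Nat.le_self_pow (by omega) p)
  have hW : (slW : SpecialLinearGroup (Fin 2) F) ∈ H.comap Φ := by
    have e : (slW : SpecialLinearGroup (Fin 2) F) = slX 1 * slY (-1) * slX 1 := by
      apply Subtype.ext
      simp only [Matrix.SpecialLinearGroup.coe_mul, slX_coe, slY_coe, slW_coe]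
      ext i j
      fin_cases i <;> fin_cases j <;> simp [Matrix.mul_apply, Fin.sum_univ_two]
    rw [e]
    refine mul_mem (mul_mem ?_ ?_) ?_
    · exact hX 1 (map_one σ)
    · exact hY (-1) (by rw [map_neg, map_one])
    · exact hX 1 (map_one σ)
  have hall : ∀ t, slX t ∈ H.comap Φ := fun t => by
    rcases hK with hK | hK
    · exact slX_mem_two hσ hq hqp hW hX hK hc hcH t
    · exact slX_mem_three hσ hq hqp hW hX hK hc hcH t
  exact ⟨hall t, slY_mem hσ hW hX (hall t)⟩

end closure

variable {h : Full D A} {ρ : ℕ → ℕ} {η : ℕ → ℤ} {q : ℕ} {σ : F →+* F} {G : Subgroup (GL D.Idx F)}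
variable {cart coro : ℕ → ℕ → ℤ} {μ : ℕ → ℕ → ℕ} {ε : ℕ → ℕ → ℤ} {par : ℕ → ℕ × ℕ} {dep : ℕ → ℕ}

/-- An element outside the ground field, moved to another orbit. -/
theorem Sub.move_orbit (S : Sub h ρ η q σ G) (C : RootCert D cart coro μ ε par dep) {hs o : Orb}
    (hhs : orbsB D ρ η [hs] = true) (ho : orbsB D ρ η [o] = true) {J : List ℕ} (hJ : ∀ i ∈ J, i < D.rank)
    (hJM : (moveG h.cert J : GL D.Idx F) ∈ fixS σ G) (hmove : ∀ r ∈ hs.2, moveRoot μ J r ∈ o.2)
    {H : Subgroup (GL D.Idx F)} (hMH : fixS σ G ≤ H) (hHG : H ≤ G) {a : ℕ → F}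
    (hne : σ (a hs.1) ≠ a hs.1) (hH : prodU h.cert hs.2 a ∈ H) :
    ∃ b : ℕ → F, (∀ r ∈ o.2, b (ρ r) = graphTwist η q r (b r)) ∧ σ (b o.1) ≠ b o.1 ∧
      prodU h.cert o.2 b ∈ H := by
  obtain ⟨hch, -, -⟩ := orbsB_head hhs
  obtain ⟨-, h1, h3, -⟩ := checkOrd_cons hch
  set m := (moveG h.cert J : GL D.Idx F)
  set g := m * prodU h.cert hs.2 a * m⁻¹ with hg
  have hgH : g ∈ H := mul_mem (mul_mem (hMH hJM) hH) (inv_mem (hMH hJM))
  have hgU : g ∈ rootsU D F {r | r ∈ orbRoots [o]} :=
    moveG_conj_rootsU h.cert C hJ (S := {r | r ∈ hs.2})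
      (fun r hr => ⟨(h3 r (mem_orbRoots_cons.2 (Or.inl hr))).1.1, mem_orbRoots_cons.2 (Or.inl (hmove r hr))⟩) _
      (prodU_mem _ a)
  obtain ⟨b, v, e, -, hv, -, hrel, hfix, -⟩ := S.layer ho (hHG hgH) hgU
  rw [eq_one_of_mem_nil h.cert hv, one_mul] at e
  refine ⟨b, hrel, fun hb => hne ?_, e ▸ hgH⟩
  have hgM : g ∈ fixS σ G := e ▸ hfix hb
  have hP : push D σ (prodU h.cert hs.2 a) = prodU h.cert hs.2 a := by
    have := mul_mem (mul_mem (inv_mem hJM) hgM) hJM
    rw [show m⁻¹ * g * m = prodU h.cert hs.2 a by rw [hg]; group] at this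
    exact this.2
  rw [push_prodU] at hP
  exact decomp_unique h.toStd hs [] hch (v := 1) (w := 1) (one_mem _) (one_mem _) (a := ⇑σ ∘ a) (b := a) (by rw [one_mul, one_mul, hP])
    hs.1 h1

end CfsgLib.SubfieldTwisted
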