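import Cfsg.Agent.Lib.SubfieldTwisted.Overgroup
import Cfsg.Agent.Lib.SubfieldTwisted.Closure

/-!
The certificates for maximality of the ground field subgroup.
-/

set_option autoImplicit false

namespace CfsgLib.SubfieldTwisted

open Cfsg.Lie
open CfsgLib.Chevalley hiding xG_mem_group rootsU_le_group
open CfsgLib.Twisted (Orb orbRoots checkOrd wordG wordG_cons wordG_nil wordG_append graphTwist moveRoot moveSign
  moveG RootCert checkOrd_cons mem_orbRoots_cons)
open CfsgLib.TwistedAut (Ctx)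
open CfsgLib.ReflectionsSpinor.ChevField (push push_xG push_prodU)

variable {D : ChevalleyDatum} {A : Aux} {F : Type*} [Field F]
variable {h : Full D A} {ρ : ℕ → ℕ} {η : ℕ → ℤ} {q : ℕ} {σ : F →+* F} {G : Subgroup (GL D.Idx F)}
variable {cart coro : ℕ → ℕ → ℤ} {μ : ℕ → ℕ → ℕ} {ε : ℕ → ℕ → ℤ} {par : ℕ → ℕ × ℕ} {dep : ℕ → ℕ}

/-- A fixed positive root over the ground field. -/
theorem Sub.root_fixed (S : Sub h ρ η q σ G) {r : ℕ} (hr : D.IsPosRoot r) (hρ : ρ r = r) (hη : η r = 1) {c : F}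
    (hc : σ c = c) : xG h.cert r c ∈ fixS σ G := by
  have := S.orbit_mem (L := [r]) (a := fun _ => c) (by simpa using hr) (by simpa using hρ) (by simp)
    (by simp [noTermsB, hr.1]) (by
      simp only [List.mem_singleton, forall_eq, graphTwist, hη, Int.cast_one, one_mul]
      exact hc.symm.trans (S.pow c))
  simp only [prodU, List.map_cons, List.map_nil, List.prod_cons, List.prod_nil, mul_one] at this
  refine ⟨this, ?_⟩
  show push D σ (xG h.cert r c) = xG h.cert r c
  rw [push_xG, hc]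

/-- constants along an orbit -/
def constB (D : ChevalleyDatum) (ρ : ℕ → ℕ) (η : ℕ → ℤ) (w : List (ℕ × ℤ)) : Bool :=
  (w.all fun p => decide (D.IsPosRoot p.1) && decide (p.2 = 1 ∨ p.2 = -1) &&
    (w.any fun q => Nat.beq q.1 (ρ p.1) && decide (q.2 = η p.1 * p.2)) && w.all fun q => noTermsB D p.1 q.1) &&
    decide ((w.map Prod.fst).Nodup) && decide (((w.map Prod.fst).map ρ).Nodup)

theorem lookup_of_nodup : ∀ {w : List (ℕ × ℤ)}, (w.map Prod.fst).Nodup → ∀ p ∈ w,
    (w.find? fun q => Nat.beq q.1 p.1) = some p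
  | [], _, p, hp => absurd hp (by simp)
  | a :: w, hnd, p, hp => by
    simp only [List.map_cons, List.nodup_cons] at hnd
    rcases List.mem_cons.1 hp with rfl | hp
    · simp [List.find?_cons]
    · have hne : a.1 ≠ p.1 := fun e => hnd.1 (e ▸ List.mem_map_of_mem hp)
      rw [List.find?_cons_of_neg (by simpa using hne)]
      exact lookup_of_nodup hnd.2 p hp

theorem Sub.const_mem (S : Sub h ρ η q σ G) {w : List (ℕ × ℤ)} (hw : constB D ρ η w = true) :
    wordG h.cert (w.map fun p => (p.1, (p.2 : F))) ∈ fixS σ G := by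
  simp only [constB, Bool.and_eq_true, List.all_eq_true, decide_eq_true_eq, List.any_eq_true] at hw
  obtain ⟨⟨hall, hnd⟩, hndρ⟩ := hw
  let a : ℕ → ℤ := fun r => ((w.find? fun q => Nat.beq q.1 r).map Prod.snd).getD 0
  have ha : ∀ p ∈ w, a p.1 = p.2 := fun p hp => by simp [a, lookup_of_nodup hnd p hp]
  have e : wordG h.cert (w.map fun p => (p.1, (p.2 : F))) = prodU h.cert (w.map Prod.fst) (fun r => (a r : F)) := by
    rw [prodU_eq_wordG, List.map_map]
    congr 1
    exact List.map_congr_left fun p hp => by simp [ha p hp]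
  rw [e]
  refine ⟨S.orbit_mem (fun r hr => ?_) (fun r hr => ?_) hndρ (List.all_eq_true.2 fun r hr => ?_) fun r hr => ?_, ?_⟩
  · obtain ⟨p, hp, rfl⟩ := List.mem_map.1 hr
    exact (hall p hp).1.1.1
  · obtain ⟨p, hp, rfl⟩ := List.mem_map.1 hr
    obtain ⟨p', hp', e1, -⟩ := (hall p hp).1.2
    exact List.mem_map.2 ⟨p', hp', Nat.eq_of_beq_eq_true e1⟩
  · obtain ⟨p, hp, rfl⟩ := List.mem_map.1 hr
    refine List.all_eq_true.2 fun s hs => ?_
    obtain ⟨p', hp', rfl⟩ := List.mem_map.1 hs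
    exact (hall p hp).2 p' hp'
  · obtain ⟨p, hp, rfl⟩ := List.mem_map.1 hr
    obtain ⟨p', hp', e1, e2⟩ := (hall p hp).1.2
    rw [← Nat.eq_of_beq_eq_true e1, ha p hp, ha p' hp', e2, graphTwist]
    rcases (hall p hp).1.1.2 with e3 | e3 <;> simp [e3, S.negone]
  · show push D σ _ = _
    rw [push_prodU]
    exact congrArg List.prod (List.map_congr_left fun r _ => by simp)

/-! ### A regular element -/

/-- a long root element with the word carrying it from the top -/
def moveB (D : ChevalleyDatum) (μ : ℕ → ℕ → ℕ) (ε : ℕ → ℕ → ℤ) (top : ℕ) (B : List (List ℕ))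
    (e : ℕ × List (List ℕ)) : Bool :=
  (e.2.all fun J => decide (J ∈ B)) && Nat.beq (moveRoot μ e.2.flatten top) e.1 &&
    decide (moveSign μ ε e.2.flatten top = 1 ∨ moveSign μ ε e.2.flatten top = -1)

/-- a part of a regular element: a long root element, or its commutator with an orbit word -/
def regB (D : ChevalleyDatum) (ρ : ℕ → ℕ) (η : ℕ → ℤ) (μ : ℕ → ℕ → ℕ) (ε : ℕ → ℕ → ℤ) (top : ℕ)
    (B : List (List ℕ)) (long : List (ℕ × List (List ℕ)))
    (comm : List ((ℕ × List (List ℕ)) × List (ℕ × ℤ))) : Bool :=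
  decide (0 < D.rank) && (long.all fun e => moveB D μ ε top B e && decide (e.1 ∈ D.posRoots)) &&
    (comm.all fun c => moveB D μ ε top B c.1 && constB D ρ η c.2) &&
    (List.range D.rank).all fun i =>
      let u := D.simple i
      coefB D D.posRoots u &&
        (comm.all fun c => movesB D D.posRoots u [c.1.1] (c.2.map Prod.fst) &&
          keepsB D D.posRoots u (c.2.map Prod.fst)) &&
        decide (((long.map fun e => if e.1 = u then (1 : ℤ) else 0).sum +
            (comm.map fun c => (c.2.map fun p => srcCoef D u c.1.1 p.1 * p.2).sum).sum = 1) ∨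
          ((long.map fun e => if e.1 = u then (1 : ℤ) else 0).sum +
            (comm.map fun c => (c.2.map fun p => srcCoef D u c.1.1 p.1 * p.2).sum).sum = -1))

variable (C : RootCert D cart coro μ ε par dep) {top : ℕ} {B : List (List ℕ)}
include C

theorem Sub.moved_top (S : Sub h ρ η q σ G) (htop : D.IsPosRoot top) (hρtop : ρ top = top) (hηtop : η top = 1)
    (hBrank : ∀ J ∈ B, ∀ i ∈ J, i < D.rank) (hBM : ∀ J ∈ B, (moveG h.cert J : GL D.Idx F) ∈ fixS σ G)
    {e : ℕ × List (List ℕ)} (he : moveB D μ ε top B e = true) (c : F) (hc : σ c = c) :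
    xG h.cert e.1 c ∈ longGens h.cert σ G top := by
  simp only [moveB, Bool.and_eq_true, List.all_eq_true, decide_eq_true_eq] at he
  obtain ⟨⟨hB, hr⟩, hsgn⟩ := he
  have hm : (moveG h.cert e.2.flatten : GL D.Idx F) ∈ fixS σ G := moveG_flatten_mem h.cert hBM _ hB
  have hJ : ∀ i ∈ e.2.flatten, i < D.rank := fun i hi => by
    obtain ⟨K, hK, hiK⟩ := List.mem_flatten.1 hi
    exact hBrank K (hB K hK) i hiK
  set k := (moveSign μ ε e.2.flatten top : F) * c with hk
  have hkσ : σ k = k := by rw [hk, map_mul, map_intCast, hc]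
  have e1 : moveG h.cert e.2.flatten * xG h.cert top k * (moveG h.cert e.2.flatten)⁻¹ = xG h.cert e.1 c := by
    rw [moveG_conj_xG h.cert C hJ htop.1, Nat.eq_of_beq_eq_true hr, hk]
    congr 1
    rcases hsgn with e2 | e2 <;> simp [e2]
  rw [← e1]
  exact ⟨mul_mem (mul_mem hm (S.root_fixed htop hρtop hηtop hkσ)) (inv_mem hm), _, hm.1, k, hkσ, rfl⟩

theorem Sub.exists_regular (S : Sub h ρ η q σ G) (htop : D.IsPosRoot top) (hρtop : ρ top = top) (hηtop : η top = 1)
    (hBrank : ∀ J ∈ B, ∀ i ∈ J, i < D.rank) (hBM : ∀ J ∈ B, (moveG h.cert J : GL D.Idx F) ∈ fixS σ G)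
    {long : List (ℕ × List (List ℕ))} {comm : List ((ℕ × List (List ℕ)) × List (ℕ × ℤ))}
    (hreg : regB D ρ η μ ε top B long comm = true) :
    (∀ i : Fin D.rank, coefB D D.posRoots (D.simple i) = true) ∧
      ∃ u₀ ∈ Subgroup.closure (longGens h.cert σ G top), RegEl h.toStd u₀ := by
  simp only [regB, Bool.and_eq_true, List.all_eq_true, decide_eq_true_eq, List.mem_range] at hreg
  obtain ⟨⟨⟨hrk, hlong⟩, hcomm⟩, hu⟩ := hreg
  refine ⟨fun i => (hu i i.isLt).1.1, ?_⟩
  set N := Subgroup.closure (longGens h.cert σ G top)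
  set w₁ := wordG h.cert (long.map fun e => (e.1, (1 : F)))
  set f : (ℕ × List (List ℕ)) × List (ℕ × ℤ) → GL D.Idx F := fun c =>
    xG h.cert c.1.1 1 * wordG h.cert (c.2.map fun p => (p.1, (p.2 : F))) * (xG h.cert c.1.1 1)⁻¹ *
      (wordG h.cert (c.2.map fun p => (p.1, (p.2 : F))))⁻¹
  have hw₁ : w₁ ∈ N := Subgroup.list_prod_mem _ fun x hx => by
    obtain ⟨p, hp, rfl⟩ := List.mem_map.1 hx
    obtain ⟨e, he, rfl⟩ := List.mem_map.1 hp
    exact Subgroup.subset_closure (S.moved_top C htop hρtop hηtop hBrank hBM (hlong e he).1 1 (map_one σ))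
  have hf : ∀ c ∈ comm, f c ∈ N := fun c hc => by
    obtain ⟨hm, hP⟩ := hcomm c hc
    have hPM := S.const_mem hP
    set P := wordG h.cert (c.2.map fun p => (p.1, (p.2 : F)))
    have hz := S.moved_top C htop hρtop hηtop hBrank hBM hm 1 (map_one σ)
    have h2 : P * (xG h.cert c.1.1 1)⁻¹ * P⁻¹ ∈ N := conj_mem_closure hPM.1
      (fun z hz => mul_mem (mul_mem hPM hz.1) (inv_mem hPM)) (inv_mem (Subgroup.subset_closure hz))
    show xG h.cert c.1.1 1 * P * (xG h.cert c.1.1 1)⁻¹ * P⁻¹ ∈ N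
    rw [show xG h.cert c.1.1 1 * P * (xG h.cert c.1.1 1)⁻¹ * P⁻¹ =
      xG h.cert c.1.1 1 * (P * (xG h.cert c.1.1 1)⁻¹ * P⁻¹) by group]
    exact mul_mem (Subgroup.subset_closure hz) h2
  refine ⟨w₁ * (comm.map f).prod, mul_mem hw₁ (Subgroup.list_prod_mem _ fun x hx => ?_), ?_⟩
  · obtain ⟨c, hc, rfl⟩ := List.mem_map.1 hx
    exact hf c hc
  have key : ∀ i : Fin D.rank, ∀ L : List ((ℕ × List (List ℕ)) × List (ℕ × ℤ)), (∀ c ∈ L, c ∈ comm) →
      (L.map f).prod ∈ rootsU D F {r | r ∈ D.posRoots} ∧ Coef h.toStd D.posRoots (D.simple i) (L.map f).prod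
        ((L.map fun c => (c.2.map fun p => srcCoef D (D.simple i) c.1.1 p.1 * p.2).sum).sum : ℤ) := by
    intro i L
    obtain ⟨⟨hT, hMK⟩, -⟩ := hu i i.isLt
    induction L with
    | nil => intro _; exact ⟨by simp, by simpa using coef_one hT⟩
    | cons c L ih =>
      intro hL
      obtain ⟨h1, h2⟩ := ih fun x hx => hL x (List.mem_cons_of_mem _ hx)
      obtain ⟨hM, hK⟩ := hMK c (hL c (by simp))
      obtain ⟨h3, h4⟩ := coef_comm_word (hS := h.toStd) hT hM hK (b := c.1.1) (by simp) 1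
        (c.2.map fun p => (p.1, (p.2 : F))) (fun p hp => by
          obtain ⟨p₀, hp₀, rfl⟩ := List.mem_map.1 hp
          exact List.mem_map_of_mem hp₀)
      rw [List.map_cons, List.prod_cons]
      refine ⟨mul_mem h3 h1, ?_⟩
      have h5 := h4.mul hT h2
      convert h5 using 1
      rw [List.map_cons, List.sum_cons, Int.cast_add, List.map_map]
      congr 1
      generalize c.2 = M
      induction M with
      | nil => simp
      | cons p M ihM => simp only [List.map_cons, List.sum_cons, Int.cast_add, Int.cast_mul, ihM,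
          Function.comp_apply, mul_one]
  have hw₁U : w₁ ∈ rootsU D F {r | r ∈ D.posRoots} := Subgroup.list_prod_mem _ fun x hx => by
    obtain ⟨p, hp, rfl⟩ := List.mem_map.1 hx
    obtain ⟨e, he, rfl⟩ := List.mem_map.1 hp
    exact xG_mem_rootsU h.cert (hlong e he).2 _
  refine ⟨by rw [posU_eq_list h.toStd]; exact mul_mem hw₁U (key ⟨0, hrk⟩ comm fun _ hc => hc).1, fun i => ?_⟩
  obtain ⟨⟨hT, -⟩, hval⟩ := hu i i.isLt
  have hc1 := coef_wordG (hS := h.toStd) hT (long.map fun e => (e.1, (1 : F))) (fun p hp => by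
    obtain ⟨e, he, rfl⟩ := List.mem_map.1 hp
    exact (hlong e he).2)
  have hc2 := (key i comm fun _ hc => hc).2
  have hc3 := hc1.mul hT hc2
  refine ⟨_, ?_, hc3⟩
  have e1 : ((long.map fun e => (e.1, (1 : F))).map fun p => if p.1 = D.simple i then p.2 else 0).sum =
      (((long.map fun e => if e.1 = D.simple i then (1 : ℤ) else 0).sum : ℤ) : F) := by
    generalize long = M
    induction M with
    | nil => simp
    | cons e M ih =>
      simp only [List.map_cons, List.sum_cons, Int.cast_add, ← ih]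
      split_ifs <;> simp
  rw [e1, ← Int.cast_add]
  rcases hval with e | e <;> rw [e] <;> simp

omit C

/-! ### The pushes -/

/-- the value of a push moves with the orbit -/
def valB (ρ : ℕ → ℕ) (η : ℕ → ℤ) (cube : Bool) (o : Orb) : List (ℕ × ℤ) → Bool
  | [(s, c)] => decide (c = 1 ∨ c = -1) && decide (s ∈ o.2) &&
      ((List.range o.2.length).any fun k => Nat.beq (ρ^[k] s) o.1)
  | [(x, c), (y, d)] => cube && decide (c = 1 ∨ c = -1) && decide (d = c) &&
      ((decide (ρ x = y) && decide (η x = 1) && decide (x ∈ o.2) &&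
          (List.range o.2.length).any fun k => Nat.beq (ρ^[k] x) o.1) ||
        (decide (ρ y = x) && decide (η y = 1) && decide (y ∈ o.2) &&
          (List.range o.2.length).any fun k => Nat.beq (ρ^[k] y) o.1))
  | _ => false

theorem Sub.val_moves (S : Sub h ρ η q σ G) {cube : Bool} (hcube : cube = true → ∀ x : F, σ (σ x) = x → σ x = x)
    {o : Orb} (hmem : ∀ r ∈ o.2, ρ r ∈ o.2) {L : List (ℕ × ℤ)} (hL : valB ρ η cube o L = true) {a : ℕ → F}
    (hrel : ∀ r ∈ o.2, a (ρ r) = graphTwist η q r (a r)) (hne : σ (a o.1) ≠ a o.1) :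
    σ (L.map fun x => (x.2 : F) * a x.1).sum ≠ (L.map fun x => (x.2 : F) * a x.1).sum := by
  have hback : ∀ s ∈ o.2, (∃ k, ρ^[k] s = o.1) → σ (a s) ≠ a s := by
    rintro s hs ⟨k, hk⟩ hfix
    have key : ∀ j : ℕ, ρ^[j] s ∈ o.2 ∧ σ (a (ρ^[j] s)) = a (ρ^[j] s) := by
      intro j
      induction j with
      | zero => exact ⟨hs, hfix⟩
      | succ j ih =>
        rw [Function.iterate_succ_apply']
        refine ⟨hmem _ ih.1, ?_⟩
        rw [hrel _ ih.1, graphTwist, map_mul, map_pow, ih.2, map_intCast]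
    exact hne (hk ▸ (key k).2)
  have hpair : ∀ x ∈ o.2, cube = true → η x = 1 → (∃ k, ρ^[k] x = o.1) →
      σ (a x + a (ρ x)) ≠ a x + a (ρ x) := by
    intro x hx hc hη hk e
    rw [map_add, hrel x hx, graphTwist, hη, Int.cast_one, one_mul, ← S.pow] at e
    exact hback x hx hk (hcube hc _ (by linear_combination e))
  match L, hL with
  | [(s, c)], hL =>
    simp only [valB, Bool.and_eq_true, decide_eq_true_eq, List.any_eq_true] at hL
    obtain ⟨⟨hc, hs⟩, k, -, hk⟩ := hL
    have := hback s hs ⟨k, Nat.eq_of_beq_eq_true hk⟩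
    rcases hc with rfl | rfl <;> simpa using this
  | [(x, c), (y, d)], hL =>
    simp only [valB, Bool.and_eq_true, Bool.or_eq_true, decide_eq_true_eq, List.any_eq_true] at hL
    obtain ⟨⟨⟨hc, hsgn⟩, rfl⟩, h2 | h2⟩ := hL
    · obtain ⟨⟨⟨rfl, hη⟩, hx⟩, k, -, hk⟩ := h2
      have := hpair x hx hc hη ⟨k, Nat.eq_of_beq_eq_true hk⟩
      rw [map_add] at this
      rcases hsgn with rfl | rfl
      · simpa using this
      · intro e
        simp at e
        exact this (by linear_combination -e)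
    · obtain ⟨⟨⟨rfl, hη⟩, hy⟩, k, -, hk⟩ := h2
      have := hpair y hy hc hη ⟨k, Nat.eq_of_beq_eq_true hk⟩
      rw [map_add] at this
      rcases hsgn with rfl | rfl
      · intro e
        simp at e
        exact this (by linear_combination e)
      · intro e
        simp at e
        exact this (by linear_combination -e)

/-- the whole climb: every short orbit is pushed on or is the last -/
def planB (D : ChevalleyDatum) (ρ : ℕ → ℕ) (η : ℕ → ℤ) (cube : Bool) (hs : Orb)
    (certs : List (ℕ × List (ℕ × ℤ) × ℕ)) : List Orb → Bool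
  | [] => true
  | o :: O => (Nat.beq o.2.length 1 ||
      (decide (o = hs) && O.all fun o' => Nat.beq o'.2.length 1) ||
      certs.any fun c => Nat.beq c.1 o.1 && constB D ρ η c.2.1 && pushB D o O c.2.1 c.2.2 &&
        valB ρ η cube o (srcVal D c.2.2 c.2.1 o.2)) && planB D ρ η cube hs certs O

theorem Sub.plan_spec (S : Sub h ρ η q σ G) {cube : Bool} (hcube : cube = true → ∀ x : F, σ (σ x) = x → σ x = x)
    {hs : Orb} {certs : List (ℕ × List (ℕ × ℤ) × ℕ)} : ∀ {O : List Orb}, checkOrd D ρ O = true →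
    planB D ρ η cube hs certs O = true → ∀ (o : Orb) (O' : List Orb), (o :: O') <:+ O → o.2.length ≠ 1 →
      (o = hs ∧ ∀ o' ∈ O', o'.2.length = 1) ∨ Pushes σ h.cert ρ η q G o O'
  | [], _, _, o, O', hsuf, _ => absurd hsuf (by simp)
  | o₀ :: O, ho, hp, o, O', hsuf, hl => by
    simp only [planB, Bool.and_eq_true, Bool.or_eq_true, decide_eq_true_eq, List.all_eq_true,
      List.any_eq_true] at hp
    rcases List.suffix_cons_iff.1 hsuf with e | hsuf'
    · obtain ⟨rfl, rfl⟩ := List.cons.inj e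
      rcases hp.1 with (h1 | h1) | ⟨c, -, ⟨⟨hc, hY⟩, hpush⟩, hv⟩
      · exact absurd (Nat.eq_of_beq_eq_true h1) hl
      · exact Or.inl ⟨h1.1, fun o' ho' => Nat.eq_of_beq_eq_true (h1.2 o' ho')⟩
      · exact Or.inr (S.pushes c.2.1 c.2.2 hpush (S.const_mem hY).1 fun a hrel hne =>
          S.val_moves hcube (fun r hr => ((checkOrd_cons ho).2.2.2.1 r hr).2.1) hv hrel hne)
    · exact S.plan_spec hcube (checkOrd_cons ho).2.2.2.2.2 hp.2 o O' hsuf' hl

end CfsgLib.SubfieldTwisted
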