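import Cfsg.Agent.Lib.TwistedAut.Setup
import Cfsg.Agent.Lib.TwistedOrder.Instances
import Cfsg.Agent.Lib.ReflectionsSpinor.ChevFieldCent

/-!
Coordinates and orbit elements of a twisted group, seen from its subgroup of points over the ground field.
-/

set_option autoImplicit false

namespace CfsgLib.SubfieldTwisted

open Cfsg.Lie
open CfsgLib.Chevalley hiding xG_mem_group rootsU_le_group
open CfsgLib.Twisted (Orb orbRoots checkOrd wordG wordG_cons wordG_append wordG_nil graphTwist rootsU_le_group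
  xG_mem_group IsTwist prodU_filter prodU_single coord_rel decomp_unique exists_decomp checkOrd_cons mem_orbRoots_cons)
open CfsgLib.TwistedOrder (TwistData)
open CfsgLib.ReflectionsSpinor.ChevField (push push_xG push_rootsU push_prodU)

variable {D : ChevalleyDatum} {A : Aux} {F : Type*} [Field F]

/-- Conjugation of one root element by another, exactly. -/
theorem conj_xG_eq (hS : Std D A) {r s : ℕ} (hr : r < D.nroots) (hs : s < D.nroots) (hne : s ≠ r)
    (hneg : s ≠ D.neg r) (t u : F) :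
    xG hS.cert r t * xG hS.cert s u * (xG hS.cert r t)⁻¹ = xG hS.cert s u *
      wordG hS.cert ((D.commTerms r s).map fun c => (c.1, (c.2.1 : F) * t ^ c.2.2.1 * u ^ c.2.2.2)) := by
  have h := x_mul_x hS.mem hr hs hne hneg (-t) u
  rw [wordMat_eq_prod hS.cert] at h
  simp only [ChevalleyDatum.commWord, List.map_map, neg_neg, Function.comp_def] at h
  have h' : xG hS.cert s u * xG hS.cert r (-t) = xG hS.cert r (-t) * xG hS.cert s u *
      ((D.commTerms r s).map fun c =>
        xG hS.cert c.1 ((c.2.1 : F) * t ^ c.2.2.1 * u ^ c.2.2.2)).prod :=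
    Units.ext (by simpa using h)
  rw [← xG_inv] at h'
  rw [mul_assoc, h', ← mul_assoc, ← mul_assoc, mul_inv_cancel, one_mul]
  simp [wordG, Function.comp_def]

/-- two roots are equal or have no commutator terms -/
def noTermsB (D : ChevalleyDatum) (r s : ℕ) : Bool :=
  decide (r < D.nroots) && decide (s < D.nroots) &&
    (Nat.beq s r || (decide (s ≠ D.neg r) && (D.commTerms r s).isEmpty))

theorem commute_of_noTerms (hS : Std D A) {r s : ℕ} (h : noTermsB D r s = true) (t u : F) :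
    Commute (xG hS.cert r t) (xG hS.cert s u) := by
  simp only [noTermsB, Bool.and_eq_true, Bool.or_eq_true, decide_eq_true_eq, List.isEmpty_iff] at h
  obtain ⟨⟨hr, hs⟩, h | ⟨hn, he⟩⟩ := h
  · rw [Nat.eq_of_beq_eq_true h, commute_iff_eq, xG_mul, xG_mul, add_comm]
  · by_cases hsr : s = r
    · rw [hsr, commute_iff_eq, xG_mul, xG_mul, add_comm]
    · have e := conj_xG_eq hS hr hs hsr hn t u
      rw [he, List.map_nil, wordG_nil, mul_one, mul_inv_eq_iff_eq_mul] at e
      exact e

theorem commute_rootsU (hS : Std D A) {r : ℕ} {S : List ℕ} (h : (S.all fun s => noTermsB D r s) = true) (t : F)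
    {g : GL D.Idx F} (hg : g ∈ rootsU D F {s | s ∈ S}) : Commute (xG hS.cert r t) g := by
  induction hg using rootsU_induction hS.cert with
  | h1 => exact Commute.one_right _
  | hx s hs u => exact commute_of_noTerms hS (List.all_eq_true.1 h s hs) t u
  | hmul a b _ _ ha hb => exact ha.mul_right hb

/-! ### A coordinate in a closed set -/

/-- `g` has coordinate `c` at `u` in the closed set `T` -/
def Coef (hS : Std D A) (T : List ℕ) (u : ℕ) (g : GL D.Idx F) (c : F) : Prop :=
  g * (xG hS.cert u c)⁻¹ ∈ rootsU D F {r | r ∈ T ∧ r ≠ u}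

/-- the checks for a coordinate -/
def coefB (D : ChevalleyDatum) (T : List ℕ) (u : ℕ) : Bool :=
  decide (u ∈ T) && (T.all fun r => decide (D.IsPosRoot r) && T.all fun s => Nat.beq s r ||
    (D.commTerms r s).all fun c => decide (c.1 ∈ T) && !Nat.beq c.1 u)

theorem coefB_spec {T : List ℕ} {u : ℕ} (h : coefB D T u = true) :
    u ∈ T ∧ (∀ r ∈ T, D.IsPosRoot r) ∧
      ∀ r ∈ T, ∀ s ∈ T, s ≠ r → ∀ c ∈ D.commTerms r s, c.1 ∈ T ∧ c.1 ≠ u := by
  simp only [coefB, Bool.and_eq_true, List.all_eq_true, decide_eq_true_eq, Bool.or_eq_true,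
    Bool.not_eq_true'] at h
  refine ⟨h.1, fun r hr => (h.2 r hr).1, fun r hr s hs hne c hc => ?_⟩
  rcases (h.2 r hr).2 s hs with e | e
  · exact absurd (Nat.eq_of_beq_eq_true e) hne
  · exact ⟨(e c hc).1, fun e' => absurd (e c hc).2 (by rw [e']; simp)⟩

/-- Root elements outside a closed set of positive roots are outside its group. -/
theorem eq_zero_of_mem_closed (hS : Std D A) {S : List ℕ} (hpos : ∀ r ∈ S, D.IsPosRoot r)
    (hcl : ∀ r ∈ S, ∀ s ∈ S, s ≠ r → ∀ c ∈ D.commTerms r s, c.1 ∈ S) {u : ℕ} (hu : D.IsPosRoot u)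
    (huS : u ∉ S) {c : F} (hc : xG hS.cert u c ∈ rootsU D F {r | r ∈ S}) : c = 0 := by
  obtain ⟨hpw, hset, -⟩ := hS.posList
  have hall : IsClosedRoots D {r | r ∈ D.posRoots} := by rw [hset]; exact hS.isClosed_pos
  have hmem : ∀ r, r ∈ D.posRoots ↔ D.IsPosRoot r := fun r => Set.ext_iff.1 hset r
  set L := D.posRoots.filter fun r => decide (r ∈ S) with hL
  have hLS : {r | r ∈ L} = {r | r ∈ S} := Set.ext fun r => by
    simp only [hL, Set.mem_ofPred_eq, List.mem_filter, decide_eq_true_eq, hmem]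
    exact ⟨fun h => h.2, fun h => ⟨hpos r h, h⟩⟩
  have hLc : IsClosedRoots D {r | r ∈ L} := by
    rw [hLS]; exact ⟨hpos, fun r hr s hs hne c hc => hcl r hr s hs hne c hc⟩
  obtain ⟨t, ht0, e⟩ := exists_prodU hS (hpw.filter _) hLc (hLS ▸ hc)
  have e1 : prodU hS.cert L t = prodU hS.cert D.posRoots t := prodU_filter hS.cert _ _ t fun r hr hp => by
    refine ht0 r fun hrL => ?_
    simp only [hL, List.mem_filter] at hrL
    rw [hrL.2] at hp
    exact absurd hp (by simp)
  rw [e1, ← prodU_single hS.cert D.posRoots ((hmem u).2 hu) (hpw.imp fun h => Nat.ne_of_lt h) c] at e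
  have := prodU_injOn hS hpw hall e u ((hmem u).2 hu)
  rwa [Pi.single_eq_same, ht0 u (fun hm => huS ((Set.ext_iff.1 hLS u).1 hm))] at this

section coef

variable {hS : Std D A} {T : List ℕ} {u : ℕ} (hT : coefB D T u = true)
include hT

/-- An element normalising the complement of `u`. -/
theorem coef_conj_mem {r : ℕ} (hr : r ∈ T) (t : F) {g : GL D.Idx F}
    (hg : g ∈ rootsU D F {s | s ∈ T ∧ s ≠ u}) :
    xG hS.cert r t * g * (xG hS.cert r t)⁻¹ ∈ rootsU D F {s | s ∈ T ∧ s ≠ u} := by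
  obtain ⟨-, hpos, hcl⟩ := coefB_spec hT
  induction hg using rootsU_induction hS.cert with
  | h1 => rw [mul_one, mul_inv_cancel]; exact one_mem _
  | hx s hs v =>
    by_cases hsr : s = r
    · rw [hsr, xG_mul, xG_inv, xG_mul, show t + v + -t = v by ring]
      exact xG_mem_rootsU hS.cert (hsr ▸ hs) _
    · obtain ⟨W, hW, e⟩ := conj_xG hS (hpos r hr).1 (hpos s hs.1).1 hsr (hS.ne_neg (hpos r hr) (hpos s hs.1))
        (T := {x | x ∈ T ∧ x ≠ u}) (fun c hc => hcl r hr s hs.1 hsr c hc) t v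
      rw [e]
      exact mul_mem (xG_mem_rootsU hS.cert hs v) (rootsU_mono (fun x hx => hx) hW)
  | hmul a b _ _ iha ihb =>
    rw [show xG hS.cert r t * (a * b) * (xG hS.cert r t)⁻¹ =
      (xG hS.cert r t * a * (xG hS.cert r t)⁻¹) * (xG hS.cert r t * b * (xG hS.cert r t)⁻¹) by group]
    exact mul_mem iha ihb

theorem Coef.mul {a b : GL D.Idx F} {c d : F} (ha : Coef hS T u a c) (hb : Coef hS T u b d) :
    Coef hS T u (a * b) (c + d) := by
  have hu := (coefB_spec hT).1
  unfold Coef at *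
  rw [show a * b * (xG hS.cert u (c + d))⁻¹ = (a * (xG hS.cert u c)⁻¹) *
      (xG hS.cert u c * (b * (xG hS.cert u d)⁻¹) * (xG hS.cert u c)⁻¹) by
    rw [← xG_mul]; group]
  exact mul_mem ha (coef_conj_mem (hS := hS) hT hu c hb)

theorem coef_xG {r : ℕ} (hr : r ∈ T) (t : F) : Coef hS T u (xG hS.cert r t) (if r = u then t else 0) := by
  unfold Coef
  split_ifs with h
  · rw [h, mul_inv_cancel]; exact one_mem _
  · rw [xG_zero, inv_one, mul_one]
    exact xG_mem_rootsU hS.cert (show r ∈ {x | x ∈ T ∧ x ≠ u} from ⟨hr, h⟩) t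

theorem coef_one : Coef hS T u (1 : GL D.Idx F) 0 := by
  unfold Coef
  rw [xG_zero, inv_one, mul_one]
  exact one_mem _

theorem coef_wordG : ∀ w : List (ℕ × F), (∀ p ∈ w, p.1 ∈ T) →
    Coef hS T u (wordG hS.cert w) (w.map fun p => if p.1 = u then p.2 else 0).sum
  | [], _ => by simpa [wordG_nil] using coef_one hT
  | p :: w, hw => by
    rw [wordG_cons, List.map_cons, List.sum_cons]
    exact (coef_xG hT (hw p (by simp)) p.2).mul hT (coef_wordG w fun q hq => hw q (List.mem_cons_of_mem _ hq))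

theorem exists_coef {g : GL D.Idx F} (hg : g ∈ rootsU D F {r | r ∈ T}) : ∃ c, Coef hS T u g c := by
  induction hg using rootsU_induction hS.cert with
  | h1 => exact ⟨0, coef_one hT⟩
  | hx r hr t => exact ⟨_, coef_xG hT hr t⟩
  | hmul a b _ _ ha hb =>
    obtain ⟨c, hc⟩ := ha
    obtain ⟨d, hd⟩ := hb
    exact ⟨_, hc.mul hT hd⟩

theorem Coef.unique {g : GL D.Idx F} {c d : F} (hc : Coef hS T u g c) (hd : Coef hS T u g d) : c = d := by
  obtain ⟨hu, hpos, hcl⟩ := coefB_spec hT
  have h : xG hS.cert u (c - d) ∈ rootsU D F {r | r ∈ T ∧ r ≠ u} := by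
    have := mul_mem (inv_mem hc) hd
    rwa [show (g * (xG hS.cert u c)⁻¹)⁻¹ * (g * (xG hS.cert u d)⁻¹) = xG hS.cert u c * (xG hS.cert u d)⁻¹ by
      group, xG_inv, xG_mul, ← sub_eq_add_neg] at this
  refine sub_eq_zero.1 (eq_zero_of_mem_closed hS (S := T.filter fun r => !Nat.beq r u)
    (fun r hr => hpos r (List.mem_filter.1 hr).1) (fun r hr s hs hne x hx => ?_) (hpos u hu)
    (fun hm => by simpa using (List.mem_filter.1 hm).2) (rootsU_mono (fun r hr => ?_) h))
  · obtain ⟨h1, h2⟩ := hcl r (List.mem_filter.1 hr).1 s (List.mem_filter.1 hs).1 hne x hx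
    exact List.mem_filter.2 ⟨h1, by
      rw [Bool.not_eq_true', ← Bool.not_eq_true]
      exact fun e => h2 (Nat.eq_of_beq_eq_true e)⟩
  · exact List.mem_filter.2 ⟨hr.1, by
      rw [Bool.not_eq_true', ← Bool.not_eq_true]
      exact fun e => hr.2 (Nat.eq_of_beq_eq_true e)⟩

theorem Coef.push {g : GL D.Idx F} {c : F} (σ : F →+* F) (hc : Coef hS T u g c) :
    Coef hS T u (push D σ g) (σ c) := by
  have h := push_rootsU hS.cert σ hc
  rw [map_mul, map_inv, push_xG] at h
  exact h

theorem Coef.fixed {g : GL D.Idx F} {c : F} (σ : F →+* F) (hc : Coef hS T u g c)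
    (hfix : CfsgLib.ReflectionsSpinor.ChevField.push D σ g = g) : σ c = c := by
  have h := hc.push hT σ
  rw [hfix] at h
  exact h.unique hT hc

end coef

/-! ### Coordinates of commutators -/

/-- the coefficient of `u` in the commutator of the root elements at `b` and `s` -/
def srcCoef (D : ChevalleyDatum) (u b s : ℕ) : ℤ :=
  if Nat.beq b s then 0 else (((D.commTerms b s).filter fun c => Nat.beq c.1 u).map fun c => c.2.1).sum

/-- the elements of `V` may be commuted, read at `u` -/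
def movesB (D : ChevalleyDatum) (T : List ℕ) (u : ℕ) (V S : List ℕ) : Bool :=
  V.all fun v => decide (v < D.nroots) && S.all fun s => decide (s < D.nroots) &&
    (Nat.beq s v || (decide (s ≠ D.neg v) && (D.commTerms v s).all fun c => decide (c.1 ∈ T) &&
      (!Nat.beq c.1 u || (Nat.beq c.2.2.1 1 && Nat.beq c.2.2.2 1))))

/-- conjugation by the elements of `V` keeps the coordinate at `u` -/
def keepsB (D : ChevalleyDatum) (T : List ℕ) (u : ℕ) (V : List ℕ) : Bool :=
  V.all fun v => decide (v < D.nroots) && T.all fun s => decide (s < D.nroots) &&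
    (Nat.beq s v || (decide (s ≠ D.neg v) && (D.commTerms v s).all fun c => decide (c.1 ∈ T) && !Nat.beq c.1 u))

section comm

variable {hS : Std D A} {T : List ℕ} {u : ℕ} (hT : coefB D T u = true) {V : List ℕ}
  (hV : keepsB D T u V = true)
include hT hV

theorem Coef.conj {v : ℕ} (hv : v ∈ V) (t : F) {g : GL D.Idx F} (hg : g ∈ rootsU D F {r | r ∈ T}) :
    ∀ {c : F}, Coef hS T u g c → Coef hS T u (xG hS.cert v t * g * (xG hS.cert v t)⁻¹) c := by
  simp only [keepsB, List.all_eq_true, Bool.and_eq_true, Bool.or_eq_true, decide_eq_true_eq,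
    Bool.not_eq_true'] at hV
  induction hg using rootsU_induction hS.cert with
  | h1 => intro c hc; rwa [mul_one, mul_inv_cancel]
  | hx s hs a =>
    intro c hc
    obtain ⟨hvlt, hall⟩ := hV v hv
    obtain ⟨hslt, hcase⟩ := hall s hs
    rw [hc.unique hT (coef_xG hT hs a)]
    by_cases hsv : s = v
    · rw [hsv, xG_mul, xG_inv, xG_mul, show t + a + -t = a by ring]
      exact coef_xG hT (hsv ▸ hs) a
    · obtain ⟨hn, hterms⟩ := hcase.resolve_left fun e => hsv (Nat.eq_of_beq_eq_true e)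
      obtain ⟨W, hW, e⟩ := conj_xG hS hvlt hslt hsv hn (T := {r | r ∈ T ∧ r ≠ u})
        (fun c hc => ⟨(hterms c hc).1, fun e' => by simpa [e'] using (hterms c hc).2⟩) t a
      have hW0 : Coef hS T u W 0 := by unfold Coef; rwa [xG_zero, inv_one, mul_one]
      rw [e]
      simpa using (coef_xG hT hs a).mul hT hW0
  | hmul a b ha hb iha ihb =>
    intro c hc
    obtain ⟨ca, hca⟩ := exists_coef hT ha
    obtain ⟨cb, hcb⟩ := exists_coef hT hb
    rw [hc.unique hT (hca.mul hT hcb), show xG hS.cert v t * (a * b) * (xG hS.cert v t)⁻¹ =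
      (xG hS.cert v t * a * (xG hS.cert v t)⁻¹) * (xG hS.cert v t * b * (xG hS.cert v t)⁻¹) by group]
    exact (iha hca).mul hT (ihb hcb)

theorem Coef.conj_word (hVT : ∀ v ∈ V, v < D.nroots) :
    ∀ (w : List (ℕ × F)), (∀ p ∈ w, p.1 ∈ V) → ∀ {g : GL D.Idx F}, g ∈ rootsU D F {r | r ∈ T} → ∀ {c : F},
      Coef hS T u g c → wordG hS.cert w * g * (wordG hS.cert w)⁻¹ ∈ rootsU D F {r | r ∈ T} ∧
        Coef hS T u (wordG hS.cert w * g * (wordG hS.cert w)⁻¹) c
  | [], _, g, hg, c, hc => by simpa [wordG_nil] using ⟨hg, hc⟩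
  | p :: w, hw, g, hg, c, hc => by
    obtain ⟨h1, h2⟩ := Coef.conj_word hVT w (fun q hq => hw q (List.mem_cons_of_mem _ hq)) hg hc
    rw [wordG_cons, show xG hS.cert p.1 p.2 * wordG hS.cert w * g * (xG hS.cert p.1 p.2 * wordG hS.cert w)⁻¹ =
      xG hS.cert p.1 p.2 * (wordG hS.cert w * g * (wordG hS.cert w)⁻¹) * (xG hS.cert p.1 p.2)⁻¹ by group]
    refine ⟨?_, Coef.conj hT hV (hw p (by simp)) p.2 h1 h2⟩
    have hV' := hV
    simp only [keepsB, List.all_eq_true, Bool.and_eq_true, Bool.or_eq_true, decide_eq_true_eq] at hV'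
    refine rootsU_conj_le hS.cert (fun s hs a => ?_) _ h1
    obtain ⟨hvlt, hall⟩ := hV' p.1 (hw p (by simp))
    obtain ⟨hslt, hcase⟩ := hall s hs
    by_cases hsv : s = p.1
    · rw [hsv, xG_mul, xG_inv, xG_mul]
      exact xG_mem_rootsU hS.cert (hsv ▸ hs) _
    · obtain ⟨hn, hterms⟩ := hcase.resolve_left fun e => hsv (Nat.eq_of_beq_eq_true e)
      obtain ⟨W, hW, e⟩ := conj_xG hS hvlt hslt hsv hn (T := {x | x ∈ T}) (fun c hc => (hterms c hc).1) p.2 a
      rw [e]
      exact mul_mem (xG_mem_rootsU hS.cert hs a) hW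

omit hV in
/-- The commutator of two root elements, read at `u`. -/
theorem coef_comm_xG {S : List ℕ} (hM : movesB D T u V S = true) (hK : keepsB D T u S = true) {b s : ℕ}
    (hb : b ∈ V) (hs : s ∈ S) (t a : F) :
    xG hS.cert b t * xG hS.cert s a * (xG hS.cert b t)⁻¹ * (xG hS.cert s a)⁻¹ ∈ rootsU D F {r | r ∈ T} ∧
      Coef hS T u (xG hS.cert b t * xG hS.cert s a * (xG hS.cert b t)⁻¹ * (xG hS.cert s a)⁻¹)
        ((srcCoef D u b s : F) * t * a) := by
  simp only [movesB, List.all_eq_true, Bool.and_eq_true, Bool.or_eq_true, decide_eq_true_eq,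
    Bool.not_eq_true'] at hM
  obtain ⟨hblt, hall⟩ := hM b hb
  obtain ⟨hslt, hcase⟩ := hall s hs
  by_cases hsb : s = b
  · subst hsb
    rw [xG_mul, xG_inv, xG_mul, xG_inv, xG_mul, show t + a + -t + -a = 0 by ring, xG_zero,
      show srcCoef D u s s = 0 by simp [srcCoef]]
    exact ⟨one_mem _, by simpa using coef_one hT⟩
  obtain ⟨hn, hterms⟩ := hcase.resolve_left fun e => hsb (Nat.eq_of_beq_eq_true e)
  rw [conj_xG_eq hS hblt hslt hsb hn t a]
  set W := (D.commTerms b s).map fun c => (c.1, (c.2.1 : F) * t ^ c.2.2.1 * a ^ c.2.2.2) with hW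
  have hWT : ∀ p ∈ W, p.1 ∈ T := fun p hp => by
    obtain ⟨c, hc, rfl⟩ := List.mem_map.1 hp
    exact (hterms c hc).1
  have hWU : wordG hS.cert W ∈ rootsU D F {r | r ∈ T} := by
    refine Subgroup.list_prod_mem _ fun x hx => ?_
    obtain ⟨p, hp, rfl⟩ := List.mem_map.1 hx
    exact xG_mem_rootsU hS.cert (hWT p hp) _
  have hval : (W.map fun p => if p.1 = u then p.2 else 0).sum = (srcCoef D u b s : F) * t * a := by
    rw [srcCoef, if_neg (by simpa using Ne.symm hsb), hW, List.map_map]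
    clear hW hWU hWT W
    generalize D.commTerms b s = L at hterms ⊢
    induction L with
    | nil => simp
    | cons c L ih =>
      rw [List.map_cons, List.sum_cons, ih fun x hx => hterms x (List.mem_cons_of_mem _ hx)]
      by_cases hcu : c.1 = u
      · obtain ⟨-, h | h⟩ := hterms c (by simp)
        · simp [hcu] at h
        · rw [List.filter_cons_of_pos (by simp [hcu]), List.map_cons, List.sum_cons, Function.comp_apply,
            if_pos hcu, Nat.eq_of_beq_eq_true h.1, Nat.eq_of_beq_eq_true h.2, pow_one, pow_one]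
          push_cast
          ring
      · rw [List.filter_cons_of_neg (by simp [hcu]), Function.comp_apply, if_neg hcu, zero_add]
  have hc := coef_wordG (hS := hS) hT W hWT
  rw [hval] at hc
  have hKS : ∀ v ∈ S, v < D.nroots := fun v hv => by
    simp only [keepsB, List.all_eq_true, Bool.and_eq_true, decide_eq_true_eq] at hK
    exact (hK v hv).1
  have := Coef.conj_word hT hK hKS [(s, a)] (by simpa using hs) hWU hc
  simpa [wordG] using this

omit hT hV in
theorem comm_mul_right {G : Type*} [Group G] (y a b : G) :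
    y * (a * b) * y⁻¹ * (a * b)⁻¹ = (y * a * y⁻¹ * a⁻¹) * (a * (y * b * y⁻¹ * b⁻¹) * a⁻¹) := by group

omit hV in
/-- A root element against a product. -/
theorem coef_comm_word {S : List ℕ} (hM : movesB D T u V S = true) (hK : keepsB D T u S = true) {b : ℕ}
    (hb : b ∈ V) (t : F) : ∀ w : List (ℕ × F), (∀ p ∈ w, p.1 ∈ S) →
    xG hS.cert b t * wordG hS.cert w * (xG hS.cert b t)⁻¹ * (wordG hS.cert w)⁻¹ ∈ rootsU D F {r | r ∈ T} ∧
      Coef hS T u (xG hS.cert b t * wordG hS.cert w * (xG hS.cert b t)⁻¹ * (wordG hS.cert w)⁻¹)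
        (w.map fun p => (srcCoef D u b p.1 : F) * t * p.2).sum
  | [], _ => by
    simp only [wordG_nil, mul_one, mul_inv_cancel, inv_one, List.map_nil, List.sum_nil]
    exact ⟨one_mem _, coef_one hT⟩
  | p :: w, hw => by
    obtain ⟨h1, h2⟩ := coef_comm_word hM hK hb t w fun q hq => hw q (List.mem_cons_of_mem _ hq)
    obtain ⟨h3, h4⟩ := coef_comm_xG hT (hS := hS) hM hK hb (hw p (by simp)) t p.2
    have hKS : ∀ v ∈ S, v < D.nroots := fun v hv => by
      simp only [keepsB, List.all_eq_true, Bool.and_eq_true, decide_eq_true_eq] at hK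
      exact (hK v hv).1
    obtain ⟨h5, h6⟩ := Coef.conj_word hT hK hKS [(p.1, p.2)] (by simpa using hw p (by simp)) h1 h2
    simp only [wordG, List.map_cons, List.map_nil, List.prod_cons, List.prod_nil, mul_one] at h5 h6
    rw [wordG_cons, comm_mul_right, List.map_cons, List.sum_cons]
    exact ⟨mul_mem h3 h5, h4.mul hT h6⟩

/-- Products against products. -/
theorem coef_comm_words {S : List ℕ} (hM : movesB D T u V S = true) (hK : keepsB D T u S = true)
    (w : List (ℕ × F)) (hw : ∀ p ∈ w, p.1 ∈ S) : ∀ y : List (ℕ × F), (∀ p ∈ y, p.1 ∈ V) →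
    wordG hS.cert y * wordG hS.cert w * (wordG hS.cert y)⁻¹ * (wordG hS.cert w)⁻¹ ∈ rootsU D F {r | r ∈ T} ∧
      Coef hS T u (wordG hS.cert y * wordG hS.cert w * (wordG hS.cert y)⁻¹ * (wordG hS.cert w)⁻¹)
        (y.map fun q => (w.map fun p => (srcCoef D u q.1 p.1 : F) * q.2 * p.2).sum).sum
  | [], _ => by
    simp only [wordG_nil, one_mul, inv_one, mul_one, mul_inv_cancel, List.map_nil, List.sum_nil]
    exact ⟨one_mem _, coef_one hT⟩
  | q :: y, hy => by
    obtain ⟨h1, h2⟩ := coef_comm_words hM hK w hw y fun p hp => hy p (List.mem_cons_of_mem _ hp)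
    obtain ⟨h3, h4⟩ := coef_comm_word hT (hS := hS) hM hK (hy q (by simp)) q.2 w hw
    have hVT : ∀ v ∈ V, v < D.nroots := fun v hv => by
      simp only [keepsB, List.all_eq_true, Bool.and_eq_true, decide_eq_true_eq] at hV
      exact (hV v hv).1
    obtain ⟨h5, h6⟩ := Coef.conj_word hT hV hVT [(q.1, q.2)] (by simpa using hy q (by simp)) h1 h2
    simp only [wordG, List.map_cons, List.map_nil, List.prod_cons, List.prod_nil, mul_one] at h5 h6
    rw [wordG_cons, List.map_cons, List.sum_cons, show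
      xG hS.cert q.1 q.2 * wordG hS.cert y * wordG hS.cert w * (xG hS.cert q.1 q.2 * wordG hS.cert y)⁻¹ *
        (wordG hS.cert w)⁻¹ =
      (xG hS.cert q.1 q.2 * (wordG hS.cert y * wordG hS.cert w * (wordG hS.cert y)⁻¹ * (wordG hS.cert w)⁻¹) *
        (xG hS.cert q.1 q.2)⁻¹) *
        (xG hS.cert q.1 q.2 * wordG hS.cert w * (xG hS.cert q.1 q.2)⁻¹ * (wordG hS.cert w)⁻¹) by group,
      add_comm]
    exact ⟨mul_mem h5 h3, h6.mul hT h4⟩

end comm

theorem prodU_eq_wordG (hC : Cert D A) (L : List ℕ) (a : ℕ → F) :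
    prodU hC L a = wordG hC (L.map fun r => (r, a r)) := by
  simp [prodU, wordG, Function.comp_def]

/-- A layer element commutes out at `u` when it has no source there. -/
theorem coef_comm_layer {hS : Std D A} {T V S : List ℕ} {u : ℕ} (hT : coefB D T u = true)
    (hV : keepsB D T u V = true) (hM : movesB D T u V S = true) (hK : keepsB D T u S = true)
    (y : List (ℕ × F)) (hy : ∀ p ∈ y, p.1 ∈ V) (hsrc : ∀ p ∈ y, ∀ s ∈ S, srcCoef D u p.1 s = 0)
    {g : GL D.Idx F} (hg : g ∈ rootsU D F {r | r ∈ S}) :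
    wordG hS.cert y * g * (wordG hS.cert y)⁻¹ * g⁻¹ ∈ rootsU D F {r | r ∈ T} ∧
      Coef hS T u (wordG hS.cert y * g * (wordG hS.cert y)⁻¹ * g⁻¹) 0 := by
  obtain ⟨w, hw, rfl⟩ : ∃ w : List (ℕ × F), (∀ p ∈ w, p.1 ∈ S) ∧ g = wordG hS.cert w := by
    induction hg using rootsU_induction hS.cert with
    | h1 => exact ⟨[], by simp, rfl⟩
    | hx r hr t => exact ⟨[(r, t)], by simpa using hr, by simp [wordG]⟩
    | hmul a b _ _ ha hb =>
      obtain ⟨v, hv, rfl⟩ := ha
      obtain ⟨w, hw, rfl⟩ := hb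
      exact ⟨v ++ w, fun p hp => (List.mem_append.1 hp).elim (hv p) (hw p), (wordG_append _ v w).symm⟩
  obtain ⟨h1, h2⟩ := coef_comm_words hT hV (hS := hS) hM hK w hw y hy
  refine ⟨h1, ?_⟩
  convert h2 using 1
  refine (List.sum_eq_zero fun x hx => ?_).symm
  obtain ⟨q, hq, rfl⟩ := List.mem_map.1 hx
  refine List.sum_eq_zero fun z hz => ?_
  obtain ⟨p, hp, rfl⟩ := List.mem_map.1 hz
  rw [hsrc q hq p.1 (hw p hp)]
  simp

/-! ### The twisted group and its subgroup over the ground field -/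

/-- A twisted group with the Frobenius map of its ground field. -/
structure Sub (h : Full D A) (ρ : ℕ → ℕ) (η : ℕ → ℤ) (q : ℕ) (σ : F →+* F) (G : Subgroup (GL D.Idx F)) :
    Prop where
  /-- the twist -/
  data : TwistData h ρ (graphTwist η q) G
  /-- the map -/
  pow : ∀ x, σ x = x ^ q
  /-- signs are fixed -/
  negone : ((-1 : F)) ^ q = -1
  /-- signs -/
  eta : ∀ r, η r = 1 ∨ η r = -1
  /-- the group is stable -/
  stable : ∀ g ∈ G, push D σ g ∈ G

/-- the elements of `G` with entries in the ground field -/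
def fixS (σ : F →+* F) (G : Subgroup (GL D.Idx F)) : Subgroup (GL D.Idx F) :=
  G ⊓ (push D σ).eqLocus (MonoidHom.id _)

theorem mem_fixS {σ : F →+* F} {G : Subgroup (GL D.Idx F)} {g : GL D.Idx F} :
    g ∈ fixS σ G ↔ g ∈ G ∧ push D σ g = g := Iff.rfl

theorem fixS_le {σ : F →+* F} {G : Subgroup (GL D.Idx F)} : fixS σ G ≤ G := fun _ hg => hg.1

/-- orbit checks -/
def orbsB (D : ChevalleyDatum) (ρ : ℕ → ℕ) (η : ℕ → ℤ) (O : List Orb) : Bool :=
  checkOrd D ρ O && O.all fun o => (o.2.all fun r => o.2.all fun s => noTermsB D r s) &&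
    (!Nat.beq o.2.length 1 || decide (η o.1 = 1))

theorem orbsB_tail {ρ : ℕ → ℕ} {η : ℕ → ℤ} {o : Orb} {O : List Orb} (hO : orbsB D ρ η (o :: O) = true) :
    orbsB D ρ η O = true := by
  simp only [orbsB, Bool.and_eq_true, List.all_cons] at hO ⊢
  exact ⟨(checkOrd_cons hO.1).2.2.2.2.2, hO.2.2⟩

variable {h : Full D A} {ρ : ℕ → ℕ} {η : ℕ → ℤ} {q : ℕ} {σ : F →+* F} {G : Subgroup (GL D.Idx F)}

theorem Sub.cast_pow (S : Sub h ρ η q σ G) (r : ℕ) : ((η r : F)) ^ q = η r := by
  rcases S.eta r with e | e <;> simp [e, S.negone]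

theorem Sub.cast_ne (S : Sub h ρ η q σ G) (r : ℕ) : ((η r : F)) ≠ 0 := by
  rcases S.eta r with e | e <;> simp [e]

/-- A fixed unipotent element of the Chevalley group lies in the twisted group. -/
theorem Sub.mem_of_twist_fixed (S : Sub h ρ η q σ G) {g : GL D.Idx F} (hg : g ∈ D.posUnipotent F)
    (hfix : ∀ s : ↥(D.group F) →* GL D.Idx F, (∀ (x : ↥(D.group F)) (r : ℕ) (t : F), r < D.nroots →
      (x : GL D.Idx F) = xG h.cert r t → s x = xG h.cert (ρ r) (graphTwist η q r t)) →
      (∀ x : ↥(D.group F), (x : GL D.Idx F) ∈ G → s x = x) → ∀ hg' : g ∈ D.group F, s ⟨g, hg'⟩ = g) :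
    g ∈ G := by
  obtain ⟨s, hs, hsG⟩ := S.data.twist.exists_map
  let K : Subgroup (GL D.Idx F) := (s.eqLocus (D.group F).subtype).map (D.group F).subtype
  have hK : IsTwist h.toStd.cert ρ (graphTwist η q) K :=
    ⟨Subgroup.map_subtype_le _, S.data.twist.zero, s, hs, fun x hx => by
      obtain ⟨y, hy, e⟩ := hx
      rw [← show y = x from Subtype.ext e]
      exact hy⟩
  have hGK : G ≤ K := fun x hx => ⟨⟨x, S.data.twist.le hx⟩, hsG ⟨x, S.data.twist.le hx⟩ hx, rfl⟩
  have hgD : g ∈ D.group F := rootsU_le_group h.cert _ hg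
  exact S.data.unip K hK hGK ⟨⟨⟨g, hgD⟩, hfix s hs hsG hgD, rfl⟩, hg⟩

/-- An orbit product with related coordinates lies in the group. -/
theorem Sub.orbit_mem (S : Sub h ρ η q σ G) {L : List ℕ} (hpos : ∀ r ∈ L, D.IsPosRoot r)
    (hmem : ∀ r ∈ L, ρ r ∈ L) (hnd : (L.map ρ).Nodup) (hcomm : (L.all fun r => L.all fun s => noTermsB D r s) = true)
    {a : ℕ → F} (ha : ∀ r ∈ L, a (ρ r) = graphTwist η q r (a r)) : prodU h.cert L a ∈ G := by
  refine S.mem_of_twist_fixed (rootsU_mono (T := {r | D.IsPosRoot r}) hpos (prodU_mem _ a)) fun s hs _ hg' => ?_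
  have hperm : (L.map ρ).Perm L := by
    refine (List.Nodup.subperm hnd ?_).perm_of_length_le (by simp)
    intro x hx
    obtain ⟨r, hr, rfl⟩ := List.mem_map.1 hx
    exact hmem r hr
  have key : ∀ (M : List ℕ), (∀ r ∈ M, r ∈ L) → ∀ hM : prodU h.cert M a ∈ D.group F,
      s ⟨_, hM⟩ = prodU h.cert (M.map ρ) a := by
    intro M
    induction M with
    | nil => intro _ hM; exact (congrArg s (Subtype.ext (by simp [prodU]))).trans (s.map_one.trans (by simp [prodU]))
    | cons k M ih =>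
      intro hML hM
      have hk := hML k (by simp)
      rw [show (⟨prodU h.cert (k :: M) a, hM⟩ : ↥(D.group F)) =
          ⟨_, xG_mem_group h.cert k (a k)⟩ * ⟨_, rootsU_le_group h.cert _ (prodU_mem (L := M) _ a)⟩ from
          Subtype.ext (prodU_cons _ _ _ _), map_mul, ih (fun r hr => hML r (List.mem_cons_of_mem _ hr)),
        hs _ k (a k) (hpos k hk).1 rfl, List.map_cons, prodU_cons, ha k hk]
  rw [key L (fun _ hr => hr) hg']
  simp only [prodU]
  refine (hperm.map _).prod_eq' ?_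
  simp only [List.all_eq_true] at hcomm
  refine List.pairwise_iff_getElem.2 fun i j hi hj _ => ?_
  simp only [List.length_map] at hi hj
  simp only [List.getElem_map]
  exact commute_of_noTerms h.toStd (hcomm _ (hmem _ (List.getElem_mem _)) _ (hmem _ (List.getElem_mem _))) _ _

end CfsgLib.SubfieldTwisted
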