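import Cfsg.Agent.Lib.SubfieldTwisted.Basic

/-!
An overgroup of the ground field subgroup with a larger unipotent part contains a short root element
outside the ground field.
-/

set_option autoImplicit false

namespace CfsgLib.SubfieldTwisted

open Cfsg.Lie
open CfsgLib.Chevalley hiding xG_mem_group rootsU_le_group
open CfsgLib.Twisted (Orb orbRoots checkOrd wordG wordG_cons wordG_append wordG_nil graphTwist rootsU_le_group
  coord_rel exists_decomp checkOrd_cons mem_orbRoots_cons)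
open CfsgLib.ReflectionsSpinor.ChevField (push push_xG push_prodU)

variable {D : ChevalleyDatum} {A : Aux} {F : Type*} [Field F]

theorem push_wordG (hC : Cert D A) (σ : F →+* F) (w : List (ℕ × F)) :
    push D σ (wordG hC w) = wordG hC (w.map fun p => (p.1, σ p.2)) := by
  simp only [wordG, map_list_prod, List.map_map]
  congr 1
  exact List.map_congr_left fun p _ => push_xG hC σ p.1 p.2

theorem push_wordG_int (hC : Cert D A) (σ : F →+* F) (w : List (ℕ × ℤ)) :
    push D σ (wordG hC (w.map fun p => (p.1, (p.2 : F)))) = wordG hC (w.map fun p => (p.1, (p.2 : F))) := by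
  rw [push_wordG, List.map_map]
  congr 1
  exact List.map_congr_left fun p _ => by simp

variable {h : Full D A} {ρ : ℕ → ℕ} {η : ℕ → ℤ} {q : ℕ} {σ : F →+* F} {G : Subgroup (GL D.Idx F)}

/-- Related coordinates are fixed when the head is. -/
theorem Sub.fixed_orbit (S : Sub h ρ η q σ G) {o : Orb} {O : List Orb} (ho : checkOrd D ρ (o :: O) = true)
    {a : ℕ → F} (hrel : ∀ r ∈ o.2, a (ρ r) = graphTwist η q r (a r)) (hfix : σ (a o.1) = a o.1) :
    ∀ r ∈ o.2, σ (a r) = a r := by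
  obtain ⟨-, h1, -, h4, -, -⟩ := checkOrd_cons ho
  have key : ∀ k : ℕ, ρ^[k] o.1 ∈ o.2 ∧ σ (a (ρ^[k] o.1)) = a (ρ^[k] o.1) := by
    intro k
    induction k with
    | zero => exact ⟨h1, hfix⟩
    | succ k ih =>
      rw [Function.iterate_succ_apply']
      refine ⟨(h4 _ ih.1).2.1, ?_⟩
      rw [hrel _ ih.1, graphTwist, map_mul, map_pow, ih.2, map_intCast]
  intro r hr
  obtain ⟨k, rfl⟩ := (h4 r hr).2.2
  exact (key k).2

theorem orbsB_head {o : Orb} {O : List Orb} (hO : orbsB D ρ η (o :: O) = true) :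
    checkOrd D ρ (o :: O) = true ∧ (o.2.all fun r => o.2.all fun s => noTermsB D r s) = true ∧
      (o.2.length = 1 → η o.1 = 1) := by
  simp only [orbsB, List.all_cons, Bool.and_eq_true, Bool.or_eq_true, Bool.not_eq_true', decide_eq_true_eq] at hO
  refine ⟨hO.1, hO.2.1.1, fun hl => hO.2.1.2.resolve_left fun e => ?_⟩
  rw [hl] at e
  simp at e

theorem orbRoots_pos {o : Orb} {O : List Orb} (ho : checkOrd D ρ (o :: O) = true) :
    (∀ r ∈ orbRoots (o :: O), D.IsPosRoot r) ∧ ∀ r ∈ o.2, r ∈ orbRoots (o :: O) :=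
  ⟨fun r hr => ((checkOrd_cons ho).2.2.1 r hr).1, fun _ hr => mem_orbRoots_cons.2 (Or.inl hr)⟩

/-- The first layer of an element of the group. -/
theorem Sub.layer (S : Sub h ρ η q σ G) {o : Orb} {O : List Orb} (hO : orbsB D ρ η (o :: O) = true)
    {g : GL D.Idx F} (hg : g ∈ G) (hgU : g ∈ rootsU D F {r | r ∈ orbRoots (o :: O)}) :
    ∃ (a : ℕ → F) (v : GL D.Idx F), g = v * prodU h.cert o.2 a ∧ v ∈ G ∧
      v ∈ rootsU D F {r | r ∈ orbRoots O} ∧ prodU h.cert o.2 a ∈ G ∧
      (∀ r ∈ o.2, a (ρ r) = graphTwist η q r (a r)) ∧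
      (σ (a o.1) = a o.1 → prodU h.cert o.2 a ∈ fixS σ G) ∧ (o.2.length = 1 → σ (a o.1) = a o.1) := by
  obtain ⟨ho, hc, hlong⟩ := orbsB_head hO
  obtain ⟨a, v, hv, e⟩ := exists_decomp h.toStd o O ho hgU
  have hrel := coord_rel h.toStd S.data.twist o O ho hg hv e
  obtain ⟨-, h1, -, h4, h5, -⟩ := checkOrd_cons ho
  have hP := S.orbit_mem (fun r hr => (orbRoots_pos ho).1 r ((orbRoots_pos ho).2 r hr)) (fun r hr => (h4 r hr).2.1)
    h5 hc hrel
  refine ⟨a, v, e, ?_, hv, hP, hrel, fun hfix => ⟨hP, ?_⟩, fun hl => ?_⟩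
  · rw [show v = g * (prodU h.cert o.2 a)⁻¹ by rw [e]; group]
    exact mul_mem hg (inv_mem hP)
  · show push D σ (prodU h.cert o.2 a) = prodU h.cert o.2 a
    rw [push_prodU]
    exact congrArg List.prod (List.map_congr_left fun r hr => by
      simp only [Function.comp_apply, S.fixed_orbit ho hrel hfix r hr])
  · obtain ⟨x, hx⟩ := List.length_eq_one_iff.1 hl
    have hρ : ρ o.1 = o.1 := by
      have h2 := (h4 o.1 h1).2.1
      simp only [hx, List.mem_singleton] at h1 h2
      rw [h2, h1]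
    have e1 := hrel o.1 h1
    rw [hρ, graphTwist, hlong hl, Int.cast_one, one_mul] at e1
    rw [S.pow, ← e1]

theorem eq_one_of_mem_nil (hC : Cert D A) {g : GL D.Idx F}
    (hg : g ∈ rootsU D F {r | r ∈ orbRoots ([] : List Orb)}) : g = 1 := by
  induction hg using rootsU_induction hC with
  | h1 => rfl
  | hx r hr t => simp [orbRoots] at hr
  | hmul a b _ _ ha hb => rw [ha, hb, one_mul]

/-- Layers of fixed roots only hold ground field elements. -/
theorem Sub.fixed_of_long (S : Sub h ρ η q σ G) : ∀ {O : List Orb}, orbsB D ρ η O = true →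
    (∀ o ∈ O, o.2.length = 1) → ∀ {g : GL D.Idx F}, g ∈ G → g ∈ rootsU D F {r | r ∈ orbRoots O} → g ∈ fixS σ G
  | [], _, _, g, _, hg => by rw [eq_one_of_mem_nil h.cert hg]; exact one_mem _
  | o :: O, hO, hl, g, hg, hgU => by
    obtain ⟨a, v, rfl, hvG, hv, -, -, hfix, hlong⟩ := S.layer hO hg hgU
    exact mul_mem (S.fixed_of_long (orbsB_tail hO) (fun o' ho' => hl o' (List.mem_cons_of_mem _ ho')) hvG hv)
      (hfix (hlong (hl o (by simp))))

/-- An element leading at `o` can be pushed past it by a ground field element. -/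
def Pushes (σ : F →+* F) (hC : Cert D A) (ρ : ℕ → ℕ) (η : ℕ → ℤ) (q : ℕ) (G : Subgroup (GL D.Idx F)) (o : Orb)
    (O : List Orb) : Prop :=
  ∃ y ∈ fixS σ G, ∀ (a : ℕ → F) (v : GL D.Idx F), v ∈ rootsU D F {r | r ∈ orbRoots O} →
    (∀ r ∈ o.2, a (ρ r) = graphTwist η q r (a r)) → σ (a o.1) ≠ a o.1 →
    y * (v * prodU hC o.2 a) * y⁻¹ * (v * prodU hC o.2 a)⁻¹ ∈ rootsU D F {r | r ∈ orbRoots O} ∧
      y * (v * prodU hC o.2 a) * y⁻¹ * (v * prodU hC o.2 a)⁻¹ ∉ fixS σ G

/-- An overgroup reaches the orbit `hs`. -/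
theorem Sub.climb (S : Sub h ρ η q σ G) {H : Subgroup (GL D.Idx F)} (hMH : fixS σ G ≤ H) (hHG : H ≤ G)
    (hs : Orb) : ∀ {O : List Orb}, orbsB D ρ η O = true →
    (∀ (o : Orb) (O' : List Orb), (o :: O') <:+ O → o.2.length ≠ 1 →
      (o = hs ∧ ∀ o' ∈ O', o'.2.length = 1) ∨ Pushes σ h.cert ρ η q G o O') →
    ∀ {w : GL D.Idx F}, w ∈ H → w ∈ rootsU D F {r | r ∈ orbRoots O} → w ∉ fixS σ G →
      ∃ a : ℕ → F, (∀ r ∈ hs.2, a (ρ r) = graphTwist η q r (a r)) ∧ σ (a hs.1) ≠ a hs.1 ∧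
        prodU h.cert hs.2 a ∈ H
  | [], _, _, w, _, hw, hnot => absurd (by rw [eq_one_of_mem_nil h.cert hw]; exact one_mem _) hnot
  | o :: O, hO, hpush, w, hwH, hw, hnot => by
    have hrec := fun {w : GL D.Idx F} => S.climb hMH hHG hs (O := O) (orbsB_tail hO) (fun o' O' hsuf =>
      hpush o' O' (hsuf.trans (List.suffix_cons o O))) (w := w)
    obtain ⟨a, v, rfl, hvG, hv, hPG, hrel, hfix, hlong⟩ := S.layer hO (hHG hwH) hw
    by_cases hf : σ (a o.1) = a o.1
    · have hP := hfix hf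
      refine hrec (w := v) ?_ hv fun hvM => hnot (mul_mem hvM hP)
      have := mul_mem hwH (inv_mem (hMH hP))
      rwa [mul_inv_cancel_right] at this
    have hl : o.2.length ≠ 1 := fun hl => hf (hlong hl)
    rcases hpush o O (List.suffix_refl _) hl with ⟨rfl, hrest⟩ | ⟨y, hy, hpo⟩
    · refine ⟨a, hrel, hf, ?_⟩
      have hvM := S.fixed_of_long (orbsB_tail hO) hrest hvG hv
      have := mul_mem (inv_mem (hMH hvM)) hwH
      rwa [inv_mul_cancel_left] at this
    · obtain ⟨h1, h2⟩ := hpo a v hv hrel hf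
      exact hrec (mul_mem (mul_mem (mul_mem (hMH hy) hwH) (inv_mem (hMH hy))) (inv_mem hwH)) h1 h2

/-- the value of a commutator at `u` -/
def srcVal (D : ChevalleyDatum) (u : ℕ) (Y : List (ℕ × ℤ)) (L : List ℕ) : List (ℕ × ℤ) :=
  (Y.flatMap fun p => L.map fun s => (s, srcCoef D u p.1 s * p.2)).filter fun x => !decide (x.2 = 0)

/-- the checks of a push: `Y` against the orbit, read at `u` -/
def pushB (D : ChevalleyDatum) (o : Orb) (O : List Orb) (Y : List (ℕ × ℤ)) (u : ℕ) : Bool :=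
  let T := orbRoots O
  let S := orbRoots (o :: O)
  coefB D T u && keepsB D T u (Y.map Prod.fst) && movesB D T u (Y.map Prod.fst) S && keepsB D T u S &&
    (Y.all fun p => T.all fun s => decide (srcCoef D u p.1 s = 0))

theorem sum_srcVal (u : ℕ) (Y : List (ℕ × ℤ)) (L : List ℕ) (a : ℕ → F) :
    ((Y.map fun p => (p.1, (p.2 : F))).map fun p =>
        ((L.map fun r => (r, a r)).map fun s => (srcCoef D u p.1 s.1 : F) * p.2 * s.2).sum).sum =
      ((srcVal D u Y L).map fun x => (x.2 : F) * a x.1).sum := by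
  have hfil : ∀ M : List (ℕ × ℤ), ((M.filter fun x => !decide (x.2 = 0)).map fun x => (x.2 : F) * a x.1).sum =
      (M.map fun x => (x.2 : F) * a x.1).sum := by
    intro M
    induction M with
    | nil => rfl
    | cons x M ih =>
      by_cases hx : x.2 = 0
      · rw [List.filter_cons_of_neg (by simp [hx]), List.map_cons, List.sum_cons, hx, ih]
        simp
      · rw [List.filter_cons_of_pos (by simp [hx]), List.map_cons, List.sum_cons, List.map_cons, List.sum_cons, ih]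
  rw [srcVal, hfil]
  induction Y with
  | nil => rfl
  | cons p Y ih =>
    rw [List.map_cons, List.map_cons, List.sum_cons, ih, List.flatMap_cons, List.map_append, List.sum_append,
      List.map_map, List.map_map]
    congr 2
    refine List.map_congr_left fun s _ => ?_
    simp only [Function.comp_apply, Int.cast_mul]

/-- A push from a certificate. -/
theorem Sub.pushes (S : Sub h ρ η q σ G) {o : Orb} {O : List Orb} (Y : List (ℕ × ℤ)) (u : ℕ)
    (hc : pushB D o O Y u = true) (hY : wordG h.cert (Y.map fun p => (p.1, (p.2 : F))) ∈ G)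
    (hval : ∀ a : ℕ → F, (∀ r ∈ o.2, a (ρ r) = graphTwist η q r (a r)) → σ (a o.1) ≠ a o.1 →
      σ ((srcVal D u Y o.2).map fun x => (x.2 : F) * a x.1).sum ≠ ((srcVal D u Y o.2).map fun x => (x.2 : F) * a x.1).sum) :
    Pushes σ h.cert ρ η q G o O := by
  simp only [pushB, Bool.and_eq_true, List.all_eq_true, decide_eq_true_eq] at hc
  obtain ⟨⟨⟨⟨hT, hV⟩, hM⟩, hK⟩, hsrc⟩ := hc
  set Y' := Y.map fun p => (p.1, (p.2 : F)) with hY'
  have hyV : ∀ p ∈ Y', p.1 ∈ Y.map Prod.fst := fun p hp => by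
    obtain ⟨p₀, hp₀, rfl⟩ := List.mem_map.1 hp
    exact List.mem_map_of_mem hp₀
  refine ⟨wordG h.cert Y', ⟨hY, push_wordG_int h.cert σ Y⟩, fun a v hv hrel hne => ?_⟩
  have hST : ∀ s ∈ orbRoots O, s ∈ orbRoots (o :: O) := fun s hs => mem_orbRoots_cons.2 (Or.inr hs)
  have hvS : v ∈ rootsU D F {r | r ∈ orbRoots (o :: O)} := rootsU_mono hST hv
  have hMT : movesB D (orbRoots O) u (Y.map Prod.fst) (orbRoots O) = true := by
    simp only [movesB, List.all_eq_true, Bool.and_eq_true, decide_eq_true_eq] at hM ⊢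
    exact fun x hx => ⟨(hM x hx).1, fun s hs => (hM x hx).2 s (hST s hs)⟩
  have hKT : keepsB D (orbRoots O) u (orbRoots O) = true := by
    simp only [keepsB, List.all_eq_true, Bool.and_eq_true, decide_eq_true_eq] at hK ⊢
    exact fun x hx => hK x (hST x hx)
  obtain ⟨h1, h2⟩ := coef_comm_layer (hS := h.toStd) hT hV hMT hKT Y' hyV (fun p hp s hs => by
    obtain ⟨p₀, hp₀, rfl⟩ := List.mem_map.1 hp
    exact hsrc p₀ hp₀ s hs) hv
  obtain ⟨h3, h4⟩ := coef_comm_words (hS := h.toStd) hT hV hM hK (o.2.map fun r => (r, a r))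
    (fun p hp => by
      obtain ⟨r, hr, rfl⟩ := List.mem_map.1 hp
      exact mem_orbRoots_cons.2 (Or.inl hr)) Y' hyV
  rw [← prodU_eq_wordG, sum_srcVal] at h4
  rw [← prodU_eq_wordG] at h3
  obtain ⟨w, hw, rfl⟩ : ∃ w : List (ℕ × F), (∀ p ∈ w, p.1 ∈ orbRoots (o :: O)) ∧ v = wordG h.cert w := by
    clear h1 h2 hv
    induction hvS using rootsU_induction h.cert with
    | h1 => exact ⟨[], by simp, rfl⟩
    | hx r hr t => exact ⟨[(r, t)], by simpa using hr, by simp [wordG]⟩
    | hmul x y _ _ hx hy =>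
      obtain ⟨w₁, hw₁, rfl⟩ := hx
      obtain ⟨w₂, hw₂, rfl⟩ := hy
      exact ⟨w₁ ++ w₂, fun p hp => (List.mem_append.1 hp).elim (hw₁ p) (hw₂ p), (wordG_append _ w₁ w₂).symm⟩
  have hKS : ∀ x ∈ orbRoots (o :: O), x < D.nroots := fun x hx => by
    simp only [keepsB, List.all_eq_true, Bool.and_eq_true, decide_eq_true_eq] at hK
    exact (hK x hx).1
  obtain ⟨h5, h6⟩ := Coef.conj_word (hS := h.toStd) hT hK hKS w hw h3 h4
  set y := wordG h.cert Y'
  set P := prodU h.cert o.2 a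
  have e : y * (wordG h.cert w * P) * y⁻¹ * (wordG h.cert w * P)⁻¹ =
      (y * wordG h.cert w * y⁻¹ * (wordG h.cert w)⁻¹) *
        (wordG h.cert w * (y * P * y⁻¹ * P⁻¹) * (wordG h.cert w)⁻¹) := by group
  rw [e]
  refine ⟨mul_mem h1 h5, fun hmem => hval a hrel hne ?_⟩
  have h7 := h2.mul hT h6
  rw [zero_add] at h7
  exact h7.fixed hT σ hmem.2

end CfsgLib.SubfieldTwisted
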