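import Cfsg.Agent.Lib.SubfieldTwisted.Main
import Cfsg.Agent.Lib.TwistedOrder.Instances

/-! The certificates for D4. -/

set_option autoImplicit false
set_option maxRecDepth 100000

namespace CfsgLib.SubfieldTwisted

open Cfsg.Lie
open CfsgLib.Chevalley hiding xG_mem_group rootsU_le_group
open CfsgLib.Twisted (fullD4 graphSigmaD4A graphEtaD4A sigmaD4 etaD4)

/-- the certificates for D4 -/
def tablesD4 : Tables where
  top := 23
  B := [[1], [0, 2, 3]]
  long := [(14, [[0, 2, 3], [1]])]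
  comm := [((9, [[1], [0, 2, 3], [1]]), [(15, 1), (16, 1), (19, -1)])]
  w0 := [0, 2, 3, 1, 0, 2, 3, 1, 0, 2, 3, 1]
  Qs := [(19, [15, 16, 19]), (17, [17, 20, 21])]
  Ql := [(14, [14]), (22, [22]), (23, [23])]
  l := [1, 0, 2, 3]
  i := 1
  tab := [(0, []), (1, [[1]]), (9, [[1], [0, 2, 3]]), (14, [[1], [0, 2, 3], [1]]), (22, [[1], [0, 2, 3], [1], [0, 2, 3]]), (23, [[1], [0, 2, 3], [1], [0, 2, 3], [1]])]
  e₁ := (14, 1, 1, [1, 5, 10, 11, 14, 15, 16, 19, 23], [[1], [0, 2, 3]])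
  e₂ := (22, 9, -1, [9, 12, 13, 17, 18, 20, 21, 22, 23], [[1]])
  N := 1
  O := [(14, [14]), (18, [12, 13, 18]), (19, [15, 16, 19]), (17, [17, 20, 21]), (22, [22]), (23, [23])]
  hs := (17, [17, 20, 21])
  certs := [(18, [(14, 1)], 15), (19, [(12, 1), (13, 1), (18, 1)], 17)]

theorem tablesD4_ok : tablesB chevD4 graphSigmaD4A graphEtaD4A sigmaD4 etaD4 true tablesD4 = true := by
  decide +kernel

theorem weylD4_ok : weylB fullD4 tablesD4 = true := by
  decide +kernel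

end CfsgLib.SubfieldTwisted
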