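import Cfsg.Agent.Lib.SubfieldTwisted.Main
import Cfsg.Agent.Lib.TwistedAut.Assemble

/-!
What the families share: the Frobenius map, its fixed elements and the change to matrix entries.
-/

set_option autoImplicit false

namespace CfsgLib.SubfieldTwisted

open Cfsg.Lie
open CfsgLib.Chevalley hiding xG_mem_group rootsU_le_group
open CfsgLib.Twisted (Orb orbRoots checkOrd wordG decomp_unique checkOrd_cons)
open CfsgLib.ReflectionsSpinor.ChevField (push push_prodU)

variable {D : ChevalleyDatum} {A : Aux} {F : Type*} [Field F]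

theorem mem_fixS_iff_entries {q : ℕ} {σ : F →+* F} (hσ : ∀ x, σ x = x ^ q) {G : Subgroup (GL D.Idx F)}
    {g : GL D.Idx F} : g ∈ fixS σ G ↔ g ∈ G ∧
      ∀ i j : D.Idx, ((g : Matrix D.Idx D.Idx F) i j) ^ q = (g : Matrix D.Idx D.Idx F) i j := by
  rw [mem_fixS]
  refine and_congr_right fun _ => ⟨fun e i j => ?_, fun e => Units.ext (Matrix.ext fun i j => ?_)⟩
  · rw [← hσ]
    exact congrArg (fun z : GL D.Idx F => (z : Matrix D.Idx D.Idx F) i j) e
  · show σ ((g : Matrix D.Idx D.Idx F) i j) = (g : Matrix D.Idx D.Idx F) i j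
    rw [hσ]
    exact e i j

section finite

variable [Fintype F]

/-- The Frobenius map of the ground field, as an automorphism. -/
theorem exists_frob (p : ℕ) [Fact p.Prime] [CharP F p] {q : ℕ} (hq : ∃ a, 1 ≤ a ∧ q = p ^ a) :
    ∃ e : F ≃+* F, ∀ x, (e : F →+* F) x = x ^ q := by
  obtain ⟨a, -, rfl⟩ := hq
  exact ⟨RingEquiv.ofBijective (iterateFrobenius F p a)
    (Finite.injective_iff_bijective.1 (iterateFrobenius F p a).injective), fun x => iterateFrobenius_def p a x⟩

theorem exists_not_fixed {σ : F →+* F} {q n : ℕ} (hσ : ∀ x, σ x = x ^ q) (hq : 2 ≤ q) (hn : 2 ≤ n)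
    (hK : Fintype.card F = q ^ n) : ∃ c : F, σ c ≠ c := by
  by_contra hall
  simp only [not_exists, not_not] at hall
  have h1 := card_fixed hσ hq hK
  rw [Nat.card_congr (Equiv.subtypeUnivEquiv hall), Nat.card_eq_fintype_card, hK] at h1
  exact absurd h1 (Nat.ne_of_gt (by
    calc q = q ^ 1 := (pow_one q).symm
      _ < q ^ n := Nat.pow_lt_pow_right hq hn))

end finite

/-- A coordinate outside the ground field is seen by the entries. -/
theorem not_mem_fixS_of_coord (hS : Std D A) {ρ : ℕ → ℕ} {σ : F →+* F} {G : Subgroup (GL D.Idx F)} {o : Orb}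
    (ho : checkOrd D ρ [o] = true) {a : ℕ → F} (hne : σ (a o.1) ≠ a o.1) :
    prodU hS.cert o.2 a ∉ fixS σ G := fun hm => by
  have hP : push D σ (prodU hS.cert o.2 a) = prodU hS.cert o.2 a := hm.2
  rw [push_prodU] at hP
  exact hne (decomp_unique hS o [] ho (v := 1) (w := 1) (a := ⇑σ ∘ a) (b := a) (one_mem _) (one_mem _)
    (by rw [one_mul, one_mul, hP]) o.1 (checkOrd_cons ho).2.1)

end CfsgLib.SubfieldTwisted
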