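import Cfsg.Agent.Lib.SubfieldTwisted.Family
import Cfsg.Agent.Lib.SubfieldTwisted.DataD4

/-! The ground field subgroup of ³D₄(q) is maximal. -/

set_option autoImplicit false
set_option maxRecDepth 100000

namespace CfsgLib.SubfieldTwisted

open Cfsg.Lie
open CfsgLib.Chevalley hiding xG_mem_group rootsU_le_group
open CfsgLib.TwistedOrder (dataD4)
open CfsgLib.Twisted (Orb orbRoots checkOrd wordG wordG_cons wordG_nil wordG_mem_gen graphTwist fullD4 graphSigmaD4A
  graphEtaD4A graphEtaD4A_sign sigmaD4 etaD4 rootCertD4 blockWords checkBlock moveG_mem moveG fixedDataD4 nodeSet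
  nodeSets neg_one_pow_primePow wordG_eq_of_eq)
open CfsgLib.ReflectionsSpinor.ChevField (push push_xG)
open CfsgLib.TwistedAut (push_mem_gen FieldStable)

theorem d4Base_ok : (orbsB chevD4 graphSigmaD4A graphEtaD4A [(18, [12, 13, 18])] &&
    orbsB chevD4 graphSigmaD4A graphEtaD4A [(17, [17, 20, 21])] &&
    sepB chevD4 [d4p1, d4m1] [d4p3, d4m3] && sepB chevD4 [d4p1, d4m1] [d4p4, d4m4] &&
    sepB chevD4 [d4p3, d4m3] [d4p4, d4m4] &&
    decide (chevD4.neg d4p1 = d4m1) && decide (chevD4.neg d4p3 = d4m3) && decide (chevD4.neg d4p4 = d4m4) &&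
    decide (graphSigmaD4A 18 = 13) && decide (graphSigmaD4A 13 = 12) &&
    decide (graphEtaD4A 18 = 1) && decide (graphEtaD4A 13 = 1) &&
    ([1, 0, 2, 3].all fun i => decide (i < chevD4.rank)) &&
    ([17, 20, 21].all fun r => decide (CfsgLib.Twisted.moveRoot sigmaD4 [1, 0, 2, 3] r ∈ [12, 13, 18])) &&
    ([[1], [0, 2, 3]].all fun J => checkBlock chevD4 J) &&
    ([[1], [0, 2, 3]].map (blockWords chevD4) == [[[(d4p2, (1 : ℤ))], [(d4m2, -1)], [(d4p2, 1)]],
      [[(d4p1, 1), (d4p3, 1), (d4p4, 1)], [(d4m1, -1), (d4m3, -1), (d4m4, -1)],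
        [(d4p1, 1), (d4p3, 1), (d4p4, 1)]]])) = true := by
  decide +kernel

theorem d4Long_ok : ((List.finRange chevD4.nroots).all fun r =>
    ([[1], [0, 2, 3]] : List (List ℕ)).all fun L =>
      !decide (chevD4.IsPosRoot r ∧ ∀ i : Fin chevD4.rank, (i : ℕ) ∉ L → crd auxD4 i r = 0) ||
        decide (chevD4.IsNegRoot ((wPerm fullD4.cert (finWord chevD4 tablesD4.w0)) r : Fin chevD4.nroots) ∧
          ∀ i : Fin chevD4.rank, (i : ℕ) ∉ L →
            crd auxD4 i ((wPerm fullD4.cert (finWord chevD4 tablesD4.w0)) r : Fin chevD4.nroots) = 0)) = true := by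
  decide +kernel

variable {K : Type*} [Field K] [Fintype K] {q : ℕ}

omit [Fintype K] in
theorem d4Stable : FieldStable (d4Words K q) := by
  rintro σ w (⟨t, ht, r, hr, rfl⟩ | ⟨t, rs, hr, rfl⟩)
  · exact Or.inl ⟨σ t, by rw [← map_pow, ht], r, hr, by simp⟩
  · exact Or.inr ⟨σ t, rs, hr, by simp [map_pow]⟩

/-- Maximality for ³D₄. -/
theorem subfield_maximal_D4 (p : ℕ) [Fact p.Prime] [CharP K p] (hq : ∃ a : ℕ, 1 ≤ a ∧ q = p ^ a)
    (hK : Fintype.card K = q ^ 3) (M : Subgroup (GL chevD4.Idx K))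
    (hM : ∀ g : GL chevD4.Idx K, g ∈ M ↔ g ∈ twistedD4 K q ∧
      ∀ i j : chevD4.Idx, ((g : Matrix chevD4.Idx chevD4.Idx K) i j) ^ q =
        (g : Matrix chevD4.Idx chevD4.Idx K) i j) :
    M ≠ twistedD4 K q ∧ ∀ H : Subgroup (GL chevD4.Idx K), M ≤ H → H ≤ twistedD4 K q →
      H = M ∨ H = twistedD4 K q := by
  obtain ⟨e, he⟩ := exists_frob (F := K) p hq
  have hqpp : IsPrimePow q := by
    obtain ⟨a, ha, rfl⟩ := hq
    exact ⟨p, a, Nat.prime_iff.1 Fact.out, ha, rfl⟩
  have hq2 : 2 ≤ q := hqpp.two_le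
  set σ : K →+* K := (e : K →+* K) with hσdef
  set G := twistedD4 K q
  have hMeq : M = fixS σ G := Subgroup.ext fun g => (hM g).trans (mem_fixS_iff_entries he).symm
  have hm : ((-1 : K)) ^ q = -1 := neg_one_pow_primePow hqpp three_ne_zero hK
  have hm2 : ((-1 : K)) ^ q ^ 2 = -1 := by rw [sq, pow_mul, hm, hm]
  have S : Sub fullD4 graphSigmaD4A graphEtaD4A q σ G :=
    ⟨dataD4 hqpp hK, he, hm, graphEtaD4A_sign, fun g hg => push_mem_gen fullD4.cert d4Stable e hg⟩
  have hc := d4Base_ok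
  simp only [Bool.and_eq_true, decide_eq_true_eq, beq_iff_eq] at hc
  obtain ⟨⟨⟨⟨⟨⟨⟨⟨⟨⟨⟨⟨⟨⟨⟨ho, hohs⟩, hs12⟩, hs13⟩, hs23⟩, hn1⟩, hn3⟩, hn4⟩, hr18⟩, hr13⟩, he18⟩, he13⟩, hJ⟩, hmv⟩,
    hB⟩, hbw⟩ := hc
  simp only [List.all_eq_true, decide_eq_true_eq] at hJ hmv
  -- the blocks
  have hblocks : ∀ J ∈ tablesD4.B, (moveG fullD4.cert J : GL chevD4.Idx K) ∈ fixS σ G := by
    intro J hJ
    refine ⟨moveG_mem fullD4.cert (List.all_eq_true.1 hB J hJ) _ fun w hw => ?_, push_moveG _ σ J⟩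
    have hmem : blockWords chevD4 J ∈ [[1], [0, 2, 3]].map (blockWords chevD4) := List.mem_map_of_mem hJ
    rw [hbw] at hmem
    simp only [List.mem_cons, List.not_mem_nil, or_false] at hmem
    rcases hmem with e | e <;> rw [e] at hw <;> simp only [List.mem_cons, List.not_mem_nil, or_false] at hw <;>
      rcases hw with rfl | rfl | rfl <;>
      simp only [List.map_cons, List.map_nil, Int.cast_one, Int.cast_neg] <;>
      first
        | exact wordG_mem_gen fullD4.cert (Or.inl ⟨_, one_pow q, _, by simp, rfl⟩)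
        | exact wordG_mem_gen fullD4.cert (Or.inl ⟨_, hm, _, by simp, rfl⟩)
        | (refine wordG_mem_gen fullD4.cert (Or.inr ⟨(1 : K), (d4p1, d4p3, d4p4), ?_, ?_⟩) <;> simp <;> done)
        | (refine wordG_mem_gen fullD4.cert (Or.inr ⟨(-1 : K), (d4m1, d4m3, d4m4), ?_, ?_⟩) <;> simp [hm, hm2] <;> done)
  have hw0 : (moveG fullD4.cert tablesD4.w0 : GL chevD4.Idx K) ∈ fixS σ G := by
    rw [show tablesD4.w0 = [[0, 2, 3], [1], [0, 2, 3], [1], [0, 2, 3], [1]].flatten from rfl]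
    exact moveG_flatten_mem fullD4.cert hblocks _ (by decide)
  -- the base orbit
  let Φ := pairHom (slHom (F := K) fullD4 ⟨d4p1, by decide⟩ (RingHom.id K))
    (pairHom (slHom fullD4 ⟨d4p3, by decide⟩ σ) (slHom fullD4 ⟨d4p4, by decide⟩ (σ.comp σ)) (fun a b =>
      commute_of_sep fullD4 hs23 (by simpa [hn3] using slHom_mem fullD4 ⟨d4p3, by decide⟩ σ a)
        (by simpa [hn4] using slHom_mem fullD4 ⟨d4p4, by decide⟩ (σ.comp σ) b))) (fun a b => by
      refine Commute.mul_right ?_ ?_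
      · exact commute_of_sep fullD4 hs12 (by simpa [hn1] using slHom_mem fullD4 ⟨d4p1, by decide⟩ (RingHom.id K) a)
          (by simpa [hn3] using slHom_mem fullD4 ⟨d4p3, by decide⟩ σ b)
      · exact commute_of_sep fullD4 hs13 (by simpa [hn1] using slHom_mem fullD4 ⟨d4p1, by decide⟩ (RingHom.id K) a)
          (by simpa [hn4] using slHom_mem fullD4 ⟨d4p4, by decide⟩ (σ.comp σ) b))
  have hσ2 : ∀ t : K, σ (σ t) = t ^ q ^ 2 := fun t => by rw [he, he, ← pow_mul, sq]
  have hΦX : ∀ t : K, Φ (slX t) =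
      wordG fullD4.cert [(d4p1, t), (d4p3, t ^ q), (d4p4, t ^ q ^ 2)] := fun t => by
    show slHom fullD4 _ _ (slX t) * (slHom fullD4 _ _ (slX t) * slHom fullD4 _ _ (slX t)) = _
    simp only [slHom_slX, RingHom.id_apply, RingHom.comp_apply, hσ2, he, ← pow_mul, ← sq, wordG_cons, wordG_nil,
      mul_one]
  have hΦY : ∀ t : K, Φ (slY t) =
      wordG fullD4.cert [(d4m1, t), (d4m3, t ^ q), (d4m4, t ^ q ^ 2)] := fun t => by
    show slHom fullD4 _ _ (slY t) * (slHom fullD4 _ _ (slY t) * slHom fullD4 _ _ (slY t)) = _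
    simp only [slHom_slY, RingHom.id_apply, RingHom.comp_apply, hσ2, he, ← pow_mul, ← sq, wordG_cons, wordG_nil,
      mul_one, hn1, hn3, hn4]
  have hXG : ∀ t : K, Φ (slX t) ∈ G := fun t => by
    rw [hΦX]
    exact wordG_mem_gen fullD4.cert (Or.inr ⟨t, (d4p1, d4p3, d4p4), by simp, rfl⟩)
  have hYG : ∀ t : K, Φ (slY t) ∈ G := fun t => by
    rw [hΦY]
    exact wordG_mem_gen fullD4.cert (Or.inr ⟨t, (d4m1, d4m3, d4m4), by simp, rfl⟩)
  have hXfix : ∀ f, σ f = f → Φ (slX f) ∈ fixS σ G := fun f hf => by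
    refine ⟨hXG f, ?_⟩
    show push chevD4 σ _ = _
    rw [hΦX, push_wordG]
    simp [map_pow, hf]
  have hYfix : ∀ f, σ f = f → Φ (slY f) ∈ fixS σ G := fun f hf => by
    refine ⟨hYG f, ?_⟩
    show push chevD4 σ _ = _
    rw [hΦY, push_wordG]
    simp [map_pow, hf]
  have hprod : ∀ b : ℕ → K, b 13 = b 18 ^ q → b 12 = b 13 ^ q →
      prodU fullD4.cert [12, 13, 18] b = Φ (slX (b 18)) := by
    intro b h13 h12
    have hc12 : Commute (xG fullD4.cert 12 (b 12)) (xG fullD4.cert 13 (b 13)) :=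
      commute_of_noTerms fullD4.toStd (by decide +kernel) _ _
    have hc18 : Commute (xG fullD4.cert 12 (b 12) * xG fullD4.cert 13 (b 13)) (xG fullD4.cert 18 (b 18)) :=
      (commute_of_noTerms fullD4.toStd (by decide +kernel) _ _).mul_left
        (commute_of_noTerms fullD4.toStd (by decide +kernel) _ _)
    rw [hΦX, wordG_cons, wordG_cons, wordG_cons, wordG_nil, mul_one, sq, pow_mul, ← h13, ← h12]
    simp only [prodU, List.map_cons, List.map_nil, List.prod_cons, List.prod_nil, mul_one, d4p1, d4p3, d4p4]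
    rw [← mul_assoc, hc18.eq, hc12.eq]
  constructor
  · intro heq
    obtain ⟨c, hc⟩ := exists_not_fixed he hq2 (by norm_num) hK
    set b : ℕ → K := fun r => if r = 18 then c else if r = 13 then c ^ q else c ^ q ^ 2
    have hb : prodU fullD4.cert [12, 13, 18] b = Φ (slX c) := by
      rw [hprod b (by simp [b]) (by simp [b, sq, pow_mul])]
      simp [b]
    simp only [orbsB, Bool.and_eq_true] at ho
    refine not_mem_fixS_of_coord fullD4.toStd (o := (18, [12, 13, 18])) (G := G) ho.1 (a := b)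
      (by simpa [b] using hc) ?_
    show prodU fullD4.cert [12, 13, 18] b ∈ _
    rw [← hMeq, heq, hb]
    exact hXG c
  intro H hMH hHG
  rw [hMeq] at hMH ⊢
  have hCtx : CfsgLib.TwistedAut.Ctx fullD4 G (nodeSets chevD4 [[1], [0, 2, 3]]) := by
    refine ⟨fixedDataD4 hqpp hK, ?_, ?_⟩
    · intro J hJ J' hJ' i hi hi'
      obtain ⟨L, hL, rfl⟩ := hJ
      obtain ⟨L', hL', rfl⟩ := hJ'
      have hi : (i : ℕ) ∈ L := hi
      have hi' : (i : ℕ) ∈ L' := hi'
      simp only [List.mem_cons, List.not_mem_nil, or_false] at hL hL'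
      rcases hL with rfl | rfl <;> rcases hL' with rfl | rfl <;> first | rfl | (simp at hi hi'; omega)
    · have hl := d4Long_ok
      have hw := weylD4_ok
      simp only [weylB, Bool.and_eq_true, List.all_eq_true, List.mem_finRange, forall_true_left, Bool.or_eq_true,
        Bool.not_eq_true', decide_eq_false_iff_not, decide_eq_true_eq] at hl hw
      obtain ⟨θ, hA⟩ := acts_nW (F := K) fullD4 (finWord chevD4 tablesD4.w0)
      rw [← moveG_eq_nW, hw.1.1] at hA
      refine ⟨_, hw0.1, ?_, _, θ, hA, fun r hr => ((hw.1.2 r).resolve_left fun hn => hn hr).1, ?_⟩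
      · rw [← hw.1.1, moveG_eq_nW]
        exact nW_mem_monomial fullD4 _
      rintro J ⟨L, hL, rfl⟩ r hr
      exact (hl r L hL).resolve_left fun hn => hn hr
  refine S.maximal (p := p) (by omega) hCtx rootCertD4 (cube := true) (fun _ x hx => ?_) tablesD4_ok weylD4_ok
    hblocks hw0 (fun H hMH hHG a hne haH => ?_) hMH hHG
  · have h3 : σ (σ (σ x)) = x := by
      rw [hσ2, he, ← pow_mul, ← pow_succ', ← hK, FiniteField.pow_card]
    rwa [hx] at h3
  obtain ⟨b, hbrel, hbne, hbH⟩ := S.move_orbit rootCertD4 (hs := (17, [17, 20, 21])) (o := (18, [12, 13, 18]))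
    hohs ho hJ (by
      have := moveG_flatten_mem fullD4.cert hblocks [[1], [0, 2, 3]] (by decide)
      exact this) hmv hMH hHG hne haH
  have h13 : b 13 = b 18 ^ q := by
    have := hbrel 18 (by simp)
    rwa [hr18, graphTwist, he18, Int.cast_one, one_mul] at this
  have h12 : b 12 = b 13 ^ q := by
    have := hbrel 13 (by simp)
    rwa [hr13, graphTwist, he13, Int.cast_one, one_mul] at this
  have hc : Φ (slX (b 18)) ∈ H := by
    rw [← hprod b h13 h12]
    exact hbH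
  have hall := root_pair_le (H := H) he hq Φ (fun f hf => hMH (hXfix f hf)) (fun f hf => hMH (hYfix f hf)) hbne hc
    (Or.inr hK)
  show chevD4.genSubgroup K (d4Words K q) ≤ H
  rw [ChevalleyDatum.genSubgroup, Subgroup.closure_le]
  rintro g ⟨w, hw, hg⟩
  rw [wordG_eq_of_eq fullD4.cert hg, SetLike.mem_coe]
  rcases hw with ⟨t, ht, r, hr, rfl⟩ | ⟨t, rs, hr, rfl⟩
  · refine hMH ⟨wordG_mem_gen fullD4.cert (Or.inl ⟨t, ht, r, hr, rfl⟩), ?_⟩
    show push chevD4 σ _ = _
    rw [push_wordG]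
    simp [he, ht]
  · simp only [List.mem_cons, List.not_mem_nil, or_false] at hr
    rcases hr with rfl | rfl
    · rw [← hΦX]; exact (hall t).1
    · rw [← hΦY]; exact (hall t).2

end CfsgLib.SubfieldTwisted
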