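import Cfsg.Agent.Lib.SubfieldTwisted.Family
import Cfsg.Agent.Lib.SubfieldTwisted.DataE6

/-! The ground field subgroup of ²E₆(q) is maximal. -/

set_option autoImplicit false
set_option maxRecDepth 100000

namespace CfsgLib.SubfieldTwisted

open Cfsg.Lie
open CfsgLib.Chevalley hiding xG_mem_group rootsU_le_group
open CfsgLib.TwistedOrder (dataE6)
open CfsgLib.Twisted (Orb orbRoots checkOrd wordG wordG_cons wordG_nil wordG_mem_gen graphTwist fullE6 graphSigmaE6
  graphEtaE6 graphEtaE6_sign sigmaE6 etaE6 rootCertE6 blockWords checkBlock moveG_mem moveG fixedDataE6 nodeSet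
  nodeSets neg_one_pow_primePow wordG_eq_of_eq)
open CfsgLib.ReflectionsSpinor.ChevField (push push_xG)
open CfsgLib.TwistedAut (push_mem_gen FieldStable)

theorem e6Base_ok : (orbsB chevE6 graphSigmaE6 graphEtaE6 [(56, [36, 56])] &&
    orbsB chevE6 graphSigmaE6 graphEtaE6 [(42, [37, 42])] &&
    orbsB chevE6 graphSigmaE6 graphEtaE6 [(68, [66, 68])] &&
    sepB chevE6 [e6p1, e6m1] [e6p6, e6m6] && sepB chevE6 [e6p3, e6m3] [e6p5, e6m5] &&
    decide (chevE6.neg e6p1 = e6m1) && decide (chevE6.neg e6p6 = e6m6) && decide (chevE6.neg e6p3 = e6m3) &&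
    decide (chevE6.neg e6p5 = e6m5) && decide (graphSigmaE6 56 = 36) && decide (graphSigmaE6 42 = 37) &&
    decide (graphEtaE6 56 = 1) && decide (graphEtaE6 42 = 1) &&
    ([2, 4, 3, 2, 4, 1, 3, 2, 4, 0, 5].all fun i => decide (i < chevE6.rank)) &&
    ([0, 5, 3, 2, 4, 1, 3, 2, 4, 0, 5].all fun i => decide (i < chevE6.rank)) &&
    ([66, 68].all fun r => decide (CfsgLib.Twisted.moveRoot sigmaE6 [2, 4, 3, 2, 4, 1, 3, 2, 4, 0, 5] r ∈ [36, 56])) &&
    ([66, 68].all fun r => decide (CfsgLib.Twisted.moveRoot sigmaE6 [0, 5, 3, 2, 4, 1, 3, 2, 4, 0, 5] r ∈ [37, 42])) &&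
    ([[1], [3], [0, 5], [2, 4]].all fun J => checkBlock chevE6 J) &&
    ([[1], [3], [0, 5], [2, 4]].map (blockWords chevE6) == [[[(e6p2, (1 : ℤ))], [(e6m2, -1)], [(e6p2, 1)]],
      [[(e6p4, 1)], [(e6m4, -1)], [(e6p4, 1)]],
      [[(e6p1, 1), (e6p6, 1)], [(e6m1, -1), (e6m6, -1)], [(e6p1, 1), (e6p6, 1)]],
      [[(e6p3, 1), (e6p5, 1)], [(e6m3, -1), (e6m5, -1)], [(e6p3, 1), (e6p5, 1)]]])) = true := by
  decide +kernel

theorem e6Long_ok : ((List.finRange chevE6.nroots).all fun r =>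
    ([[1], [3], [0, 5], [2, 4]] : List (List ℕ)).all fun L =>
      !decide (chevE6.IsPosRoot r ∧ ∀ i : Fin chevE6.rank, (i : ℕ) ∉ L → crd auxE6 i r = 0) ||
        decide (chevE6.IsNegRoot ((wPerm fullE6.cert (finWord chevE6 tablesE6.w0)) r : Fin chevE6.nroots) ∧
          ∀ i : Fin chevE6.rank, (i : ℕ) ∉ L →
            crd auxE6 i ((wPerm fullE6.cert (finWord chevE6 tablesE6.w0)) r : Fin chevE6.nroots) = 0)) = true := by
  decide +kernel

variable {K : Type*} [Field K] [Fintype K] {q : ℕ}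

omit [Fintype K] in
theorem e6Stable : FieldStable (e6Words K q) := by
  rintro σ w (⟨t, ht, r, hr, rfl⟩ | ⟨t, rs, hr, rfl⟩)
  · exact Or.inl ⟨σ t, by rw [← map_pow, ht], r, hr, by simp⟩
  · exact Or.inr ⟨σ t, rs, hr, by simp [map_pow]⟩

/-- A base orbit, once it holds an element outside the ground field. -/
theorem e6_orbit_le (p : ℕ) [Fact p.Prime] [CharP K p] (hq : ∃ a : ℕ, 1 ≤ a ∧ q = p ^ a)
    (hK : Fintype.card K = q ^ 2) {σ : K →+* K} (hσ : ∀ x, σ x = x ^ q)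
    (S : Sub fullE6 graphSigmaE6 graphEtaE6 q σ (twistedE6 K q)) {a a' c c' : ℕ}
    (ha : a < chevE6.nroots) (hc : c < chevE6.nroots) (hna : chevE6.neg a = a') (hnc : chevE6.neg c = c')
    (hsep : sepB chevE6 [a, a'] [c, c'] = true)
    (hmem : (a, c) ∈ [(e6p1, e6p6), (e6p3, e6p5)]) (hmem' : (a', c') ∈ [(e6m1, e6m6), (e6m3, e6m5)])
    {H : Subgroup (GL chevE6.Idx K)} (hMH : fixS σ (twistedE6 K q) ≤ H) {t₀ : K} (hne : σ t₀ ≠ t₀)
    (hH : wordG fullE6.cert [(a, t₀), (c, t₀ ^ q)] ∈ H) (t : K) :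
    wordG fullE6.cert [(a, t), (c, t ^ q)] ∈ H ∧ wordG fullE6.cert [(a', t), (c', t ^ q)] ∈ H := by
  let Φ := pairHom (slHom (F := K) fullE6 ⟨a, ha⟩ (RingHom.id K)) (slHom fullE6 ⟨c, hc⟩ σ) (fun x y =>
    commute_of_sep fullE6 hsep (by simpa [hna] using slHom_mem fullE6 ⟨a, ha⟩ (RingHom.id K) x)
      (by simpa [hnc] using slHom_mem fullE6 ⟨c, hc⟩ σ y))
  have hΦX : ∀ t : K, Φ (slX t) = wordG fullE6.cert [(a, t), (c, t ^ q)] := fun t => by
    show slHom fullE6 _ _ (slX t) * slHom fullE6 _ _ (slX t) = _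
    simp only [slHom_slX, RingHom.id_apply, hσ, wordG_cons, wordG_nil, mul_one]
  have hΦY : ∀ t : K, Φ (slY t) = wordG fullE6.cert [(a', t), (c', t ^ q)] := fun t => by
    show slHom fullE6 _ _ (slY t) * slHom fullE6 _ _ (slY t) = _
    simp only [slHom_slY, RingHom.id_apply, hσ, wordG_cons, wordG_nil, mul_one, hna, hnc]
  have hXG : ∀ t : K, wordG fullE6.cert [(a, t), (c, t ^ q)] ∈ twistedE6 K q := fun t => by
    refine wordG_mem_gen fullE6.cert (Or.inr ⟨t, (a, c), ?_, rfl⟩)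
    simp only [List.mem_cons, List.not_mem_nil, or_false] at hmem ⊢
    rcases hmem with e | e
    · exact Or.inl e
    · exact Or.inr (Or.inr (Or.inl e))
  have hYG : ∀ t : K, wordG fullE6.cert [(a', t), (c', t ^ q)] ∈ twistedE6 K q := fun t => by
    refine wordG_mem_gen fullE6.cert (Or.inr ⟨t, (a', c'), ?_, rfl⟩)
    simp only [List.mem_cons, List.not_mem_nil, or_false] at hmem' ⊢
    rcases hmem' with e | e
    · exact Or.inr (Or.inl e)
    · exact Or.inr (Or.inr (Or.inr e))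
  have hall := root_pair_le (H := H) hσ hq Φ
    (fun f hf => hMH ⟨hΦX f ▸ hXG f, by
      show push chevE6 σ _ = _
      rw [hΦX, push_wordG]
      simp [map_pow, hf]⟩)
    (fun f hf => hMH ⟨hΦY f ▸ hYG f, by
      show push chevE6 σ _ = _
      rw [hΦY, push_wordG]
      simp [map_pow, hf]⟩) hne (hΦX t₀ ▸ hH) (Or.inl hK) t
  exact ⟨hΦX t ▸ hall.1, hΦY t ▸ hall.2⟩

/-- Maximality for ²E₆. -/
theorem subfield_maximal_E6 (p : ℕ) [Fact p.Prime] [CharP K p] (hq : ∃ a : ℕ, 1 ≤ a ∧ q = p ^ a)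
    (hK : Fintype.card K = q ^ 2) (M : Subgroup (GL chevE6.Idx K))
    (hM : ∀ g : GL chevE6.Idx K, g ∈ M ↔ g ∈ twistedE6 K q ∧
      ∀ i j : chevE6.Idx, ((g : Matrix chevE6.Idx chevE6.Idx K) i j) ^ q =
        (g : Matrix chevE6.Idx chevE6.Idx K) i j) :
    M ≠ twistedE6 K q ∧ ∀ H : Subgroup (GL chevE6.Idx K), M ≤ H → H ≤ twistedE6 K q →
      H = M ∨ H = twistedE6 K q := by
  obtain ⟨e, he⟩ := exists_frob (F := K) p hq
  have hqpp : IsPrimePow q := by
    obtain ⟨a, ha, rfl⟩ := hq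
    exact ⟨p, a, Nat.prime_iff.1 Fact.out, ha, rfl⟩
  have hq2 : 2 ≤ q := hqpp.two_le
  set σ : K →+* K := (e : K →+* K) with hσdef
  set G := twistedE6 K q with hGdef
  have hMeq : M = fixS σ G := Subgroup.ext fun g => (hM g).trans (mem_fixS_iff_entries he).symm
  have hm : ((-1 : K)) ^ q = -1 := neg_one_pow_primePow hqpp two_ne_zero hK
  have S : Sub fullE6 graphSigmaE6 graphEtaE6 q σ G :=
    ⟨dataE6 hqpp hK, he, hm, graphEtaE6_sign, fun g hg => push_mem_gen fullE6.cert e6Stable e hg⟩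
  have hc := e6Base_ok
  simp only [Bool.and_eq_true, decide_eq_true_eq, beq_iff_eq] at hc
  obtain ⟨⟨⟨⟨⟨⟨⟨⟨⟨⟨⟨⟨⟨⟨⟨⟨⟨⟨ho1, ho3⟩, hohs⟩, hs16⟩, hs35⟩, hn1⟩, hn6⟩, hn3⟩, hn5⟩, hr56⟩, hr42⟩, he56⟩, he42⟩,
    hJ1⟩, hJ3⟩, hmv1⟩, hmv3⟩, hB⟩, hbw⟩ := hc
  simp only [List.all_eq_true, decide_eq_true_eq] at hJ1 hJ3 hmv1 hmv3
  -- the blocks
  have hblocks : ∀ J ∈ tablesE6.B, (moveG fullE6.cert J : GL chevE6.Idx K) ∈ fixS σ G := by
    intro J hJ
    refine ⟨moveG_mem fullE6.cert (List.all_eq_true.1 hB J hJ) _ fun w hw => ?_, push_moveG _ σ J⟩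
    have hmem : blockWords chevE6 J ∈ [[1], [3], [0, 5], [2, 4]].map (blockWords chevE6) := List.mem_map_of_mem hJ
    rw [hbw] at hmem
    simp only [List.mem_cons, List.not_mem_nil, or_false] at hmem
    rcases hmem with e | e | e | e <;> rw [e] at hw <;> simp only [List.mem_cons, List.not_mem_nil, or_false] at hw <;>
      rcases hw with rfl | rfl | rfl <;>
      simp only [List.map_cons, List.map_nil, Int.cast_one, Int.cast_neg] <;>
      first
        | exact wordG_mem_gen fullE6.cert (Or.inl ⟨_, one_pow q, _, by simp, rfl⟩)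
        | exact wordG_mem_gen fullE6.cert (Or.inl ⟨_, hm, _, by simp, rfl⟩)
        | (refine wordG_mem_gen fullE6.cert (Or.inr ⟨(1 : K), (e6p1, e6p6), ?_, ?_⟩) <;> simp <;> done)
        | (refine wordG_mem_gen fullE6.cert (Or.inr ⟨(-1 : K), (e6m1, e6m6), ?_, ?_⟩) <;> simp [hm] <;> done)
        | (refine wordG_mem_gen fullE6.cert (Or.inr ⟨(1 : K), (e6p3, e6p5), ?_, ?_⟩) <;> simp <;> done)
        | (refine wordG_mem_gen fullE6.cert (Or.inr ⟨(-1 : K), (e6m3, e6m5), ?_, ?_⟩) <;> simp [hm] <;> done)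
  have hw0 : (moveG fullE6.cert tablesE6.w0 : GL chevE6.Idx K) ∈ fixS σ G := by
    rw [show tablesE6.w0 = ([[2, 4], [0, 5], [3], [2, 4], [0, 5], [1], [3], [2, 4], [0, 5], [1], [3], [2, 4], [0, 5], [1], [3], [2, 4], [0, 5], [1], [3], [2, 4], [0, 5], [1], [3], [1]] : List (List ℕ)).flatten from rfl]
    exact moveG_flatten_mem fullE6.cert hblocks _ (by decide)
  have hprod : ∀ (r s : ℕ), noTermsB chevE6 r s = true → ∀ (b : ℕ → K), b r = b s ^ q →
      prodU fullE6.cert [r, s] b = wordG fullE6.cert [(s, b s), (r, b s ^ q)] := by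
    intro r s hrs b hb
    simp only [prodU, wordG, List.map_cons, List.map_nil, List.prod_cons, List.prod_nil, mul_one, hb]
    exact (commute_of_noTerms fullE6.toStd hrs _ _).eq
  have h56 : noTermsB chevE6 36 56 = true := by decide +kernel
  have h42 : noTermsB chevE6 37 42 = true := by decide +kernel
  constructor
  · intro heq
    obtain ⟨c, hc⟩ := exists_not_fixed he hq2 le_rfl hK
    set b : ℕ → K := fun r => if r = 56 then c else c ^ q
    simp only [orbsB, Bool.and_eq_true] at ho1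
    refine not_mem_fixS_of_coord fullE6.toStd (o := (56, [36, 56])) (G := G) ho1.1 (a := b)
      (by simpa [b] using hc) ?_
    show prodU fullE6.cert [36, 56] b ∈ _
    rw [← hMeq, heq, hprod 36 56 h56 b (by simp [b])]
    exact wordG_mem_gen fullE6.cert (Or.inr ⟨b 56, (e6p1, e6p6), by simp, rfl⟩)
  intro H hMH hHG
  rw [hMeq] at hMH ⊢
  have hCtx : CfsgLib.TwistedAut.Ctx fullE6 G (nodeSets chevE6 [[1], [3], [0, 5], [2, 4]]) := by
    refine ⟨fixedDataE6 hqpp hK, ?_, ?_⟩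
    · intro J hJ J' hJ' i hi hi'
      obtain ⟨L, hL, rfl⟩ := hJ
      obtain ⟨L', hL', rfl⟩ := hJ'
      have hi : (i : ℕ) ∈ L := hi
      have hi' : (i : ℕ) ∈ L' := hi'
      simp only [List.mem_cons, List.not_mem_nil, or_false] at hL hL'
      rcases hL with rfl | rfl | rfl | rfl <;> rcases hL' with rfl | rfl | rfl | rfl <;>
        first | rfl | (simp at hi hi'; omega)
    · have hl := e6Long_ok
      have hw := weylE6_ok
      simp only [weylB, Bool.and_eq_true, List.all_eq_true, List.mem_finRange, forall_true_left, Bool.or_eq_true,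
        Bool.not_eq_true', decide_eq_false_iff_not, decide_eq_true_eq] at hl hw
      obtain ⟨θ, hA⟩ := acts_nW (F := K) fullE6 (finWord chevE6 tablesE6.w0)
      rw [← moveG_eq_nW, hw.1.1] at hA
      refine ⟨_, hw0.1, ?_, _, θ, hA, fun r hr => ((hw.1.2 r).resolve_left fun hn => hn hr).1, ?_⟩
      · rw [← hw.1.1, moveG_eq_nW]
        exact nW_mem_monomial fullE6 _
      rintro J ⟨L, hL, rfl⟩ r hr
      exact (hl r L hL).resolve_left fun hn => hn hr
  refine S.maximal (p := p) (by omega) hCtx rootCertE6 (cube := false) (fun h0 => absurd h0 (by simp)) tablesE6_ok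
    weylE6_ok hblocks hw0 (fun H hMH hHG a hne haH => ?_) hMH hHG
  obtain ⟨b, hbrel, hbne, hbH⟩ := S.move_orbit rootCertE6 (hs := (68, [66, 68])) (o := (56, [36, 56]))
    hohs ho1 hJ1 (moveG_flatten_mem fullE6.cert hblocks [[2, 4], [3], [2, 4], [1], [3], [2, 4], [0, 5]] (by decide))
    hmv1 hMH hHG hne haH
  obtain ⟨b', hbrel', hbne', hbH'⟩ := S.move_orbit rootCertE6 (hs := (68, [66, 68])) (o := (42, [37, 42]))
    hohs ho3 hJ3 (moveG_flatten_mem fullE6.cert hblocks [[0, 5], [3], [2, 4], [1], [3], [2, 4], [0, 5]] (by decide))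
    hmv3 hMH hHG hne haH
  have hb36 : b 36 = b 56 ^ q := by
    have := hbrel 56 (by simp)
    rwa [hr56, graphTwist, he56, Int.cast_one, one_mul] at this
  have hb37 : b' 37 = b' 42 ^ q := by
    have := hbrel' 42 (by simp)
    rwa [hr42, graphTwist, he42, Int.cast_one, one_mul] at this
  rw [hprod 36 56 h56 b hb36] at hbH
  rw [hprod 37 42 h42 b' hb37] at hbH'
  have h16 := e6_orbit_le p hq hK he S (a := e6p1) (a' := e6m1) (c := e6p6) (c' := e6m6) (by decide) (by decide)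
    hn1 hn6 hs16 (by simp) (by simp) hMH hbne hbH
  have h35 := e6_orbit_le p hq hK he S (a := e6p3) (a' := e6m3) (c := e6p5) (c' := e6m5) (by decide) (by decide)
    hn3 hn5 hs35 (by simp) (by simp) hMH hbne' hbH'
  show chevE6.genSubgroup K (e6Words K q) ≤ H
  rw [ChevalleyDatum.genSubgroup, Subgroup.closure_le]
  rintro g ⟨w, hw, hg⟩
  rw [wordG_eq_of_eq fullE6.cert hg, SetLike.mem_coe]
  rcases hw with ⟨t, ht, r, hr, rfl⟩ | ⟨t, rs, hr, rfl⟩
  · refine hMH ⟨wordG_mem_gen fullE6.cert (Or.inl ⟨t, ht, r, hr, rfl⟩), ?_⟩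
    show push chevE6 σ _ = _
    rw [push_wordG]
    simp [he, ht]
  · simp only [List.mem_cons, List.not_mem_nil, or_false] at hr
    rcases hr with rfl | rfl | rfl | rfl
    · exact (h16 t).1
    · exact (h16 t).2
    · exact (h35 t).1
    · exact (h35 t).2

end CfsgLib.SubfieldTwisted
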