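import Cfsg.Agent.Lib.SubfieldTwisted.Assemble

/-!
Maximality of the ground field subgroup, from the certificates of a family.
-/

set_option autoImplicit false

namespace CfsgLib.SubfieldTwisted

open Cfsg.Lie
open CfsgLib.Chevalley hiding xG_mem_group rootsU_le_group
open CfsgLib.Twisted (Orb orbRoots checkOrd graphTwist moveG RootCert)
open CfsgLib.TwistedAut (Ctx)

variable {D : ChevalleyDatum} {A : Aux} {F : Type*} [Field F]
variable {cart coro : ℕ → ℕ → ℤ} {μ : ℕ → ℕ → ℕ} {ε : ℕ → ℕ → ℤ} {par : ℕ → ℕ × ℕ} {dep : ℕ → ℕ}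

/-- the data of a family -/
structure Tables where
  /-- the highest root -/
  top : ℕ
  /-- the blocks -/
  B : List (List ℕ)
  /-- the long part of the regular element -/
  long : List (ℕ × List (List ℕ))
  /-- the commutator part -/
  comm : List ((ℕ × List (List ℕ)) × List (ℕ × ℤ))
  /-- the word of the longest element -/
  w0 : List ℕ
  /-- short part of the radical -/
  Qs : List Orb
  /-- long part of the radical -/
  Ql : List Orb
  /-- the word for the highest root -/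
  l : List ℕ
  /-- its node -/
  i : ℕ
  /-- the reductions -/
  tab : List (ℕ × List (List ℕ))
  /-- a descent -/
  e₁ : ℕ × ℕ × ℤ × List ℕ × List (List ℕ)
  /-- a descent -/
  e₂ : ℕ × ℕ × ℤ × List ℕ × List (List ℕ)
  /-- their sign -/
  N : ℤ
  /-- all orbits -/
  O : List Orb
  /-- the last short orbit -/
  hs : Orb
  /-- the pushes -/
  certs : List (ℕ × List (ℕ × ℤ) × ℕ)

/-- node lists as elements of `Fin` -/
def finWord (D : ChevalleyDatum) (l : List ℕ) : List (Fin D.rank) :=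
  l.filterMap fun i => if h : i < D.rank then some ⟨i, h⟩ else none

/-- the checks about the Weyl group -/
def weylB (h : Full D A) (T : Tables) : Bool :=
  decide ((finWord D T.w0).map Fin.val = T.w0) &&
    (List.finRange D.nroots).all (fun r => !decide (D.IsPosRoot r) ||
      decide (D.IsNegRoot ((wPerm h.cert (finWord D T.w0)) r : Fin D.nroots) ∧
        D.IsNegRoot ((wPerm h.cert (finWord D T.w0)).symm r : Fin D.nroots))) &&
    decide (∃ i : Fin D.rank, (i : ℕ) = T.i ∧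
      ((wPerm h.cert (finWord D T.l) (smp h.cert i) : Fin D.nroots) : ℕ) = T.top ∧
      ∀ r : Fin D.nroots, (r : ℕ) ∈ orbRoots (T.Qs ++ T.Ql) → D.IsPosRoot r ∧
        D.IsNegRoot ((wPerm h.cert (finWord D T.l) * rfPerm h.cert i * wPerm h.cert (finWord D T.l).reverse) r :
          Fin D.nroots))

/-- the other checks -/
def tablesB (D : ChevalleyDatum) (ρ : ℕ → ℕ) (η : ℕ → ℤ) (μ : ℕ → ℕ → ℕ) (ε : ℕ → ℕ → ℤ) (cube : Bool)
    (T : Tables) : Bool :=
  decide (D.IsPosRoot T.top) && decide (ρ T.top = T.top) && decide (η T.top = 1) &&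
    (List.range D.nroots).all (fun r => !decide (ρ r = r) || decide (η r = 1)) &&
    (T.B.all fun J => J.all fun i => decide (i < D.rank)) && T.w0.all (fun i => decide (i < D.rank)) &&
    regB D ρ η μ ε T.top T.B T.long T.comm &&
    ((List.range D.nroots).all fun g => !decide (D.IsPosRoot g) || noTermsB D T.top g) &&
    orbsB D ρ η (T.Qs ++ T.Ql) && (T.Ql.all fun o => Nat.beq o.2.length 1) &&
    decide (T.top ∈ orbRoots (T.Qs ++ T.Ql)) &&
    ((orbRoots (T.Qs ++ T.Ql)).all fun s => noTermsB D T.top s) &&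
    reduceB D ρ μ T.top (orbRoots (T.Qs ++ T.Ql)) T.B T.tab &&
    descB D μ T.top (orbRoots T.Qs) T.B T.e₁ && descB D μ T.top (orbRoots T.Qs) T.B T.e₂ &&
    decide (ρ T.e₁.1 = T.e₁.1) && decide (ρ T.e₂.1 = T.e₂.1) && decide (T.N = 1 ∨ T.N = -1) &&
    decide (D.commTerms T.e₁.2.1 T.e₂.2.1 = [(D.neg T.top, T.N, 1, 1)]) &&
    decide (T.e₂.2.1 ≠ T.e₁.2.1 ∧ T.e₂.2.1 ≠ D.neg T.e₁.2.1 ∧ noTermsB D T.e₂.2.1 (D.neg T.top) = true ∧
      T.e₁.2.1 < D.nroots ∧ T.e₂.2.1 < D.nroots) &&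
    orbsB D ρ η T.O && ((List.range D.nroots).all fun r => !decide (D.IsPosRoot r) || decide (r ∈ orbRoots T.O)) &&
    planB D ρ η cube T.hs T.certs T.O

variable {h : Full D A} {ρ : ℕ → ℕ} {η : ℕ → ℤ} {q : ℕ} {σ : F →+* F} {G : Subgroup (GL D.Idx F)}

/-- The ground field subgroup is maximal once a short root element outside it generates. -/
theorem Sub.maximal [Fintype F] {p : ℕ} [Fact p.Prime] [CharP F p] (S : Sub h ρ η q σ G) (hq : 0 < q)
    {Js : Set (Set (Fin D.rank))} (hCtx : Ctx h G Js) (C : RootCert D cart coro μ ε par dep) {cube : Bool}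
    (hcube : cube = true → ∀ x : F, σ (σ x) = x → σ x = x) {T : Tables} (hT : tablesB D ρ η μ ε cube T = true)
    (hW : weylB h T = true) (hBM : ∀ J ∈ T.B, (moveG h.cert J : GL D.Idx F) ∈ fixS σ G)
    (hw0 : (moveG h.cert T.w0 : GL D.Idx F) ∈ fixS σ G)
    (hgen : ∀ H : Subgroup (GL D.Idx F), fixS σ G ≤ H → H ≤ G → ∀ a : ℕ → F,
      σ (a T.hs.1) ≠ a T.hs.1 → prodU h.cert T.hs.2 a ∈ H → G ≤ H)
    {H : Subgroup (GL D.Idx F)} (hMH : fixS σ G ≤ H) (hHG : H ≤ G) : H = fixS σ G ∨ H = G := by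
  refine or_iff_not_imp_left.2 fun hne => le_antisymm hHG ?_
  have hne' : ¬ H ≤ fixS σ G := fun hle => hne (le_antisymm hle hMH)
  simp only [tablesB, Bool.and_eq_true] at hT
  obtain ⟨⟨⟨⟨⟨⟨⟨⟨⟨⟨⟨⟨⟨⟨⟨⟨⟨⟨⟨⟨⟨⟨t1, t2⟩, t3⟩, t4⟩, t5⟩, t6⟩, t7⟩, t8⟩, t9⟩, t10⟩, t11⟩, t12⟩, t13⟩, t14⟩,
    t15⟩, t16⟩, t17⟩, t18⟩, t19⟩, t20⟩, t21⟩, t22⟩, t23⟩ := hT
  simp only [decide_eq_true_eq] at t1 t2 t3 t11 t16 t17 t18 t19 t20
  simp only [List.all_eq_true, List.mem_range, Bool.or_eq_true, Bool.not_eq_true', decide_eq_false_iff_not,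
    decide_eq_true_eq] at t4 t5 t6 t22
  simp only [List.all_eq_true] at t10
  simp only [weylB, Bool.and_eq_true, List.all_eq_true, List.mem_finRange, forall_true_left, Bool.or_eq_true,
    Bool.not_eq_true', decide_eq_false_iff_not, decide_eq_true_eq] at hW
  obtain ⟨⟨hwl, hw⟩, i, -, hil, hinv⟩ := hW
  have hηfix : ∀ r < D.nroots, ρ r = r → η r = 1 := fun r hr e => (t4 r hr).resolve_left fun hn => hn e
  obtain ⟨hcoef, u₀, hu₀N, hu₀⟩ := S.exists_regular C t1 t2 t3 t5 hBM t7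
  obtain ⟨θ, hA⟩ := acts_nW (F := F) h (finWord D T.w0)
  rw [← moveG_eq_nW, hwl] at hA
  have hnm : (moveG h.cert T.w0 : GL D.Idx F) ∈ D.monomialSubgroup F := by
    rw [← hwl, moveG_eq_nW]
    exact nW_mem_monomial h _
  obtain ⟨x, hxH, hxM, g, hg, k, hk, rfl⟩ := S.exists_moved (p := p) hCtx hcoef hu₀N hu₀ hw0 hnm hA
    (fun r hr => ((hw r).resolve_left fun hn => hn hr).1) (fun r hr => ((hw r).resolve_left fun hn => hn hr).2)
    hMH hHG hne'
  obtain ⟨w, hwH, hwU, hwM⟩ := S.exists_unipotent hq C t1 t2 hηfix t8 t5 hBM t9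
    (fun o ho => Nat.eq_of_beq_eq_true (t10 o ho)) t11 t12 _ i hil hinv t13 t14 t15 t16 t17 t18 t19 t20 hMH hHG
    hg hk hxH hxM
  have hO : checkOrd D ρ T.O = true := by
    simp only [orbsB, Bool.and_eq_true] at t21
    exact t21.1
  have hwO : w ∈ rootsU D F {r | r ∈ orbRoots T.O} :=
    rootsU_mono (S := {r | D.IsPosRoot r}) (fun r hr => (t22 r hr.1).resolve_left fun hn => hn hr) hwU
  obtain ⟨a, -, hane, haH⟩ := S.climb hMH hHG T.hs t21 (S.plan_spec hcube hO t23) hwH hwO hwM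
  exact hgen H hMH hHG a hane haH

end CfsgLib.SubfieldTwisted
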