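import Cfsg.Agent.Lib.SubfieldTwisted.Climb

/-!
Monomial elements over the ground field moving root groups around.
-/

set_option autoImplicit false

namespace CfsgLib.SubfieldTwisted

open Cfsg.Lie
open CfsgLib.Chevalley hiding xG_mem_group rootsU_le_group
open CfsgLib.Twisted (wordG wordG_cons wordG_append wordG_nil moveRoot moveSign moveG moveG_mul_xG RootCert)
open CfsgLib.ReflectionsSpinor.ChevField (push push_nG)

variable {D : ChevalleyDatum} {A : Aux} {F : Type*} [Field F]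
variable {cart coro : ℕ → ℕ → ℤ} {μ : ℕ → ℕ → ℕ} {ε : ℕ → ℕ → ℤ} {par : ℕ → ℕ × ℕ} {dep : ℕ → ℕ}

theorem moveG_append (hC : Cert D A) (J K : List ℕ) :
    (moveG hC (J ++ K) : GL D.Idx F) = moveG hC J * moveG hC K := by
  simp [moveG]

theorem moveG_nil (hC : Cert D A) : (moveG hC [] : GL D.Idx F) = 1 := by simp [moveG]

theorem push_moveG (hC : Cert D A) (σ : F →+* F) (J : List ℕ) : push D σ (moveG hC J) = moveG hC J := by
  simp only [moveG, map_list_prod, List.map_map]
  congr 1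
  exact List.map_congr_left fun i _ => by simp [push_nG]

/-- Products of ground field blocks. -/
theorem moveG_flatten_mem (hC : Cert D A) {M : Subgroup (GL D.Idx F)} {B : List (List ℕ)}
    (hB : ∀ J ∈ B, (moveG hC J : GL D.Idx F) ∈ M) :
    ∀ L : List (List ℕ), (∀ J ∈ L, J ∈ B) → (moveG hC L.flatten : GL D.Idx F) ∈ M
  | [], _ => by rw [List.flatten_nil, moveG_nil]; exact one_mem _
  | J :: L, hL => by
    rw [List.flatten_cons, moveG_append]
    exact mul_mem (hB J (hL J (by simp))) (moveG_flatten_mem hC hB L fun K hK => hL K (List.mem_cons_of_mem _ hK))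

theorem moveG_conj_xG (hC : Cert D A) (C : RootCert D cart coro μ ε par dep) {J : List ℕ}
    (hJ : ∀ i ∈ J, i < D.rank) {s : ℕ} (hs : s < D.nroots) (t : F) :
    moveG hC J * xG hC s t * (moveG hC J)⁻¹ = xG hC (moveRoot μ J s) ((moveSign μ ε J s : F) * t) := by
  rw [(moveG_mul_xG hC C hJ hs t).2, mul_inv_cancel_right]

theorem moveG_conj_wordG (hC : Cert D A) (C : RootCert D cart coro μ ε par dep) {J : List ℕ}
    (hJ : ∀ i ∈ J, i < D.rank) : ∀ w : List (ℕ × F), (∀ p ∈ w, p.1 < D.nroots) →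
    moveG hC J * wordG hC w * (moveG hC J)⁻¹ =
      wordG hC (w.map fun p => (moveRoot μ J p.1, (moveSign μ ε J p.1 : F) * p.2))
  | [], _ => by simp [wordG_nil]
  | p :: w, hw => by
    rw [wordG_cons, List.map_cons, wordG_cons, ← moveG_conj_wordG hC C hJ w fun q hq => hw q (List.mem_cons_of_mem _ hq),
      ← moveG_conj_xG hC C hJ (hw p (by simp)) p.2]
    group

theorem moveG_conj_rootsU (hC : Cert D A) (C : RootCert D cart coro μ ε par dep) {J : List ℕ}
    (hJ : ∀ i ∈ J, i < D.rank) {S T : Set ℕ} (hST : ∀ s ∈ S, s < D.nroots ∧ moveRoot μ J s ∈ T) :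
    ∀ g ∈ rootsU D F S, moveG hC J * g * (moveG hC J)⁻¹ ∈ rootsU D F T :=
  rootsU_conj_le hC fun s hs t => by
    rw [moveG_conj_xG hC C hJ (hST s hs).1 t]
    exact xG_mem_rootsU hC (hST s hs).2 _

theorem moveG_eq_nW (hC : Cert D A) (l : List (Fin D.rank)) :
    (moveG hC (l.map Fin.val) : GL D.Idx F) = nW hC F l := by
  simp [moveG, nW, Function.comp_def]

theorem acts_nW_inv (h : Full D A) (l : List (Fin D.rank)) :
    ∃ η, Acts h.cert (nW h.cert F l)⁻¹ (wPerm h.cert l.reverse) η := by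
  induction l with
  | nil => exact ⟨_, by rw [nW_nil, inv_one, List.reverse_nil, wPerm_nil]; exact acts_one h.cert⟩
  | cons i l ih =>
    obtain ⟨η, hη⟩ := ih
    rw [nW_cons, mul_inv_rev, nG_inv, List.reverse_cons, wPerm_append, wPerm_cons, wPerm_nil, mul_one]
    exact ⟨_, hη.mul (acts_nG_simple h i (neg_ne_zero.2 one_ne_zero))⟩

/-- The monomial element at a moved simple root. -/
theorem exists_acts_nG (h : Full D A) (l : List (Fin D.rank)) (i : Fin D.rank) {c : F} (hc : c ≠ 0) :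
    ∃ η, Acts h.cert (nG h.cert ((wPerm h.cert l (smp h.cert i) : Fin D.nroots) : ℕ) c)
      (wPerm h.cert l * rfPerm h.cert i * wPerm h.cert l.reverse) η := by
  obtain ⟨η, hη⟩ := acts_nW (F := F) h l
  obtain ⟨θ, hθ⟩ := acts_nW_inv (F := F) h l
  have e := hη.conj_nG (smp h.cert i) ((η (smp h.cert i))⁻¹ * c)
  rw [mul_inv_cancel_left₀ (hη.ne_zero _)] at e
  exact ⟨_, e ▸ (hη.mul (acts_nG_simple h i (mul_ne_zero (inv_ne_zero (hη.ne_zero _)) hc))).mul hθ⟩

end CfsgLib.SubfieldTwisted
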