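import Cfsg.Agent.Lib.SubfieldTwisted.Regular
import Cfsg.Agent.Lib.TwistedGen.Basic

/-!
A proper overgroup of the ground field subgroup meets the maximal unipotent subgroup in more than it does.
-/

set_option autoImplicit false

namespace CfsgLib.SubfieldTwisted

open Cfsg.Lie
open CfsgLib.Chevalley hiding xG_mem_group rootsU_le_group
open CfsgLib.Twisted (Orb orbRoots checkOrd wordG wordG_cons graphTwist rootsU_le_group xG_mem_group moveRoot
  moveSign moveG RootCert checkOrd_cons mem_orbRoots_cons map_rho_mem)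
open CfsgLib.TwistedAut (Ctx)
open CfsgLib.ReflectionsSpinor.ChevField (push push_xG push_rootsU)

variable {D : ChevalleyDatum} {A : Aux} {F : Type*} [Field F]

/-- the conjugates of ground field elements of the root group at `top` lying over the ground field -/
def longGens (hC : Cert D A) (σ : F →+* F) (G : Subgroup (GL D.Idx F)) (top : ℕ) : Set (GL D.Idx F) :=
  {z | z ∈ fixS σ G ∧ ∃ g ∈ G, ∃ k : F, σ k = k ∧ z = g * xG hC top k * g⁻¹}

theorem conj_mem_longGens {hC : Cert D A} {σ : F →+* F} {G : Subgroup (GL D.Idx F)} {top : ℕ} {g z : GL D.Idx F}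
    (hg : g ∈ G) (hz : z ∈ longGens hC σ G top) (hM : g * z * g⁻¹ ∈ fixS σ G) :
    g * z * g⁻¹ ∈ longGens hC σ G top := by
  obtain ⟨-, a, ha, k, hk, rfl⟩ := hz
  exact ⟨hM, g * a, mul_mem hg ha, k, hk, by group⟩

theorem longGens_closure_le {hC : Cert D A} {σ : F →+* F} {G : Subgroup (GL D.Idx F)} {top : ℕ} :
    Subgroup.closure (longGens hC σ G top) ≤ fixS σ G :=
  (Subgroup.closure_le _).2 fun _ hz => hz.1

theorem conj_mem_closure {hC : Cert D A} {σ : F →+* F} {G : Subgroup (GL D.Idx F)} {top : ℕ} {g : GL D.Idx F}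
    (hg : g ∈ G) (hM : ∀ z ∈ longGens hC σ G top, g * z * g⁻¹ ∈ fixS σ G) {x : GL D.Idx F}
    (hx : x ∈ Subgroup.closure (longGens hC σ G top)) :
    g * x * g⁻¹ ∈ Subgroup.closure (longGens hC σ G top) := by
  induction hx using Subgroup.closure_induction with
  | mem z hz => exact Subgroup.subset_closure (conj_mem_longGens hg hz (hM z hz))
  | one => rw [mul_one, mul_inv_cancel]; exact one_mem _
  | mul a b _ _ ha hb =>
    rw [show g * (a * b) * g⁻¹ = (g * a * g⁻¹) * (g * b * g⁻¹) by group]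
    exact mul_mem ha hb
  | inv a _ ha =>
    rw [show g * a⁻¹ * g⁻¹ = (g * a * g⁻¹)⁻¹ by group]
    exact inv_mem ha

variable {h : Full D A} {ρ : ℕ → ℕ} {η : ℕ → ℤ} {q : ℕ} {σ : F →+* F} {G : Subgroup (GL D.Idx F)}

/-- A proper overgroup moves some long root element out of the ground field subgroup. -/
theorem Sub.exists_moved [Fintype F] {p : ℕ} [Fact p.Prime] [CharP F p] (S : Sub h ρ η q σ G)
    {Js : Set (Set (Fin D.rank))} (C : Ctx h G Js)
    (hcoef : ∀ i : Fin D.rank, coefB D D.posRoots (D.simple i) = true) {top : ℕ}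
    {u₀ : GL D.Idx F} (hu₀N : u₀ ∈ Subgroup.closure (longGens h.cert σ G top)) (hu₀ : RegEl h.toStd u₀)
    {n : GL D.Idx F} (hn : n ∈ fixS σ G) (hnm : n ∈ D.monomialSubgroup F) {π : Equiv.Perm (Fin D.nroots)}
    {θ : Fin D.nroots → F} (hA : Acts h.cert n π θ) (hπ : ∀ r : Fin D.nroots, D.IsPosRoot r → D.IsNegRoot (π r))
    (hπ' : ∀ r : Fin D.nroots, D.IsPosRoot r → D.IsNegRoot (π.symm r))
    {H : Subgroup (GL D.Idx F)} (hMH : fixS σ G ≤ H) (hHG : H ≤ G) (hne : ¬ H ≤ fixS σ G) :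
    ∃ x ∈ H, x ∉ fixS σ G ∧ ∃ g ∈ G, ∃ k : F, σ k = k ∧ x = g * xG h.cert top k * g⁻¹ := by
  classical
  set N := Subgroup.closure (longGens h.cert σ G top) with hN
  by_contra hcon
  simp only [not_exists, not_and] at hcon
  have hall : ∀ g ∈ H, ∀ z ∈ longGens h.cert σ G top, g * z * g⁻¹ ∈ fixS σ G := by
    intro g hg z hz
    by_contra hnot
    obtain ⟨hzM, a, ha, k, hk, rfl⟩ := hz
    exact hcon _ (mul_mem (mul_mem hg (hMH hzM)) (inv_mem hg)) hnot (g * a) (mul_mem (hHG hg) ha) k hk (by group)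
  refine hne fun g hgH => ?_
  have hp0 : IsPGroup p (D.posUnipotent F) := CfsgLib.InvCentralizers.ChevalleySteinberg.isPGroup_U h
  obtain ⟨e, he⟩ := hp0 ⟨u₀, hu₀.1⟩
  have he' : u₀ ^ p ^ e = 1 := congrArg Subtype.val he
  have hu₀M : u₀ ∈ fixS σ G := longGens_closure_le hu₀N
  have hGD : G ≤ D.group F := S.data.twist.le
  have hconjpow : ∀ {a x : GL D.Idx F}, x ^ p ^ e = 1 → (a * x * a⁻¹) ^ p ^ e = 1 := fun hx => by
    rw [conj_pow, hx, mul_one, mul_inv_cancel]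
  -- into the Borel subgroup
  have h1 : g * u₀ * g⁻¹ ∈ fixS σ G := longGens_closure_le (conj_mem_closure (hHG hgH) (hall g hgH) hu₀N)
  obtain ⟨m₁, hm₁, hm₁U⟩ := exists_conj_posU h hcoef C hGD hu₀M hu₀ h1 (hconjpow he')
  have hg'H : m₁ * g ∈ H := mul_mem (hMH hm₁) hgH
  have hg'B : m₁ * g ∈ D.borelSubgroup F :=
    mem_borel_of_conj_regular h hcoef (hGD (hHG hg'H)) hu₀ (by convert hm₁U using 1; group)
  -- into the opposite one
  have hu₁N : n * u₀ * n⁻¹ ∈ N := conj_mem_closure hn.1 (fun z hz => mul_mem (mul_mem hn hz.1) (inv_mem hn)) hu₀N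
  have h2 : (m₁ * g) * (n * u₀ * n⁻¹) * (m₁ * g)⁻¹ ∈ fixS σ G :=
    longGens_closure_le (conj_mem_closure (hHG hg'H) (hall _ hg'H) hu₁N)
  obtain ⟨m₂, hm₂, hm₂U⟩ := exists_conj_posU h hcoef C hGD hu₀M hu₀ h2 (hconjpow (hconjpow he'))
  have hbB : m₂ * (m₁ * g) * n ∈ D.borelSubgroup F :=
    mem_borel_of_conj_regular h hcoef (hGD (mul_mem (mul_mem hm₂.1 (hHG hg'H)) hn.1)) hu₀
      (by convert hm₂U using 1; group)
  set b := m₂ * (m₁ * g) * n with hb
  obtain ⟨ρ', φ, hFP, -⟩ := C.data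
  obtain ⟨u, t, huG, huU, htG, htD, eut⟩ := hFP.borel_decomp (hHG hg'H) hg'B
  -- the unipotent part is fixed
  have hpt : push D σ t ∈ D.diagonalSubgroup F := by
    obtain ⟨c, rfl⟩ : ∃ c, torusHom D F c = t := by rwa [diagonalSubgroup_eq_range h] at htD
    rw [CfsgLib.ReflectionsSpinor.ChevField.push_torus]
    exact torus_mem_diagonal h _
  have hσb : push D σ b ∈ D.borelSubgroup F := by
    obtain ⟨v, hv, s, hs, e⟩ := (mem_borel_iff h).1 hbB
    obtain ⟨c, rfl⟩ : ∃ c, torusHom D F c = s := by rwa [diagonalSubgroup_eq_range h] at hs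
    rw [e, map_mul, CfsgLib.ReflectionsSpinor.ChevField.push_torus]
    exact (mem_borel_iff h).2 ⟨_, push_rootsU h.cert σ hv, _, torus_mem_diagonal h _, rfl⟩
  have hσeq : push D σ b = m₂ * (push D σ u * push D σ t) * n := by
    rw [hb, eut, map_mul, map_mul, map_mul, hm₂.2, hn.2]
    rfl
  have hnT : ∀ {s : GL D.Idx F}, s ∈ D.diagonalSubgroup F → n⁻¹ * s * n ∈ D.diagonalSubgroup F := fun hs => by
    have := monomial_conj_diagonal h (inv_mem hnm) hs
    rwa [inv_inv] at this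
  have hkey : n⁻¹ * (u⁻¹ * push D σ u) * n ∈ D.borelSubgroup F := by
    have e : n⁻¹ * (u⁻¹ * push D σ u) * n = (n⁻¹ * t * n) * (b⁻¹ * push D σ b) * (n⁻¹ * push D σ t * n)⁻¹ := by
      rw [hσeq, hb, eut]; group
    rw [e]
    exact mul_mem (mul_mem (Subgroup.mem_sup_right (hnT htD)) (mul_mem (inv_mem hbB) hσb))
      (inv_mem (Subgroup.mem_sup_right (hnT hpt)))
  have hneg : n⁻¹ * (u⁻¹ * push D σ u) * n ∈ D.negUnipotent F :=
    CfsgLib.TwistedGen.rootsU_conj_back hA (S := {r | D.IsNegRoot r}) (T := {r | D.IsPosRoot r})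
      (fun r hr => hr.1) (fun r hr => hπ' r hr) (mul_mem (inv_mem huU) (push_rootsU h.cert σ huU))
  have hu1 : u⁻¹ * push D σ u = 1 := by
    have h3 : n⁻¹ * (u⁻¹ * push D σ u) * n ∈ D.borelSubgroup F ⊓ D.negUnipotent F := ⟨hkey, hneg⟩
    rw [borel_inf_negUnipotent h, Subgroup.mem_bot] at h3
    rw [show u⁻¹ * push D σ u = n * (n⁻¹ * (u⁻¹ * push D σ u) * n) * n⁻¹ by group, h3]
    group
  have huM : u ∈ fixS σ G := ⟨huG, (inv_mul_eq_one.1 hu1).symm⟩
  have htH : t ∈ H := by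
    have := mul_mem (inv_mem (hMH huM)) hg'H
    rwa [eut, inv_mul_cancel_left] at this
  have h4 : t * u₀ * t⁻¹ ∈ fixS σ G := longGens_closure_le (conj_mem_closure htG (hall t htH) hu₀N)
  have htM : t ∈ fixS σ G := ⟨htG, torus_fixed h hcoef htD hu₀ hu₀M.2 h4.2⟩
  rw [show g = m₁⁻¹ * (m₁ * g) by group, eut]
  exact mul_mem (inv_mem hm₁) (mul_mem huM htM)

/-- The orbit list of the radical, its fixed part last. -/
theorem Sub.peel (S : Sub h ρ η q σ G) : ∀ {Os Ol : List Orb}, orbsB D ρ η (Os ++ Ol) = true →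
    (∀ o ∈ Ol, o.2.length = 1) → ∀ {g : GL D.Idx F}, g ∈ G → g ∈ rootsU D F {r | r ∈ orbRoots (Os ++ Ol)} →
    ∃ m ∈ fixS σ G, ∃ b ∈ G, b ∈ rootsU D F {r | r ∈ orbRoots Os} ∧ g = m * b
  | [], Ol, hO, hl, g, hg, hgU => ⟨g, S.fixed_of_long hO hl hg hgU, 1, one_mem _, one_mem _, (mul_one g).symm⟩
  | o :: Os, Ol, hO, hl, g, hg, hgU => by
    obtain ⟨a, v, rfl, hvG, hv, hPG, -, -, -⟩ := S.layer (O := Os ++ Ol) hO hg hgU
    obtain ⟨m, hm, b, hb, hbU, rfl⟩ := S.peel (Os := Os) (orbsB_tail (O := Os ++ Ol) hO) hl hvG hv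
    refine ⟨m, hm, b * prodU h.cert o.2 a, mul_mem hb hPG, mul_mem (rootsU_mono (fun r hr => ?_) hbU)
      (rootsU_mono (fun r hr => ?_) (prodU_mem _ a)), by group⟩
    · exact mem_orbRoots_cons.2 (Or.inr hr)
    · exact mem_orbRoots_cons.2 (Or.inl hr)

/-- An element of the radical centralising the opposite root element is trivial. -/
theorem eq_one_of_commute (h : Full D A) {top : ℕ} (htop : D.IsPosRoot top) {Q : List ℕ}
    (l : List (Fin D.rank)) (i : Fin D.rank)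
    (hl : ((wPerm h.cert l (smp h.cert i) : Fin D.nroots) : ℕ) = top)
    (hinv : ∀ r : Fin D.nroots, (r : ℕ) ∈ Q → D.IsPosRoot r ∧
      D.IsNegRoot ((wPerm h.cert l * rfPerm h.cert i * wPerm h.cert l.reverse) r))
    (htopQ : top ∈ Q) (hcomm : (Q.all fun s => noTermsB D top s) = true)
    {d : GL D.Idx F} (hd : d ∈ rootsU D F {r | r ∈ Q}) {k : F} (hk : k ≠ 0)
    (he : d * xG h.cert (D.neg top) k * d⁻¹ = xG h.cert (D.neg top) k) : d = 1 := by
  have hcd : ∀ t : F, Commute (xG h.cert top t) d := fun t => commute_rootsU h.toStd hcomm t hd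
  set c := -k⁻¹ with hc
  have hc0 : c ≠ 0 := neg_ne_zero.2 (inv_ne_zero hk)
  obtain ⟨θ, hA⟩ := exists_acts_nG (F := F) h l i hc0
  rw [hl] at hA
  set n := nG h.cert top c with hn
  set x := xG h.cert top (-c)
  have hy : xG h.cert (D.neg top) k = x * n * x := by
    have e : -c⁻¹ = k := by rw [hc, inv_neg, inv_inv, neg_neg]
    simp only [x, hn, nG, e, ← xG_inv]
    group
  have hQpos : ∀ r ∈ Q, D.IsPosRoot r := fun r hr => by
    have hlt : r < D.nroots := by
      simp only [List.all_eq_true, noTermsB, Bool.and_eq_true, decide_eq_true_eq] at hcomm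
      exact (hcomm r hr).1.2
    exact (hinv ⟨r, hlt⟩ hr).1
  have hinvS : ∀ {v : GL D.Idx F}, v ∈ rootsU D F {r | r ∈ Q} →
      v ∈ rootsU D F (invSet D (wPerm h.cert l * rfPerm h.cert i * wPerm h.cert l.reverse)) := fun hv =>
    rootsU_mono (S := {r | r ∈ Q})
      (T := invSet D (wPerm h.cert l * rfPerm h.cert i * wPerm h.cert l.reverse)) (fun r (hr : r ∈ Q) => ⟨hQpos r hr, (⟨r, (hQpos r hr).1⟩ : Fin D.nroots), rfl, (hinv ⟨r, (hQpos r hr).1⟩ hr).2⟩) hv
  have hxQ : x ∈ rootsU D F {r | r ∈ Q} := xG_mem_rootsU h.cert htopQ _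
  have hnN : n ∈ D.monomialSubgroup F := by
    rw [hn, nG_eq_hG_mul]
    refine mul_mem (Subgroup.mem_sup_left (Subgroup.subset_closure ⟨top, c, htop.1, hc0, coe_hG _ _ _⟩)) ?_
    exact Subgroup.mem_sup_right (Subgroup.subset_closure ⟨top, htop.1, coe_nG _ _ _⟩)
  have e : (x * d) * n * (d⁻¹ * x) = x * n * x := by
    rw [← hy, ← he, hy]
    have h1 : d * x = x * d := (hcd _).eq.symm
    have h2 : d⁻¹ * x = x * d⁻¹ := ((hcd _).inv_right.eq).symm
    calc x * d * n * (d⁻¹ * x) = (d * x) * n * (x * d⁻¹) := by rw [h1, h2]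
      _ = d * (x * n * x) * d⁻¹ := by group
  have hU : ∀ {v : GL D.Idx F}, v ∈ rootsU D F {r | r ∈ Q} → v ∈ D.posUnipotent F := fun hv =>
    rootsU_mono (T := {r | D.IsPosRoot r}) hQpos hv
  obtain ⟨e1, -, -⟩ := canonical_unique h (hU (mul_mem hxQ hd)) (hU hxQ) hnN hnN hA hA
    (hinvS (mul_mem (inv_mem hd) hxQ)) (hinvS hxQ) e
  exact mul_eq_left.1 e1

/-- how the long roots are moved to the lowest one -/
def reduceB (D : ChevalleyDatum) (ρ : ℕ → ℕ) (μ : ℕ → ℕ → ℕ) (top : ℕ) (Q : List ℕ) (B : List (List ℕ))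
    (tab : List (ℕ × List (List ℕ))) : Bool :=
  (List.range D.nroots).all fun r => !Nat.beq (ρ r) r || tab.any fun e =>
    Nat.beq e.1 r && (e.2.all fun J => decide (J ∈ B)) && Nat.beq (moveRoot μ e.2.flatten r) (D.neg top) &&
      (List.range D.nroots).all fun g => !decide (D.IsPosRoot g) || noTermsB D r g ||
        decide (moveRoot μ e.2.flatten g ∈ Q)

/-- the descent from the lowest root: `e = (a, a', sign, positive system)` -/
def descB (D : ChevalleyDatum) (μ : ℕ → ℕ → ℕ) (top : ℕ) (Qs : List ℕ) (B : List (List ℕ))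
    (e : ℕ × ℕ × ℤ × List ℕ × List (List ℕ)) : Bool :=
  decide (D.IsPosRoot e.1) && decide (e.1 ≠ D.neg top) && decide (D.neg top ≠ D.neg e.1) && decide (e.1 < D.nroots) &&
    decide (D.commTerms (D.neg top) e.1 = [(e.2.1, e.2.2.1, 1, 1)]) && decide (e.2.2.1 = 1 ∨ e.2.2.1 = -1) &&
    (Qs.all fun s => noTermsB D e.1 s) && decide (e.2.1 ∈ e.2.2.2.1) &&
    (e.2.2.2.2.all fun J => decide (J ∈ B)) &&
    (e.2.2.2.1.all fun s => decide (s < D.nroots) && decide (D.IsPosRoot (moveRoot μ e.2.2.2.2.flatten s)) &&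
      Qs.all fun g => decide (g < D.nroots) && (Nat.beq s g || (decide (s ≠ D.neg g) &&
        (D.commTerms g s).all fun c => decide (c.1 ∈ e.2.2.2.1))))

variable {cart coro : ℕ → ℕ → ℤ} {μ : ℕ → ℕ → ℕ} {ε : ℕ → ℕ → ℤ} {par : ℕ → ℕ × ℕ} {dep : ℕ → ℕ}

/-- A moved long root element gives a unipotent element outside the ground field subgroup. -/
theorem Sub.exists_unipotent (S : Sub h ρ η q σ G) (hq : 0 < q) (C : RootCert D cart coro μ ε par dep) {top : ℕ}
    (htop : D.IsPosRoot top) (hρtop : ρ top = top)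
    (hηfix : ∀ r < D.nroots, ρ r = r → η r = 1)
    (hcentral : ((List.range D.nroots).all fun g => !decide (D.IsPosRoot g) || noTermsB D top g) = true)
    {B : List (List ℕ)} (hBrank : ∀ J ∈ B, ∀ i ∈ J, i < D.rank)
    (hBM : ∀ J ∈ B, (moveG h.cert J : GL D.Idx F) ∈ fixS σ G)
    {Os Ol : List Orb} (hO : orbsB D ρ η (Os ++ Ol) = true) (hOl : ∀ o ∈ Ol, o.2.length = 1)
    (htopQ : top ∈ orbRoots (Os ++ Ol))
    (hQtop : ((orbRoots (Os ++ Ol)).all fun s => noTermsB D top s) = true)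
    (l : List (Fin D.rank)) (i : Fin D.rank)
    (hl : ((wPerm h.cert l (smp h.cert i) : Fin D.nroots) : ℕ) = top)
    (hinv : ∀ r : Fin D.nroots, (r : ℕ) ∈ orbRoots (Os ++ Ol) → D.IsPosRoot r ∧
      D.IsNegRoot ((wPerm h.cert l * rfPerm h.cert i * wPerm h.cert l.reverse) r))
    {tab : List (ℕ × List (List ℕ))} (htab : reduceB D ρ μ top (orbRoots (Os ++ Ol)) B tab = true)
    {e₁ e₂ : ℕ × ℕ × ℤ × List ℕ × List (List ℕ)}
    (he₁ : descB D μ top (orbRoots Os) B e₁ = true) (he₂ : descB D μ top (orbRoots Os) B e₂ = true)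
    (hρ₁ : ρ e₁.1 = e₁.1) (hρ₂ : ρ e₂.1 = e₂.1) {N : ℤ} (hN : N = 1 ∨ N = -1)
    (hpair : D.commTerms e₁.2.1 e₂.2.1 = [(D.neg top, N, 1, 1)])
    (hpair' : e₂.2.1 ≠ e₁.2.1 ∧ e₂.2.1 ≠ D.neg e₁.2.1 ∧ noTermsB D e₂.2.1 (D.neg top) = true ∧
      e₁.2.1 < D.nroots ∧ e₂.2.1 < D.nroots)
    {H : Subgroup (GL D.Idx F)} (hMH : fixS σ G ≤ H) (hHG : H ≤ G) {g : GL D.Idx F} (hg : g ∈ G) {k : F}
    (hk : σ k = k) (hxH : g * xG h.cert top k * g⁻¹ ∈ H) (hxM : g * xG h.cert top k * g⁻¹ ∉ fixS σ G) :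
    ∃ w ∈ H, w ∈ D.posUnipotent F ∧ w ∉ fixS σ G := by
  classical
  have hk0 : k ≠ 0 := fun h0 => hxM (by rw [h0, xG_zero, mul_one, mul_inv_cancel]; exact one_mem _)
  have hrootG : ∀ r, D.IsPosRoot r → ρ r = r → ∀ c : F, σ c = c → xG h.cert r c ∈ fixS σ G := by
    intro r hr hρr c hc
    have := S.orbit_mem (L := [r]) (a := fun _ => c) (by simpa using hr) (by simpa using hρr) (by simp)
      (by simp [noTermsB, hr.1]) (by
        simp only [List.mem_singleton, forall_eq, hρr, graphTwist, hηfix r hr.1 hρr, Int.cast_one, one_mul]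
        exact hc.symm.trans (S.pow c))
    simp only [prodU, List.map_cons, List.map_nil, List.prod_cons, List.prod_nil, mul_one] at this
    refine ⟨this, ?_⟩
    show push D σ (xG h.cert r c) = xG h.cert r c
    rw [push_xG, hc]
  -- the canonical form
  obtain ⟨u, hu, n, hn, π, θ, hA, hcommπ, v, hv, rfl⟩ := S.data.exists_canonical_fixed hg
  have hvx : Commute (xG h.cert top k) v := by
    refine commute_rootsU h.toStd (S := D.posRoots) (List.all_eq_true.2 fun s hs => ?_) k ?_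
    · have hp : D.IsPosRoot s := (Set.ext_iff.1 h.toStd.posList.2.1 s).1 hs
      have := List.all_eq_true.1 hcentral s (List.mem_range.2 hp.1)
      simpa [hp] using this
    · rw [← posU_eq_list h.toStd]
      exact rootsU_mono (T := {r | D.IsPosRoot r}) (fun r hr => hr.1) hv.2
  set r := π ⟨top, htop.1⟩ with hr
  set k₁ := θ ⟨top, htop.1⟩ * k with hk₁
  have hnx : n * xG h.cert top k * n⁻¹ = xG h.cert r k₁ := hA.conj ⟨top, htop.1⟩ k
  have hx' : u * n * v * xG h.cert top k * (u * n * v)⁻¹ = u * xG h.cert r k₁ * u⁻¹ := by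
    rw [← hnx, show u * n * v * xG h.cert top k * (u * n * v)⁻¹ = u * n * (v * xG h.cert top k * v⁻¹) * (u * n)⁻¹ by
      group, ← hvx.eq, mul_inv_cancel_right]
    group
  rw [hx'] at hxH hxM
  have hρr : ρ r = (r : ℕ) := by
    have := congrArg (fun s : Fin D.nroots => (s : ℕ)) (Equiv.ext_iff.1 hcommπ ⟨top, htop.1⟩)
    simp only [Equiv.Perm.mul_apply, TwistedOrder.TwistData.perm_apply] at this
    rw [show S.data.perm ⟨top, htop.1⟩ = (⟨top, htop.1⟩ : Fin D.nroots) from Fin.ext hρtop] at this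
    exact this.symm
  obtain ⟨⟨r', J⟩, -, hJ⟩ := List.any_eq_true.1 (by
    have := List.all_eq_true.1 htab (r : ℕ) (List.mem_range.2 r.isLt)
    rw [hρr] at this
    simp only [Nat.beq_refl, Bool.not_true, Bool.false_or] at this
    exact this)
  simp only [Bool.and_eq_true, List.all_eq_true, decide_eq_true_eq, Bool.or_eq_true, Bool.not_eq_true',
    decide_eq_false_iff_not, List.mem_range] at hJ
  obtain ⟨⟨⟨hr', hJB⟩, hJr⟩, hJpos⟩ := hJ
  have hr'' := Nat.eq_of_beq_eq_true hr'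
  have hJr' := Nat.eq_of_beq_eq_true hJr
  subst hr''
  have hmM : (moveG h.cert J.flatten : GL D.Idx F) ∈ fixS σ G := moveG_flatten_mem h.cert hBM J hJB
  have hJrank : ∀ i ∈ J.flatten, i < D.rank := fun i hi => by
    obtain ⟨K, hK, hiK⟩ := List.mem_flatten.1 hi
    exact hBrank K (hJB K hK) i hiK
  obtain ⟨a, ha, b, hb, rfl⟩ := split_pos h.toStd (P := {g | noTermsB D r g = false})
    (Q := {g | noTermsB D r g = true}) (fun g _ => (Bool.eq_false_or_eq_true _).symm) hu.2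
  have hbc : Commute (xG h.cert r k₁) b := by
    clear hxH hxM hx' hu hg
    induction hb using rootsU_induction h.cert with
    | h1 => exact Commute.one_right _
    | hx s hs t => exact commute_of_noTerms h.toStd hs.2 k₁ t
    | hmul x y _ _ ihx ihy => exact ihx.mul_right ihy
  set m := (moveG h.cert J.flatten : GL D.Idx F)
  set a' := m * a * m⁻¹ with ha'
  have ha'Q : a' ∈ rootsU D F {g | g ∈ orbRoots (Os ++ Ol)} :=
    moveG_conj_rootsU h.cert C hJrank (fun s hs => ⟨hs.1.1, (hJpos s hs.1.1).elim (fun h1 => h1.elim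
      (fun h2 => absurd hs.1 h2) (fun h2 => absurd h2 (by rw [hs.2]; simp))) id⟩) a ha
  set k₂ := (moveSign μ ε J.flatten r : F) * k₁ with hk₂
  have hmx : m * xG h.cert r k₁ * m⁻¹ = xG h.cert (D.neg top) k₂ := by
    rw [moveG_conj_xG h.cert C hJrank r.isLt, hJr']
  set x₂ := a' * xG h.cert (D.neg top) k₂ * a'⁻¹ with hx₂
  have hx₂' : m * (a * b * xG h.cert r k₁ * (a * b)⁻¹) * m⁻¹ = x₂ := by
    rw [show a * b * xG h.cert r k₁ * (a * b)⁻¹ = a * (b * xG h.cert r k₁ * b⁻¹) * a⁻¹ by group,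
      ← hbc.eq, mul_inv_cancel_right, hx₂, ha', ← hmx]
    group
  have hx₂H : x₂ ∈ H := hx₂' ▸ mul_mem (mul_mem (hMH hmM) hxH) (inv_mem (hMH hmM))
  have hx₂M : x₂ ∉ fixS σ G := fun h1 => hxM (by
    have := mul_mem (mul_mem (inv_mem hmM) h1) hmM
    rw [← hx₂'] at this
    convert this using 1
    group)
  have hlowG : xG h.cert (D.neg top) k₂ ∈ G := by
    rw [← hmx, ← hnx]
    exact mul_mem (mul_mem hmM.1 (mul_mem (mul_mem hn.1 (hrootG top htop hρtop k hk).1) (inv_mem hn.1))) (inv_mem hmM.1)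
  have hk₂0 : k₂ ≠ 0 := fun h0 => hx₂M (by rw [hx₂, h0, xG_zero, mul_one, mul_inv_cancel]; exact one_mem _)
  have hk₂σ : σ k₂ = k₂ := by
    obtain ⟨s, hs, hsG⟩ := S.data.twist.exists_map
    have hlt := h.cert.wf.neg_lt top htop.1
    have e1 := hsG ⟨_, xG_mem_group h.cert (D.neg top) k₂⟩ hlowG
    rw [hs _ _ _ hlt rfl, S.data.neg top htop.1, hρtop] at e1
    have e2 := xG_injective h.cert hlt e1
    rw [graphTwist, hηfix _ hlt (by rw [S.data.neg top htop.1, hρtop]), Int.cast_one, one_mul] at e2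
    rw [S.pow, e2]
  have hQpos : ∀ g ∈ orbRoots (Os ++ Ol), D.IsPosRoot g := by
    intro g hg'
    have hlt : g < D.nroots := by
      simp only [List.all_eq_true, noTermsB, Bool.and_eq_true, decide_eq_true_eq] at hQtop
      exact (hQtop g hg').1.2
    exact (hinv ⟨g, hlt⟩ hg').1
  have hOchk : checkOrd D ρ (Os ++ Ol) = true := by
    simp only [orbsB, Bool.and_eq_true] at hO
    exact hO.1
  have ha'G : a' ∈ G := by
    refine S.mem_of_twist_fixed (rootsU_mono (T := {r | D.IsPosRoot r}) hQpos ha'Q) fun s hs hsG hmem => ?_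
    have h1 := S.data.map_rootsU s hs (fun g hg' => (hQpos g hg').1) ha'Q hmem
    have h2 : s ⟨a', hmem⟩ ∈ rootsU D F {g | g ∈ orbRoots (Os ++ Ol)} := rootsU_mono (by
      rintro g ⟨g', hg', rfl⟩
      exact map_rho_mem hOchk g' hg') h1
    have hy := hsG ⟨x₂, S.data.twist.le (hHG hx₂H)⟩ (hHG hx₂H)
    rw [show (⟨x₂, S.data.twist.le (hHG hx₂H)⟩ : ↥(D.group F)) =
      ⟨a', hmem⟩ * ⟨_, S.data.twist.le hlowG⟩ * ⟨a', hmem⟩⁻¹ from Subtype.ext rfl, map_mul, map_mul, map_inv,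
      hsG ⟨_, S.data.twist.le hlowG⟩ hlowG] at hy
    have hd := eq_one_of_commute h htop l i hl hinv htopQ hQtop (mul_mem (inv_mem ha'Q) h2) hk₂0 (by
      rw [Subgroup.coe_mul, Subgroup.coe_mul, Subgroup.coe_inv] at hy
      have := congrArg (fun z => a'⁻¹ * z * a') hy
      simp only [hx₂] at this
      convert this using 1 <;> group)
    exact (inv_mul_eq_one.1 hd).symm
  obtain ⟨m', hm', b', hb', hb'U, hab⟩ := S.peel hO hOl ha'G ha'Q
  set x₃ := b' * xG h.cert (D.neg top) k₂ * b'⁻¹ with hx₃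
  have hx₃H : x₃ ∈ H := by
    have := mul_mem (mul_mem (inv_mem (hMH hm')) hx₂H) (hMH hm')
    rw [hx₂, hab] at this
    convert this using 1
    rw [hx₃]; group
  have hx₃M : x₃ ∉ fixS σ G := fun h1 => hx₂M (by
    have := mul_mem (mul_mem hm' h1) (inv_mem hm')
    convert this using 1
    rw [hx₂, hab, hx₃]; group)
  -- the descent
  have step : ∀ e : ℕ × ℕ × ℤ × List ℕ × List (List ℕ), descB D μ top (orbRoots Os) B e = true → ρ e.1 = e.1 →
      ∀ c : F, σ c = c →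
      b' * xG h.cert e.2.1 ((e.2.2.1 : F) * k₂ * c) * b'⁻¹ ∈ H ∧
        (b' * xG h.cert e.2.1 ((e.2.2.1 : F) * k₂ * c) * b'⁻¹ ∈ fixS σ G ∨ ∃ w ∈ H, w ∈ D.posUnipotent F ∧ w ∉ fixS σ G) := by
    intro e he hρe c hc
    simp only [descB, Bool.and_eq_true, decide_eq_true_eq, List.all_eq_true, Bool.or_eq_true] at he
    obtain ⟨⟨⟨⟨⟨⟨⟨⟨⟨hep, hne1⟩, hne2⟩, helt⟩, heterm⟩, -⟩, heQ⟩, hmemS⟩, heB⟩, heS⟩ := he
    have hxa : xG h.cert e.1 c ∈ fixS σ G := hrootG e.1 hep hρe c hc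
    have hcb : Commute (xG h.cert e.1 c) b' := commute_rootsU h.toStd (List.all_eq_true.2 heQ) c hb'U
    have hneg' : e.1 ≠ D.neg (D.neg top) := by
      intro e1
      have e2 := heterm
      rw [show D.neg (D.neg top) = top from congrArg Fin.val (ngR_ngR h.cert ⟨top, htop.1⟩)] at e1
      exact absurd (congrArg (fun L => L.length) e2) (by
        rw [e1]
        have h1 := List.all_eq_true.1 hQtop top htopQ
        intro h3
        exact hne2 (by rw [e1]))
    have hcomm := conj_xG_eq h.toStd (h.cert.wf.neg_lt top htop.1) helt hne1 hneg' k₂ c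
    rw [heterm] at hcomm
    simp only [List.map_cons, List.map_nil, wordG, List.prod_cons, List.prod_nil, mul_one, pow_one] at hcomm
    have hw : b' * xG h.cert e.2.1 ((e.2.2.1 : F) * k₂ * c) * b'⁻¹ =
        (xG h.cert e.1 c)⁻¹ * x₃ * xG h.cert e.1 c * x₃⁻¹ := by
      have e1 : xG h.cert e.2.1 ((e.2.2.1 : F) * k₂ * c) = (xG h.cert e.1 c)⁻¹ *
          (xG h.cert (D.neg top) k₂ * xG h.cert e.1 c * (xG h.cert (D.neg top) k₂)⁻¹) := by
        rw [hcomm]; group
      have h2 : b' * (xG h.cert e.1 c)⁻¹ = (xG h.cert e.1 c)⁻¹ * b' := hcb.inv_left.eq.symm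
      have h3 : b'⁻¹ * xG h.cert e.1 c = xG h.cert e.1 c * b'⁻¹ := hcb.inv_right.eq.symm
      rw [e1, hx₃]
      calc b' * ((xG h.cert e.1 c)⁻¹ * (xG h.cert (D.neg top) k₂ * xG h.cert e.1 c * (xG h.cert (D.neg top) k₂)⁻¹)) *
            b'⁻¹ = (b' * (xG h.cert e.1 c)⁻¹) * xG h.cert (D.neg top) k₂ * (b'⁻¹ * b') * xG h.cert e.1 c *
              (xG h.cert (D.neg top) k₂)⁻¹ * b'⁻¹ := by group
        _ = _ := by
          rw [h2, mul_assoc _ (b'⁻¹ * b') (xG h.cert e.1 c), show b'⁻¹ * b' * xG h.cert e.1 c =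
            b'⁻¹ * xG h.cert e.1 c * b' from by rw [inv_mul_cancel, one_mul, h3, inv_mul_cancel_right]]
          group
    have hwH : b' * xG h.cert e.2.1 ((e.2.2.1 : F) * k₂ * c) * b'⁻¹ ∈ H := hw ▸
      mul_mem (mul_mem (mul_mem (inv_mem (hMH hxa)) hx₃H) (hMH hxa)) (inv_mem hx₃H)
    refine ⟨hwH, or_iff_not_imp_left.2 fun hnot => ?_⟩
    have hJ' : (moveG h.cert e.2.2.2.2.flatten : GL D.Idx F) ∈ fixS σ G := moveG_flatten_mem h.cert hBM _ heB
    have hJ'rank : ∀ i ∈ e.2.2.2.2.flatten, i < D.rank := fun i hi => by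
      obtain ⟨K, hK, hiK⟩ := List.mem_flatten.1 hi
      exact hBrank K (heB K hK) i hiK
    refine ⟨_, mul_mem (mul_mem (hMH hJ') hwH) (inv_mem (hMH hJ')), ?_, fun h1 => hnot ?_⟩
    · refine moveG_conj_rootsU h.cert C hJ'rank (S := {s | s ∈ e.2.2.2.1}) (T := {r | D.IsPosRoot r})
        (fun s hs => ⟨(heS s hs).1.1, (heS s hs).1.2⟩) _ ?_
      have key : ∀ z ∈ rootsU D F {r | r ∈ orbRoots Os}, ∀ w ∈ rootsU D F {s | s ∈ e.2.2.2.1},
          z * w * z⁻¹ ∈ rootsU D F {s | s ∈ e.2.2.2.1} := by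
        intro z hz
        induction hz using rootsU_induction h.cert with
        | h1 => intro w hw; rwa [one_mul, inv_one, mul_one]
        | hx s hs t =>
          refine rootsU_conj_le h.cert fun y hy u => ?_
          obtain ⟨⟨hylt, -⟩, hcase⟩ := heS y hy
          obtain ⟨hslt, hc2⟩ := hcase s hs
          by_cases hys : y = s
          · rw [hys, xG_mul, xG_inv, xG_mul]
            exact xG_mem_rootsU h.cert (hys ▸ hy) _
          · obtain ⟨hn1, hterms⟩ := hc2.resolve_left fun e' => hys (Nat.eq_of_beq_eq_true e')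
            obtain ⟨W, hW, e'⟩ := conj_xG h.toStd hslt hylt hys hn1 (T := {s | s ∈ e.2.2.2.1}) hterms t u
            rw [e']
            exact mul_mem (xG_mem_rootsU h.cert hy u) hW
        | hmul x y _ _ ihx ihy =>
          intro w hw
          rw [show x * y * w * (x * y)⁻¹ = x * (y * w * y⁻¹) * x⁻¹ by group]
          exact ihx _ (ihy w hw)
      exact key b' hb'U _ (xG_mem_rootsU h.cert hmemS _)
    · have := mul_mem (mul_mem (inv_mem hJ') h1) hJ'
      convert this using 1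
      group
  obtain ⟨-, h1⟩ := step e₁ he₁ hρ₁ k₂⁻¹ (by rw [map_inv₀, hk₂σ])
  obtain ⟨-, h2⟩ := step e₂ he₂ hρ₂ 1 (map_one σ)
  rcases h1 with h1 | h1
  swap; · exact h1
  rcases h2 with h2 | h2
  swap; · exact h2
  exfalso
  simp only [mul_one, mul_assoc, mul_inv_cancel₀ hk₂0] at h1 h2
  obtain ⟨hp1, hp2, hp3, hp4, hp5⟩ := hpair'
  have hcomm := conj_xG_eq h.toStd hp4 hp5 hp1 hp2 ((e₁.2.2.1 : F)) ((e₂.2.2.1 : F) * k₂)
  rw [hpair] at hcomm
  simp only [List.map_cons, List.map_nil, wordG, List.prod_cons, List.prod_nil, mul_one, pow_one] at hcomm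
  set X₁ := xG h.cert e₁.2.1 ((e₁.2.2.1 : F))
  set X₂ := xG h.cert e₂.2.1 ((e₂.2.2.1 : F) * k₂)
  have hsgn : ∀ e : ℕ × ℕ × ℤ × List ℕ × List (List ℕ), descB D μ top (orbRoots Os) B e = true →
      e.2.2.1 = 1 ∨ e.2.2.1 = -1 := fun e he => by
    simp only [descB, Bool.and_eq_true, decide_eq_true_eq] at he
    exact he.1.1.1.1.2
  set c := (N : F) * (e₁.2.2.1 : F) * ((e₂.2.2.1 : F) * k₂) with hcdef
  have hW : xG h.cert (D.neg top) c = X₁ * X₂ * X₁⁻¹ * X₂⁻¹ := by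
    rw [hcomm, (commute_of_noTerms h.toStd hp3 _ _).eq, mul_inv_cancel_right]
  have hc : c = k₂ ∨ c = -k₂ := by
    rcases hN with hN' | hN' <;> rcases hsgn e₁ he₁ with h11 | h11 <;> rcases hsgn e₂ he₂ with h22 | h22 <;>
      simp [hcdef, hN', h11, h22]
  have hmem : b' * xG h.cert (D.neg top) c * b'⁻¹ ∈ fixS σ G := by
    rw [hW]
    have := mul_mem (mul_mem (mul_mem h1 h2) (inv_mem h1)) (inv_mem h2)
    convert this using 1
    group
  rcases hc with hc | hc <;> rw [hc] at hmem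
  · exact hx₃M hmem
  · refine hx₃M ?_
    have := inv_mem hmem
    rwa [show (b' * xG h.cert (D.neg top) (-k₂) * b'⁻¹)⁻¹ = b' * xG h.cert (D.neg top) k₂ * b'⁻¹ by
      rw [← xG_inv]; group] at this

end CfsgLib.SubfieldTwisted
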