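import Cfsg.Agent.Lib.SubfieldTwisted.Moves
import Cfsg.Agent.Lib.Twisted.TorusFixed

/-!
Regular unipotent elements, and the Sylow subgroup of the ground field subgroup.
-/

set_option autoImplicit false

namespace CfsgLib.SubfieldTwisted

open Cfsg.Lie
open CfsgLib.Chevalley hiding xG_mem_group rootsU_le_group
open CfsgLib.Twisted (Orb orbRoots rootsU_le_group torusHom_ext)
open CfsgLib.TwistedAut (Ctx posT borT mem_borT)
open CfsgLib.ReflectionsSpinor.ChevField (push push_xG push_torus)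

variable {D : ChevalleyDatum} {A : Aux} {F : Type*} [Field F]

/-- all coordinates at the simple roots are non-zero -/
def RegEl (hS : Std D A) (u₀ : GL D.Idx F) : Prop :=
  u₀ ∈ D.posUnipotent F ∧ ∀ i : Fin D.rank, ∃ c, c ≠ 0 ∧ Coef hS D.posRoots (D.simple i) u₀ c

theorem posU_eq_list (hS : Std D A) : D.posUnipotent F = rootsU D F {r | r ∈ D.posRoots} := by
  rw [hS.posList.2.1, posUnipotent_eq]

variable (h : Full D A) (hcoef : ∀ i : Fin D.rank, coefB D D.posRoots (D.simple i) = true)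
include h hcoef

/-- Conjugation in `U` keeps the simple coordinates. -/
theorem coef_conj_posU {g v : GL D.Idx F} {i : Fin D.rank} {c : F} (hv : v ∈ D.posUnipotent F)
    (hg : Coef h.toStd D.posRoots (D.simple i) g c) :
    Coef h.toStd D.posRoots (D.simple i) (v * g * v⁻¹) c := by
  rw [posU_eq_list h.toStd] at hv
  obtain ⟨cv, hcv⟩ := exists_coef (hS := h.toStd) (hcoef i) hv
  obtain ⟨cv', hcv'⟩ := exists_coef (hS := h.toStd) (hcoef i) (inv_mem hv)
  have h1 := hcv.mul (hcoef i) hcv'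
  rw [mul_inv_cancel] at h1
  have h2 := (hcv.mul (hcoef i) hg).mul (hcoef i) hcv'
  rwa [show cv + c + cv' = c + (cv + cv') by ring, h1.unique (hcoef i) (coef_one (hcoef i)), add_zero] at h2

/-- A regular element lies in one maximal unipotent subgroup only. -/
theorem mem_borel_of_conj_regular {g u₀ : GL D.Idx F} (hg : g ∈ D.group F) (hu₀ : RegEl h.toStd u₀)
    (hconj : g * u₀ * g⁻¹ ∈ D.posUnipotent F) : g ∈ D.borelSubgroup F := by
  obtain ⟨u, hu, n, hn, π, θ, hA, v, hv, rfl⟩ := exists_canonical h hg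
  have hvU : v ∈ D.posUnipotent F := rootsU_mono (fun r hr => hr.1) hv
  set v' := v * u₀ * v⁻¹ with hv'
  have hv'U : v' ∈ D.posUnipotent F := mul_mem (mul_mem hvU hu₀.1) (inv_mem hvU)
  have hnv : n * v' * n⁻¹ ∈ D.posUnipotent F := by
    rw [show n * v' * n⁻¹ = u⁻¹ * (u * n * v * u₀ * (u * n * v)⁻¹) * u by rw [hv']; group]
    exact mul_mem (mul_mem (inv_mem hu) hconj) hu
  have hall : ∀ i : Fin D.rank, D.IsPosRoot (π (smp h.cert i)) := by
    intro i
    by_contra hneg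
    obtain ⟨a, ha, b, hb, hab⟩ := split_pos h.toStd (P := {r | ∀ s : Fin D.nroots, (s : ℕ) = r → ¬ D.IsPosRoot (π s)})
      (Q := {r | ∃ s : Fin D.nroots, (s : ℕ) = r ∧ D.IsPosRoot (π s)}) (fun r hr => by
        by_cases hp : D.IsPosRoot (π ⟨r, hr.1⟩)
        · exact Or.inr ⟨_, rfl, hp⟩
        · exact Or.inl fun s hs => by rwa [show s = ⟨r, hr.1⟩ from Fin.ext hs]) hv'U
    have hbn : n * b * n⁻¹ ∈ D.posUnipotent F := hA.conj_rootsU (T := {r | D.IsPosRoot r}) (fun s hs => by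
      obtain ⟨-, s', e, hp⟩ := hs
      rwa [Fin.ext e] at hp) _ hb
    have han : n * a * n⁻¹ ∈ D.negUnipotent F := hA.conj_rootsU (T := {r | D.IsNegRoot r}) (fun s hs =>
      (h.pos.pos_or_neg (π s).isLt).resolve_left (hs.2 s rfl)) _ ha
    have han' : n * a * n⁻¹ ∈ D.borelSubgroup F := Subgroup.mem_sup_left (by
      rw [show n * a * n⁻¹ = n * v' * n⁻¹ * (n * b * n⁻¹)⁻¹ by rw [hab]; group]
      exact mul_mem hnv (inv_mem hbn))
    have ha1 : n * a * n⁻¹ = 1 := by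
      have h1 : n * a * n⁻¹ ∈ D.borelSubgroup F ⊓ D.negUnipotent F := ⟨han', han⟩
      rwa [borel_inf_negUnipotent h, Subgroup.mem_bot] at h1
    rw [conj_eq_one_iff] at ha1
    rw [ha1, one_mul] at hab
    obtain ⟨c, hc, hcoefc⟩ := hu₀.2 i
    refine hc ((coef_conj_posU h hcoef hvU hcoefc).unique (hcoef i) ?_)
    rw [← hv', hab]
    unfold Coef
    rw [xG_zero, inv_one, mul_one]
    refine rootsU_mono (fun r hr => ?_) hb
    obtain ⟨hrp, s, rfl, hp⟩ := hr
    refine ⟨(Set.ext_iff.1 h.toStd.posList.2.1 _).2 hrp, fun e => hneg ?_⟩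
    rwa [show s = smp h.cert i from Fin.ext e] at hp
  have hnT := mem_diagonal_of_perm h hn hA hall
  exact mul_mem (mul_mem (Subgroup.mem_sup_left hu) (Subgroup.mem_sup_right hnT)) (Subgroup.mem_sup_left hvU)

/-- A torus element carrying a regular ground field element into ground field elements is itself one. -/
theorem torus_fixed {σ : F →+* F} {u₀ t : GL D.Idx F} (ht : t ∈ D.diagonalSubgroup F) (hu₀ : RegEl h.toStd u₀)
    (h0 : push D σ u₀ = u₀) (h1 : push D σ (t * u₀ * t⁻¹) = t * u₀ * t⁻¹) : push D σ t = t := by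
  obtain ⟨c, rfl⟩ : ∃ c, torusHom D F c = t := by rwa [diagonalSubgroup_eq_range h] at ht
  rw [push_torus]
  refine torusHom_ext h fun i => ?_
  obtain ⟨a, ha, hca⟩ := hu₀.2 i
  have hlt := h.cert.wf.simple_lt i i.isLt
  have hN := diagonal_conj_rootsU h _ _ (torus_mem_diagonal h c) _ hca
  have hx := (acts_torus h.cert c).conj ⟨D.simple i, hlt⟩ a
  have hct : Coef h.toStd D.posRoots (D.simple i) (torusHom D F c * u₀ * (torusHom D F c)⁻¹)
      (((chi D (D.simple i) c : Fˣ) : F) * a) := by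
    unfold Coef
    simp only [Equiv.Perm.one_apply] at hx
    rw [← hx]
    convert hN using 1
    group
  have e1 := hca.fixed (hcoef i) σ h0
  have e2 := hct.fixed (hcoef i) σ h1
  rw [map_mul, e1] at e2
  have e3 := mul_right_cancel₀ ha e2
  refine Units.ext ?_
  rw [← e3]
  simp [chi, map_prod, Units.coe_prod, Units.val_zpow_eq_zpow_val, map_zpow₀]

variable [Fintype F] {ρ : ℕ → ℕ} {η : ℕ → ℤ} {q : ℕ} {σ : F →+* F} {G : Subgroup (GL D.Idx F)}

/-- A `p`-element of the ground field subgroup is conjugate in it into `U`. -/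
theorem exists_conj_posU {p : ℕ} [Fact p.Prime] [CharP F p] {Js : Set (Set (Fin D.rank))} (C : Ctx h G Js)
    (hG : G ≤ D.group F) {u₀ : GL D.Idx F} (hu₀M : u₀ ∈ fixS σ G) (hu₀ : RegEl h.toStd u₀) {z : GL D.Idx F}
    (hz : z ∈ fixS σ G) {k : ℕ} (hk : z ^ p ^ k = 1) :
    ∃ m ∈ fixS σ G, m * z * m⁻¹ ∈ D.posUnipotent F := by
  classical
  set M := fixS σ G
  set P0 : Subgroup ↥M := (D.posUnipotent F).subgroupOf M
  have hp0 : IsPGroup p (D.posUnipotent F) := CfsgLib.InvCentralizers.ChevalleySteinberg.isPGroup_U h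
  have hP0 : IsPGroup p P0 := hp0.comap_of_injective M.subtype Subtype.coe_injective
  obtain ⟨S, hS⟩ := hP0.exists_le_sylow
  have hSP : (S : Subgroup ↥M) ≤ P0 := by
    by_contra hne
    have : Group.IsNilpotent ↥(S : Subgroup ↥M) := S.isPGroup'.isNilpotent
    have hlt : P0.subgroupOf (S : Subgroup ↥M) < ⊤ := by
      rw [lt_top_iff_ne_top]
      exact fun e => hne (Subgroup.subgroupOf_eq_top.1 e)
    obtain ⟨g, hg, hgU⟩ := SetLike.exists_of_lt (Group.normalizerCondition_of_isNilpotent _ hlt)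
    have hconj : ((g : ↥M) : GL D.Idx F) * u₀ * ((g : ↥M) : GL D.Idx F)⁻¹ ∈ D.posUnipotent F :=
      (Subgroup.mem_normalizer_iff.1 hg ⟨⟨u₀, hu₀M⟩, hS hu₀.1⟩).1 hu₀.1
    have hgB := mem_borel_of_conj_regular h hcoef (hG (g : ↥M).2.1) hu₀ hconj
    -- a `p`-element of the Borel subgroup of `G` is unipotent
    obtain ⟨T, hT⟩ := C.exists_sylow (p := p)
    set gG : ↥G := ⟨((g : ↥M) : GL D.Idx F), (g : ↥M).2.1⟩
    have hnorm : Subgroup.zpowers gG ≤ Subgroup.normalizer ((posT G : Subgroup ↥G) : Set ↥G) := by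
      rw [Subgroup.zpowers_le]
      refine Subgroup.mem_normalizer_iff.2 fun x => ⟨fun hx => Ctx.borT_conj_posT h (mem_borT.2 hgB) hx, fun hx => ?_⟩
      have := Ctx.borT_conj_posT h (inv_mem (mem_borT.2 hgB : gG ∈ borT G)) hx
      rwa [show gG⁻¹ * (gG * x * gG⁻¹) * gG⁻¹⁻¹ = x by group] at this
    have hgp : IsPGroup p (Subgroup.zpowers gG) := by
      obtain ⟨j, hj⟩ := S.isPGroup' g
      refine (IsPGroup.iff_orderOf.2 fun x => ?_)
      obtain ⟨x, i, rfl⟩ := x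
      have hg1 : gG ^ p ^ j = 1 := Subtype.ext (congrArg (fun y : ↥(S : Subgroup ↥M) => ((y : ↥M) : GL D.Idx F)) hj)
      obtain ⟨m, -, hm⟩ := (Nat.dvd_prime_pow (Fact.out : p.Prime)).1
        (orderOf_dvd_of_pow_eq_one (n := p ^ j) (show (gG ^ i) ^ p ^ j = 1 by
          rw [← zpow_natCast, ← zpow_mul, mul_comm, zpow_mul, zpow_natCast, hg1, one_zpow]))
      exact ⟨m, by rw [← hm, ← Subgroup.orderOf_coe]⟩
    have hTp : IsPGroup p (posT G) := hT ▸ T.isPGroup'
    have hle := T.is_maximal' (hgp.to_sup_of_normal_right' hTp hnorm) (by rw [hT]; exact le_sup_right)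
    have hmem : gG ∈ posT G := by
      rw [← hT, ← hle]
      exact Subgroup.mem_sup_left (Subgroup.mem_zpowers gG)
    exact hgU hmem
  have hzp : IsPGroup p (Subgroup.zpowers (⟨z, hz⟩ : ↥M)) := by
    refine IsPGroup.iff_orderOf.2 fun x => ?_
    obtain ⟨x, i, rfl⟩ := x
    have hz1 : (⟨z, hz⟩ : ↥M) ^ p ^ k = 1 := Subtype.ext hk
    obtain ⟨m, -, hm⟩ := (Nat.dvd_prime_pow (Fact.out : p.Prime)).1
      (orderOf_dvd_of_pow_eq_one (n := p ^ k) (show ((⟨z, hz⟩ : ↥M) ^ i) ^ p ^ k = 1 by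
        rw [← zpow_natCast, ← zpow_mul, mul_comm, zpow_mul, zpow_natCast, hz1, one_zpow]))
    exact ⟨m, by rw [← hm, ← Subgroup.orderOf_coe]⟩
  obtain ⟨T, hT⟩ := hzp.exists_le_sylow
  obtain ⟨m, hm⟩ := MulAction.exists_smul_eq ↥M T S
  refine ⟨m, m.2, ?_⟩
  suffices hmem : m * ⟨z, hz⟩ * m⁻¹ ∈ (S : Subgroup ↥M) from hSP hmem
  rw [← hm]
  show m * ⟨z, hz⟩ * m⁻¹ ∈ ((m • T : Sylow p ↥M) : Subgroup ↥M)
  rw [Sylow.coe_subgroup_smul]
  exact Subgroup.mem_pointwise_smul_iff_inv_smul_mem.2 (by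
    simpa [MulAut.smul_def, mul_assoc] using hT (Subgroup.mem_zpowers (⟨z, hz⟩ : ↥M)))

end CfsgLib.SubfieldTwisted
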